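import Cfsg.Agent.H9.PolarConj

/-!
# The polar space of a 3-transposition group with members having a common partner set

`Line D x a` is the set of members commuting with every common partner of `x` and `a`.
-/

set_option autoImplicit false

namespace Cfsg.Agent.H9.Polar

open Subgroup
open Cfsg.Agent.H17
open Cfsg.Agent.H9.Fischer (cj cj_injective cj_eq_self exists_cj Near Far cj_mem_iff common_cj
  near_pair common_ncard_const common_stable near_ncard_eq)

variable {G : Type*} [Group G]

/-- The members commuting with every common partner of `x` and `a`. -/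
def Line (D : Set G) (x a : G) : Set G := {z | z ∈ D ∧ ∀ e ∈ common D x a, Commute z e}

/-- The hypothesis: a primitive class in a centre-free group where the common partners of some
commuting pair do not determine the pair. -/
structure Setting (D : Set G) : Prop where
  cls : Cfsg.IsThreeTranspositionClass D
  prim : Cfsg.IsPrimitiveUnderConj D
  center_bot : Subgroup.center G = ⊥
  vline : ∃ x ∈ D, ∃ a ∈ Near D x, ∃ b ∈ D, b ≠ x ∧ b ≠ a ∧ common D x b = common D x a

variable {D : Set G}

theorem Setting.conj (S : Setting D) : ∀ g : G, ∀ d ∈ D, g * d * g⁻¹ ∈ D := class_conj S.cls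

theorem Setting.exists_pair (S : Setting D) : ∃ p ∈ D, ∃ q ∈ D, p ≠ q ∧ Commute p q := by
  obtain ⟨x, hx, a, ha, -⟩ := S.vline
  exact ⟨x, hx, a, ha.1, ha.2.1.symm, ha.2.2⟩

theorem near_symm {x a : G} (hx : x ∈ D) (ha : a ∈ Near D x) : x ∈ Near D a :=
  ⟨hx, ha.2.1.symm, ha.2.2.symm⟩

theorem mem_common_left {x a : G} (hx : x ∈ D) (hc : Commute x a) : x ∈ common D x a :=
  ⟨hx, Commute.refl x, hc.symm⟩

theorem mem_common_right {x a : G} (ha : a ∈ D) (hc : Commute x a) : a ∈ common D x a :=
  ⟨ha, hc, Commute.refl a⟩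

theorem left_mem_line {x a : G} (hx : x ∈ D) : x ∈ Line D x a := ⟨hx, fun _ he => he.2.1⟩

theorem right_mem_line {x a : G} (ha : a ∈ D) : a ∈ Line D x a := ⟨ha, fun _ he => he.2.2⟩

theorem line_comm (x a : G) : Line D x a = Line D a x := by rw [Line, Line, common_comm]

theorem line_mem_common {x a z : G} (hx : x ∈ D) (ha : a ∈ Near D x) (hz : z ∈ Line D x a) :
    z ∈ common D x a :=
  ⟨hz.1, (hz.2 x (mem_common_left hx ha.2.2)).symm,
    (hz.2 a (mem_common_right ha.1 ha.2.2)).symm⟩

theorem line_commute {x a z z' : G} (hx : x ∈ D) (ha : a ∈ Near D x) (hz : z ∈ Line D x a)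
    (hz' : z' ∈ Line D x a) : Commute z z' :=
  hz.2 z' (line_mem_common hx ha hz')

theorem common_subset_line {x a z z' : G} (hz : z ∈ Line D x a) (hz' : z' ∈ Line D x a) :
    common D x a ⊆ common D z z' := fun e he => ⟨he.1, hz.2 e he, hz'.2 e he⟩

theorem line_conj (S : Setting D) (g x a : G) :
    Line D (cj g x) (cj g a) = cj g '' Line D x a := by
  ext e
  obtain ⟨e', rfl⟩ := exists_cj g e
  rw [(cj_injective g).mem_set_image]
  simp only [Line, Set.mem_ofPred_eq, common_cj S.conj, Set.forall_mem_image, cj_mem_iff S.conj,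
    commute_cj]

variable [Finite G] (S : Setting D)
include S

theorem perp_ncard_eq {x y : G} (hx : x ∈ D) (hy : y ∈ D) :
    (common D x x).ncard = (common D y y).ncard := by
  obtain ⟨g, hg⟩ := class_transitive S.cls hx hy
  rw [← hg, show g * x * g⁻¹ = cj g x from rfl, common_cj S.conj,
    Set.ncard_image_of_injective _ (cj_injective g)]

theorem exists_partner_not_commute {p q : G} (hp : p ∈ D) (hq : q ∈ D) (hne : p ≠ q) :
    ∃ y ∈ D, Commute p y ∧ ¬ Commute q y := by
  by_contra h
  push Not at h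
  refine hne (vrel_eq S.cls S.prim S.exists_pair ⟨hp, hq, fun y hy => ⟨fun hc => ?_, h y hy⟩⟩)
  have hsub : common D p p ⊆ common D q q := fun e he => ⟨he.1, h e he.1 he.2.1, h e he.1 he.2.1⟩
  have heq := Set.eq_of_subset_of_ncard_le hsub (perp_ncard_eq S hq hp).le (Set.toFinite _)
  have : y ∈ common D p p := by rw [heq]; exact ⟨hy, hc, hc⟩
  exact this.2.1

theorem common_pair_ncard {x a x' a' : G} (hx : x ∈ D) (ha : a ∈ Near D x) (hx' : x' ∈ D)
    (ha' : a' ∈ Near D x') : (common D x a).ncard = (common D x' a').ncard := by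
  obtain ⟨g, rfl, rfl⟩ := near_pair S.cls S.prim S.exists_pair hx ha hx' ha'
  rw [common_cj S.conj, Set.ncard_image_of_injective _ (cj_injective g)]

theorem common_eq_of_line {x a z z' : G} (hx : x ∈ D) (ha : a ∈ Near D x) (hz : z ∈ Line D x a)
    (hz' : z' ∈ Line D x a) (hne : z ≠ z') : common D z z' = common D x a :=
  (Set.eq_of_subset_of_ncard_le (common_subset_line hz hz')
    (common_pair_ncard S hz.1 ⟨hz'.1, hne.symm, line_commute hx ha hz hz'⟩ hx ha).le
    (Set.toFinite _)).symm

theorem line_eq {x a z z' : G} (hx : x ∈ D) (ha : a ∈ Near D x) (hz : z ∈ Line D x a)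
    (hz' : z' ∈ Line D x a) (hne : z ≠ z') : Line D z z' = Line D x a := by
  rw [Line, Line, common_eq_of_line S hx ha hz hz' hne]

theorem line_ncard_eq {x a x' a' : G} (hx : x ∈ D) (ha : a ∈ Near D x) (hx' : x' ∈ D)
    (ha' : a' ∈ Near D x') : (Line D x a).ncard = (Line D x' a').ncard := by
  obtain ⟨g, rfl, rfl⟩ := near_pair S.cls S.prim S.exists_pair hx ha hx' ha'
  rw [line_conj S, Set.ncard_image_of_injective _ (cj_injective g)]

theorem three_le_line {x a : G} (hx : x ∈ D) (ha : a ∈ Near D x) : 3 ≤ (Line D x a).ncard := by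
  obtain ⟨x₀, hx₀, a₀, ha₀, b, hb, hbx, hba, hcb⟩ := S.vline
  have hbm : b ∈ Line D x₀ a₀ := ⟨hb, fun e he => by rw [← hcb] at he; exact he.2.2⟩
  rw [line_ncard_eq S hx ha hx₀ ha₀]
  calc 3 = ({b, x₀, a₀} : Set G).ncard := by
        rw [Set.ncard_insert_of_notMem (by simp [hbx, hba]) (Set.toFinite _),
          Set.ncard_pair ha₀.2.1.symm]
    _ ≤ _ := Set.ncard_le_ncard (Set.insert_subset hbm (Set.insert_subset (left_mem_line hx₀)
        (Set.singleton_subset_iff.2 (right_mem_line ha₀.1)))) (Set.toFinite _)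

theorem commute_all_of_two {x a z z' d : G} (hx : x ∈ D) (ha : a ∈ Near D x)
    (hz : z ∈ Line D x a) (hz' : z' ∈ Line D x a) (hne : z ≠ z') (hd : d ∈ D) (h : Commute d z)
    (h' : Commute d z') {w : G} (hw : w ∈ Line D x a) : Commute d w := by
  have : d ∈ common D z z' := ⟨hd, h.symm, h'.symm⟩
  rw [common_eq_of_line S hx ha hz hz' hne] at this
  exact (hw.2 d this).symm

/-- The member exchanging `x` and `a` stabilises their line. -/
theorem swap_mem_line {d x a b : G} (hd : d ∈ D) (hx : x ∈ D) (ha : a ∈ Near D x)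
    (hdx : ¬ Commute d x) (hda : ¬ Commute d a) (hb : b ∈ Line D x a) :
    cj (cj x d * cj a d) b ∈ Line D x a := by
  have h := line_conj S (cj x d * cj a d) x a
  rw [swap_left S.cls.1 S.conj hd hx ha.1 ha.2.2 hdx hda,
    swap_right S.cls.1 S.conj hd hx ha.1 ha.2.2 hdx hda, line_comm a x] at h
  rw [h]; exact ⟨b, hb, rfl⟩

/-- The pairing of the other points of a line given by a member commuting with none of some. -/
theorem even_complement {d x a : G} (hd : d ∈ D) (hx : x ∈ D) (ha : a ∈ Near D x)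
    (hdx : ¬ Commute d x) (hda : ¬ Commute d a) (T : Set G) (hT : T ⊆ Line D x a) (hxT : x ∉ T)
    (haT : a ∉ T) (hnc : ∀ b ∈ T, ¬ Commute d b)
    (hmem : ∀ b ∈ T, cj (cj x d * cj a d) b ∈ T) : Even T.ncard := by
  refine even_ncard_of_involution (Set.toFinite T) _ hmem
    (fun b _ => swap_involutive S.cls.1 S.conj hd hx ha.1 ha.2.2 hdx hda b) fun b hb => ?_
  have hbL := hT hb
  exact swap_third_ne S.cls.1 S.conj hd hx ha.1 hbL.1 ha.2.2
    (line_commute hx ha (left_mem_line hx) hbL) (line_commute hx ha (right_mem_line ha.1) hbL)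
    hdx hda (hnc b hb) ha.2.1.symm

theorem exists_third {x a : G} (hx : x ∈ D) (ha : a ∈ Near D x) :
    ∃ b ∈ Line D x a, b ≠ x ∧ b ≠ a := by
  by_contra h
  push Not at h
  have h1 : Line D x a ⊆ {x, a} := fun z hz => by
    by_cases hzx : z = x
    · exact Or.inl hzx
    · exact Or.inr (h z hz hzx)
  have := Set.ncard_le_ncard h1 (Set.toFinite _)
  rw [Set.ncard_pair ha.2.1.symm] at this
  have := three_le_line S hx ha
  omega

/-- A member with exactly one partner on a line makes the line odd. -/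
theorem line_odd {x a : G} (hx : x ∈ D) (ha : a ∈ Near D x) : Odd (Line D x a).ncard := by
  obtain ⟨d, hd, hxd, had⟩ := exists_partner_not_commute S hx ha.1 ha.2.1.symm
  have hnc : ∀ z ∈ Line D x a, z ≠ x → ¬ Commute d z := fun z hz hzx hc =>
    had (commute_all_of_two S hx ha hz (left_mem_line hx) hzx hd hc hxd.symm
      (right_mem_line ha.1)).symm
  have h3 := three_le_line S hx ha
  obtain ⟨b, hb, hbx, hba⟩ := exists_third S hx ha
  have hb' : b ∈ Near D a := ⟨hb.1, hba, line_commute hx ha (right_mem_line ha.1) hb⟩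
  have hL : Line D a b = Line D x a := line_eq S hx ha (right_mem_line ha.1) hb hba.symm
  have hda : ¬ Commute d a := fun h => had h.symm
  have hdb := hnc b hb hbx
  have hσx : cj (cj a d * cj b d) x = x :=
    cj_eq_self (((commute_conj' (line_commute hx ha (left_mem_line hx)
      (right_mem_line ha.1)) hxd).mul_left
      (commute_conj' (line_commute hx ha (left_mem_line hx) hb) hxd)))
  have hev := even_complement S hd ha.1 hb' hda hdb (Line D x a \ {x, a, b})
    (by rw [hL]; exact Set.sdiff_subset) (by simp) (by simp)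
    (fun z hz => hnc z hz.1 fun h => hz.2 (Or.inl h)) (fun z hz => by
      refine ⟨hL ▸ swap_mem_line S hd ha.1 hb' hda hdb (hL.symm ▸ hz.1), ?_⟩
      rintro (h | h | h)
      · exact hz.2 (Or.inl (cj_injective _ (h.trans hσx.symm)))
      · exact hz.2 (Or.inr (Or.inr (cj_injective _ (h.trans
          (swap_right S.cls.1 S.conj hd ha.1 hb.1 hb'.2.2 hda hdb).symm))))
      · exact hz.2 (Or.inr (Or.inl (cj_injective _ (h.trans
          (swap_left S.cls.1 S.conj hd ha.1 hb.1 hb'.2.2 hda hdb).symm)))))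
  have hsub : ({x, a, b} : Set G) ⊆ Line D x a := Set.insert_subset (left_mem_line hx)
    (Set.insert_subset (right_mem_line ha.1) (Set.singleton_subset_iff.2 hb))
  have hc : ({x, a, b} : Set G).ncard = 3 := by
    rw [Set.ncard_insert_of_notMem (by simp [ha.2.1.symm, hbx.symm]) (Set.toFinite _),
      Set.ncard_pair hba.symm]
  have := Set.ncard_sdiff_add_ncard_of_subset hsub (Set.toFinite _)
  rw [hc] at this
  rw [← this]
  exact hev.add_odd (by decide)
where
  commute_conj' {p q r : G} (h1 : Commute p q) (h2 : Commute p r) : Commute (cj q r) p :=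
    (((h1.mul_right h2).mul_right h1.inv_right).symm)

/-- Every member commutes with some point of every line. -/
theorem meets {x a d : G} (hx : x ∈ D) (ha : a ∈ Near D x) (hd : d ∈ D) :
    ∃ z ∈ Line D x a, Commute d z := by
  by_contra h
  push Not at h
  have hdx := h x (left_mem_line hx)
  have hda := h a (right_mem_line ha.1)
  have hev := even_complement S hd hx ha hdx hda (Line D x a \ {x, a}) Set.sdiff_subset
    (by simp) (by simp) (fun z hz => h z hz.1) (fun z hz => by
      refine ⟨swap_mem_line S hd hx ha hdx hda hz.1, ?_⟩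
      rintro (h' | h')
      · exact hz.2 (Or.inr (cj_injective _ (h'.trans
          (swap_right S.cls.1 S.conj hd hx ha.1 ha.2.2 hdx hda).symm)))
      · exact hz.2 (Or.inl (cj_injective _ (h'.trans
          (swap_left S.cls.1 S.conj hd hx ha.1 ha.2.2 hdx hda).symm))))
  have := Set.ncard_sdiff_add_ncard_of_subset (Set.insert_subset (left_mem_line hx)
    (Set.singleton_subset_iff.2 (right_mem_line ha.1))) (Set.toFinite (Line D x a))
  rw [Set.ncard_pair ha.2.1.symm] at this
  have hodd := line_odd S hx ha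
  rw [← this] at hodd
  exact (Nat.not_odd_iff_even.2 (hev.add (by decide))) hodd

/-- The point of the line through `x` and `e` commuting with `y`. -/
theorem exists_trace {x y e : G} (hx : x ∈ D) (hy : y ∈ Far D x) (he : e ∈ Near D x) :
    ∃ m ∈ common D x y, m ∈ Line D x e ∧ m ∈ Near D x := by
  obtain ⟨m, hm, hc⟩ := meets S hx he hy.1
  have hmx : m ≠ x := fun h => hy.2 (h ▸ hc).symm
  have hxm := (hm.2 x (mem_common_left hx he.2.2)).symm
  exact ⟨m, ⟨hm.1, hxm, hc⟩, hm, hm.1, hmx, hxm⟩

theorem trace_unique {x y e m m' : G} (hx : x ∈ D) (hy : y ∈ Far D x) (he : e ∈ Near D x)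
    (hm : m ∈ common D x y) (hmL : m ∈ Line D x e) (hm' : m' ∈ common D x y)
    (hmL' : m' ∈ Line D x e) : m = m' := by
  by_contra hne
  exact hy.2 (commute_all_of_two S hx he hmL hmL' hne hy.1 hm.2.2 hm'.2.2
    (left_mem_line hx)).symm

theorem common_near {x y m : G} (hy : y ∈ Far D x) (hm : m ∈ common D x y) : m ∈ Near D x :=
  ⟨hm.1, fun h => hy.2 (h ▸ hm.2.2).symm, hm.2.1⟩

theorem common_exists_not_commute {x y m : G} (hx : x ∈ D) (hy : y ∈ Far D x)
    (hm : m ∈ common D x y) : ∃ m' ∈ common D x y, ¬ Commute m m' := by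
  by_contra h
  push Not at h
  have hmN := common_near S hy hm
  obtain ⟨e, he, hxe, hme⟩ := exists_partner_not_commute S hx hm.1 hmN.2.1.symm
  have hex : e ≠ x := fun h => hme (h ▸ hm.2.1.symm)
  obtain ⟨n, hn, hnL, hnN⟩ := exists_trace S hx hy (⟨he, hex, hxe⟩ : e ∈ Near D x)
  exact hme (commute_all_of_two S hx ⟨he, hex, hxe⟩ hnL (left_mem_line hx) hnN.2.1 hm.1
    (h n hn) hm.2.1.symm (right_mem_line he))

/-- Apart from `x`, no member of the line of a non-commuting pair commutes with `x`. -/
theorem far_line_not_commute {x y z : G} (hx : x ∈ D) (hy : y ∈ Far D x) (hz : z ∈ Line D x y)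
    (hzx : z ≠ x) : ¬ Commute x z := by
  intro hc
  have hzN : z ∈ Near D x := ⟨hz.1, hzx, hc⟩
  obtain ⟨m, hm, hmL, hmN⟩ := exists_trace S hx hy hzN
  obtain ⟨m', hm', hmm'⟩ := common_exists_not_commute S hx hy hm
  exact hmm' (commute_all_of_two S hx hzN (left_mem_line hx) (right_mem_line hz.1) hzx.symm hm'.1
    hm'.2.1.symm (hz.2 m' hm').symm hmL).symm

theorem far_common_eq {x y z : G} (hx : x ∈ D) (hy : y ∈ Far D x) (hz : z ∈ Line D x y)
    (hzx : z ≠ x) : common D x z = common D x y :=
  (Set.eq_of_subset_of_ncard_le (s := common D x y) (t := common D x z)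
    (fun e he => ⟨he.1, he.2.1, hz.2 e he⟩)
    (common_ncard_const S.cls S.prim S.exists_pair hx
      (⟨hz.1, far_line_not_commute S hx hy hz hzx⟩ : z ∈ Far D x) hx hy).le (Set.toFinite _)).symm

theorem far_line_pairwise {x y z z' : G} (hx : x ∈ D) (hy : y ∈ Far D x) (hz : z ∈ Line D x y)
    (hz' : z' ∈ Line D x y) (hne : z ≠ z') : ¬ Commute z z' := by
  by_cases hzx : z = x
  · subst hzx; exact far_line_not_commute S hx hy hz' hne.symm
  have hL : Line D z x = Line D x y := by
    rw [line_comm, Line, Line, far_common_eq S hx hy hz hzx]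
  exact far_line_not_commute S hz.1
    ⟨hx, fun h => far_line_not_commute S hx hy hz hzx h.symm⟩ (hL.symm ▸ hz') hne.symm

theorem exists_near {x : G} (hx : x ∈ D) : ∃ a, a ∈ Near D x := by
  obtain ⟨x₀, hx₀, a₀, ha₀, -⟩ := S.vline
  obtain ⟨g, hg⟩ := class_transitive S.cls hx₀ hx
  exact ⟨cj g a₀, by rw [← hg, show g * x₀ * g⁻¹ = cj g x₀ from rfl, Fischer.near_conj S.conj]; exact ⟨a₀, ha₀, rfl⟩⟩

/-- An element fixing `x`, its partners and one other member is trivial. -/
theorem fix_eq_one {g x y : G} (hx : x ∈ D) (hy : y ∈ Far D x) (hgx : Commute g x)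
    (hgy : Commute g y) (hN : ∀ e ∈ Near D x, Commute g e) : g = 1 := by
  let F : Set G := {d | d ∈ Far D x ∧ Commute g d}
  have hp : ∀ d ∈ D, Commute x d → Commute g d := fun d hd hc => by
    by_cases hdx : d = x
    · rwa [hdx]
    · exact hN d ⟨hd, hdx, hc⟩
  have hcl : ∀ d ∈ F, ∀ e ∈ Far D x, Commute d e → e ∈ F := by
    rintro d ⟨hd, hgd⟩ e he hde
    by_cases hed : e = d
    · exact hed ▸ ⟨hd, hgd⟩
    have heN : e ∈ Near D d := ⟨he.1, hed, hde⟩
    obtain ⟨m, hm, hmd⟩ : ∃ m ∈ Line D d e, Commute x m := meets S hd.1 heN hx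
    have hmd' : m ≠ d := fun h => hd.2 (h ▸ hmd)
    have hge : cj g e ∈ Line D x e := ⟨(cj_mem_iff S.conj).2 he.1, fun f hf => by
      rw [← cj_eq_self (hp f hf.1 hf.2.1), commute_cj]; exact hf.2.2⟩
    refine ⟨he, commute_of_cj_eq ?_⟩
    by_contra hne
    refine far_line_pairwise S hx he hge (right_mem_line he.1) hne ?_
    have hL : Line D d m = Line D d e :=
      line_eq S hd.1 heN (left_mem_line hd.1) hm hmd'.symm
    have hm' : cj g e ∈ Line D d e := by
      rw [← hL]
      have h := line_conj S g d m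
      rw [cj_eq_self hgd, cj_eq_self (hp m hm.1 hmd), hL] at h
      rw [hL, h]
      exact ⟨e, right_mem_line he.1, rfl⟩
    exact line_commute hd.1 heN hm' (right_mem_line he.1)
  have hall : ∀ d ∈ Far D x, d ∈ F := by
    intro d hd
    by_contra hdF
    have hline : ∀ z ∈ F, common D x d = common D x z := by
      intro z hz
      have hdz : ¬ Commute d z := fun h => hdF (hcl z hz d hd h.symm)
      have hzd : z ∈ Far D d := ⟨hz.1.1, hdz⟩
      have hxcom : ∀ w ∈ common D d z, Commute x w := fun w hw => by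
        by_contra hxw
        exact hdF (hcl w (hcl z hz w ⟨hw.1, hxw⟩ hw.2.2) d hd hw.2.1.symm)
      have h1 : common D d z = common D x d := Set.eq_of_subset_of_ncard_le
        (fun w hw => ⟨hw.1, hxcom w hw, hw.2.1⟩)
        (common_ncard_const S.cls S.prim S.exists_pair hx hd hd.1 hzd).le (Set.toFinite _)
      have h2 : common D d z = common D x z := Set.eq_of_subset_of_ncard_le
        (fun w hw => ⟨hw.1, hxcom w hw, hw.2.2⟩)
        (common_ncard_const S.cls S.prim S.exists_pair hx hz.1 hd.1 hzd).le (Set.toFinite _)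
      exact h1.symm.trans h2
    have hyF : y ∈ F := ⟨hy, hgy⟩
    obtain ⟨a, ha⟩ := exists_near S hx
    obtain ⟨m, hm, -, hmN⟩ := exists_trace S hx hy ha
    have hmy : m ∈ Near D y := ⟨hm.1, fun h => hy.2 (h ▸ hm.2.1), hm.2.2⟩
    obtain ⟨z, hz, hzy, hzm⟩ := exists_third S hy.1 hmy
    have hzx : ¬ Commute x z := fun h => hy.2
      (commute_all_of_two S hy.1 hmy hz (right_mem_line hm.1) hzm hx h hm.2.1 (left_mem_line hy.1))
    have hyz : Commute y z := line_commute hy.1 hmy (left_mem_line hy.1) hz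
    have hzF := hcl y hyF z ⟨hz.1, hzx⟩ hyz
    have hc := (hline y hyF).symm.trans (hline z hzF)
    refine far_line_pairwise S hx hy (right_mem_line hy.1) ⟨hz.1, fun f hf => ?_⟩ hzy.symm hyz
    rw [hc] at hf
    exact hf.2.2
  have hfix : ∀ d ∈ D, Commute g d := fun d hd => by
    by_cases hc : Commute x d
    · exact hp d hd hc
    · exact (hall d ⟨hd, hc⟩).2
  have hmem : g ∈ center G := by
    rw [mem_center_iff]
    intro h
    have hle : closure D ≤ centralizer {g} := (closure_le _).2 fun d hd =>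
      mem_centralizer_iff.2 fun w hw => by rw [Set.mem_singleton_iff.1 hw]; exact (hfix d hd).eq
    exact (mem_centralizer_iff.1 (hle (S.cls.2.2.symm ▸ mem_top h)) g rfl).symm
  rwa [S.center_bot, mem_bot] at hmem

end Cfsg.Agent.H9.Polar
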