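import Cfsg.Agent.H9.PolarBasic

/-!
# Lines have three or five points, hyperbolic lines three
-/

set_option autoImplicit false

namespace Cfsg.Agent.H9.Polar

open Subgroup
open Cfsg.Agent.H17
open Cfsg.Agent.H9.Fischer (cj cj_injective cj_eq_self exists_cj Near Far cj_mem_iff common_cj
  near_pair common_ncard_const common_stable near_ncard_eq near_conj three_pow_ncard)

variable {G : Type*} [Group G] [Finite G] {D : Set G} (S : Setting D)
include S

theorem line_of_near {x e e' : G} (hx : x ∈ D) (he : e ∈ Near D x) (he' : e' ∈ Line D x e)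
    (hne : e' ≠ x) : e' ∈ Near D x ∧ Line D x e' = Line D x e :=
  ⟨⟨he'.1, hne, line_commute hx he (left_mem_line hx) he'⟩,
    line_eq S hx he (left_mem_line hx) he' hne.symm⟩

theorem line_ne_of_not_commute {x a e : G} (hx : x ∈ D) (ha : a ∈ Near D x)
    (hae : ¬ Commute a e) {z : G} (hz : z ∈ Line D x a) (hzx : z ≠ x) (he : e ∈ Near D x) :
    ¬ Commute z e := fun h =>
  hae (commute_all_of_two S hx ha (left_mem_line hx) hz hzx.symm he.1 he.2.2.symm h.symm
    (right_mem_line ha.1)).symm

/-- Conjugation by the product of two points of a line at `x` moves every partner of `x` inside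
its line, without a fixed point unless it commutes with the whole line. -/
theorem translate {x a b e : G} (hx : x ∈ D) (ha : a ∈ Near D x) (hb : b ∈ Line D x a)
    (hbx : b ≠ x) (he : e ∈ Near D x) :
    cj (a * b) e ∈ Line D x e ∧ cj (a * b) e ≠ x ∧
      (¬ Commute a e → b ≠ a → cj (a * b) e ≠ e) := by
  have hab : Commute a b := line_commute hx ha (right_mem_line ha.1) hb
  have hxb : Commute x b := line_commute hx ha (left_mem_line hx) hb
  have hgx : Commute (a * b) x := ha.2.2.symm.mul_left hxb.symm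
  refine ⟨?_, fun h => he.2.1 (cj_injective (a * b) (h.trans (cj_eq_self hgx).symm)), ?_⟩
  · by_cases hae : Commute a e
    · have hbe : Commute e b := commute_all_of_two S hx ha (left_mem_line hx)
        (right_mem_line ha.1) ha.2.1.symm he.1 he.2.2.symm hae.symm hb
      rw [cj_eq_self (hae.mul_left hbe.symm)]
      exact right_mem_line he.1
    · have hbe : ¬ Commute b e := line_ne_of_not_commute S hx ha hae hb hbx he
      have hpN : cj a e ∈ Near D x := by
        have h := near_conj S.conj a x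
        rw [cj_eq_self ha.2.2.symm] at h
        rw [h]; exact ⟨e, he, rfl⟩
      have hq : cj b e ∈ Line D x (cj a e) := by
        refine ⟨(cj_mem_iff S.conj).2 he.1, fun f ⟨hf, hxf, hpf⟩ => ?_⟩
        have h1 : Commute (cj e f) a := by
          rw [← commute_cj e, cj_cj_self S.cls.1 he.1, ← braid_cj S.cls.1 ha.1 he.1 hae]
          exact hpf.symm
        have h2 : Commute (cj e f) x := by
          have := (commute_cj e).2 hxf.symm
          rwa [cj_eq_self he.2.2.symm] at this
        have h3 : Commute (cj e f) b := commute_all_of_two S hx ha (left_mem_line hx)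
          (right_mem_line ha.1) ha.2.1.symm ((cj_mem_iff S.conj).2 hf) h2 h1 hb
        have h4 := (commute_cj e).2 h3
        rw [cj_cj_self S.cls.1 he.1, ← braid_cj S.cls.1 hb.1 he.1 hbe] at h4
        exact h4.symm
      have h := line_conj S a x (cj a e)
      rw [cj_eq_self ha.2.2.symm, cj_cj_self S.cls.1 ha.1] at h
      rw [h, cj_mul]
      exact ⟨_, hq, rfl⟩
  · intro hae hne h
    have hbe : ¬ Commute b e := line_ne_of_not_commute S hx ha hae hb hbx he
    rw [cj_mul] at h
    have h1 := congrArg (cj a) h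
    rw [cj_cj_self S.cls.1 ha.1, braid_cj S.cls.1 hb.1 he.1 hbe, braid_cj S.cls.1 ha.1 he.1 hae]
      at h1
    exact hne (cj_injective e h1)

theorem translate_line_eq {x a b e : G} (hx : x ∈ D) (ha : a ∈ Near D x) (hb : b ∈ Line D x a)
    (hbx : b ≠ x) (he : e ∈ Near D x) : Line D x (cj (a * b) e) = Line D x e := by
  obtain ⟨h1, h2, -⟩ := translate S hx ha hb hbx he
  exact (line_of_near S hx he h1 h2).2

/-- The translations by pairs from one line are transitive on every line they move. -/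
theorem translate_surjective {x a e m : G} (hx : x ∈ D) (ha : a ∈ Near D x) (he : e ∈ Near D x)
    (hae : ¬ Commute a e) (hm : m ∈ Line D x e) (hmx : m ≠ x) :
    ∃ v ∈ Line D x a, v ≠ x ∧ cj (a * v) m = e := by
  obtain ⟨hmN, hmL⟩ := line_of_near S hx he hm hmx
  have ham : ¬ Commute a m := fun h => hae (commute_all_of_two S hx he (left_mem_line hx) hm
    hmx.symm ha.1 ha.2.2.symm h (right_mem_line he.1))
  let A : Set G := Line D x a \ {x}
  let E : Set G := Line D x e \ {x}
  have hmaps : (fun v => cj (a * v) m) '' A ⊆ E := by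
    rintro _ ⟨v, ⟨hv, hvx⟩, rfl⟩
    obtain ⟨h1, h2, -⟩ := translate S hx ha hv hvx hmN
    exact ⟨hmL ▸ h1, h2⟩
  have hinj : Set.InjOn (fun v => cj (a * v) m) A := by
    rintro v ⟨hv, hvx⟩ v' ⟨hv', hvx'⟩ h
    simp only [cj_mul] at h
    have h' := cj_injective a h
    by_contra hne
    obtain ⟨hvN, hvL⟩ := line_of_near S hx ha hv hvx
    have hvm := line_ne_of_not_commute S hx ha ham hv hvx hmN
    refine (translate S hx hvN (hvL.symm ▸ hv') hvx' hmN).2.2 hvm (Ne.symm hne) ?_
    rw [cj_mul, ← h', cj_cj_self S.cls.1 hv.1]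
  have hcard : E.ncard ≤ ((fun v => cj (a * v) m) '' A).ncard := by
    rw [hinj.ncard_image, Set.ncard_sdiff_singleton_of_mem (left_mem_line hx),
      Set.ncard_sdiff_singleton_of_mem (left_mem_line hx), line_ncard_eq S hx he hx ha]
  have hE := Set.eq_of_subset_of_ncard_le hmaps hcard (Set.toFinite _)
  have : e ∈ E := ⟨right_mem_line he.1, he.2.1⟩
  rw [← hE] at this
  obtain ⟨v, ⟨hv, hvx⟩, h⟩ := this
  exact ⟨v, hv, hvx, h⟩

/-- For any four points of a line, the product of them is a fifth point. -/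
theorem quad {o o' x a b p : G} (ho : o ∈ D) (ho' : o' ∈ Near D o) (hx : x ∈ Line D o o')
    (ha : a ∈ Line D o o') (hb : b ∈ Line D o o') (hp : p ∈ Line D o o') (hxa : x ≠ a)
    (hxb : x ≠ b) (hab : a ≠ b) (hpx : p ≠ x) (hpa : p ≠ a) (hpb : p ≠ b) :
    ∃ c ∈ Line D o o', c ≠ x ∧ c ≠ a ∧ c ≠ b ∧ c ≠ p ∧ x * a * b * c * p = 1 := by
  have hD := S.cls.1
  have hcomm : ∀ {z z'}, z ∈ Line D o o' → z' ∈ Line D o o' → Commute z z' :=
    line_commute ho ho'
  have haN : a ∈ Near D x := ⟨ha.1, hxa.symm, hcomm hx ha⟩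
  have hL : Line D x a = Line D o o' := line_eq S ho ho' hx ha hxa
  obtain ⟨y, hy, hpy, hxy'⟩ := exists_partner_not_commute S hp.1 hx.1 hpx
  have hnc : ∀ z ∈ Line D o o', z ≠ p → ¬ Commute y z := fun z hz hzp h =>
    hxy' (commute_all_of_two S ho ho' hz hp hzp hy h hpy.symm hx).symm
  have hyx := hnc x hx hpx.symm
  have hya := hnc a ha hpa.symm
  have hyb := hnc b hb hpb.symm
  set σ := cj x y * cj a y with hσ
  set c := cj σ b with hc
  have hcL : c ∈ Line D o o' := hL ▸ swap_mem_line S hy hx.1 haN hyx hya (hL.symm ▸ hb)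
  have hσx := swap_left hD S.conj hy hx.1 ha.1 haN.2.2 hyx hya
  have hσa := swap_right hD S.conj hy hx.1 ha.1 haN.2.2 hyx hya
  have hcx : c ≠ x := fun h => hab (cj_injective σ (hσa.trans h.symm))
  have hca : c ≠ a := fun h => hxb (cj_injective σ (hσx.trans h.symm))
  have hcb : c ≠ b := swap_third_ne hD S.conj hy hx.1 ha.1 hb.1 haN.2.2 (hcomm hx hb)
    (hcomm ha hb) hyx hya hyb hxa
  have hcy : ¬ Commute y c := swap_third_not_commute hD S.conj hy hx.1 ha.1 hb.1 haN.2.2
    (hcomm hx hb) (hcomm ha hb) hyx hya hyb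
  have hcp : c ≠ p := fun h => hcy (h ▸ hpy.symm)
  refine ⟨c, hcL, hcx, hca, hcb, hcp, ?_⟩
  set g := x * a * b * c * p with hg
  have hgy : Commute g y :=
    ((four_commute hD S.conj hy hx.1 ha.1 hb.1 haN.2.2 (hcomm hx hb) (hcomm ha hb) hyx hya hyb
      (hcomm hx hcL) (hcomm ha hcL) (hcomm hb hcL)).symm).mul_left hpy
  have hgL : ∀ z ∈ Line D o o', Commute g z := fun z hz =>
    ((((hcomm hx hz).mul_left (hcomm ha hz)).mul_left (hcomm hb hz)).mul_left
      (hcomm hcL hz)).mul_left (hcomm hp hz)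
  have hyF : y ∈ Far D x := ⟨hy, fun h => hyx h.symm⟩
  refine fix_eq_one S hx.1 hyF (hgL x hx) hgy fun e he => ?_
  by_cases hae : Commute a e
  · have hall : ∀ z ∈ Line D o o', Commute z e := fun z hz =>
      (commute_all_of_two S hx.1 haN (left_mem_line hx.1) (right_mem_line ha.1) hxa he.1
        he.2.2.symm hae.symm (hL.symm ▸ hz)).symm
    exact ((((hall x hx).mul_left (hall a ha)).mul_left (hall b hb)).mul_left
      (hall c hcL)).mul_left (hall p hp)
  obtain ⟨m, hm, hmL, hmN⟩ := exists_trace S hx.1 hyF he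
  have hLm : Line D x m = Line D x e := (line_of_near S hx.1 he hmL hmN.2.1).2
  -- `g` fixes the trace
  have hgm : cj g m = m := by
    have hcN : c ∈ Near D x := ⟨hcL.1, hcx, hcomm hx hcL⟩
    have hLc : Line D x c = Line D o o' := line_eq S ho ho' hx hcL hcx.symm
    obtain ⟨h1, h2, -⟩ := translate S hx.1 hcN (hLc.symm ▸ hp) hpx hmN
    obtain ⟨hm1, hLm1⟩ := line_of_near S hx.1 hmN h1 h2
    obtain ⟨h3, h4, -⟩ := translate S hx.1 haN (hL.symm ▸ hb) hxb.symm hm1
    rw [hLm1] at h3
    have hgm1 : cj g m = cj (a * b) (cj (c * p) m) := by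
      have hxx : Commute x (cj (a * b) (cj (c * p) m)) := line_commute hx.1 hmN (left_mem_line hx.1) h3
      rw [hg, show x * a * b * c * p = x * ((a * b) * (c * p)) by simp only [mul_assoc], cj_mul,
        cj_mul, cj_eq_self hxx]
    have hmem : cj g m ∈ common D x y := by
      refine ⟨(cj_mem_iff S.conj).2 hm.1, ?_, ?_⟩
      · have := (commute_cj g).2 hm.2.1
        rwa [cj_eq_self (hgL x hx)] at this
      · have := (commute_cj g).2 hm.2.2
        rwa [cj_eq_self hgy] at this
    exact trace_unique S hx.1 hyF he hmem (hLm ▸ hgm1 ▸ h3) hm hmL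
  obtain ⟨v, hv, -, hve⟩ := translate_surjective S hx.1 haN he hae hmL hmN.2.1
  rw [← hve]
  have hgav : Commute g (a * v) := (hgL a ha).mul_right (hgL v (hL ▸ hv))
  refine commute_of_cj_eq ?_
  rw [cj_cj_of_commute hgav, hgm]

/-- A line has three or five points. -/
theorem line_card {x a : G} (hx : x ∈ D) (ha : a ∈ Near D x) :
    (Line D x a).ncard = 3 ∨ (Line D x a).ncard = 5 := by
  have h3 := three_le_line S hx ha
  obtain ⟨j, hj⟩ := line_odd S hx ha
  by_contra hcon
  have h6 : 6 ≤ (Line D x a).ncard := by omega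
  have hcomm : ∀ {z z'}, z ∈ Line D x a → z' ∈ Line D x a → Commute z z' := line_commute hx ha
  have pick : ∀ T : List G, T.length ≤ 5 → ∃ z ∈ Line D x a, z ∉ T := fun T hT => by
    classical
    by_contra h
    push Not at h
    have h1 : Line D x a ⊆ (T.toFinset : Set G) := fun z hz => by
      simpa using h z hz
    have := Set.ncard_le_ncard h1 (Finset.finite_toSet _)
    rw [Set.ncard_coe_finset] at this
    have := List.toFinset_card_le T
    omega
  obtain ⟨x₁, h1, -⟩ := pick [] (by simp)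
  obtain ⟨x₂, h2, n2⟩ := pick [x₁] (by simp)
  obtain ⟨x₃, h3', n3⟩ := pick [x₁, x₂] (by simp)
  obtain ⟨p, hp, np⟩ := pick [x₁, x₂, x₃] (by simp)
  simp only [List.mem_cons, List.not_mem_nil, or_false, not_or] at n2 n3 np
  obtain ⟨c, hc, hc1, hc2, hc3, hcp, hprod⟩ :=
    quad S hx ha h1 h2 h3' hp (Ne.symm n2) (Ne.symm n3.1) (Ne.symm n3.2) np.1 np.2.1 np.2.2
  obtain ⟨d, hd, nd⟩ := pick [x₁, x₂, x₃, p, c] (by simp)
  simp only [List.mem_cons, List.not_mem_nil, or_false, not_or] at nd
  obtain ⟨e, he, he1, he2, hep, hed, hprod'⟩ :=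
    quad S hx ha h1 h2 hp hd (Ne.symm n2) (Ne.symm np.1) (Ne.symm np.2.1) nd.1 nd.2.1 nd.2.2.2.1
  have sq : ∀ {z}, z ∈ Line D x a → z * z = 1 := fun hz => sq_one S.cls.1 hz.1
  have swapR : ∀ {u z w}, z ∈ Line D x a → w ∈ Line D x a → u * z * w = u * w * z := fun hz hw => by
    rw [mul_assoc, (hcomm hz hw).eq, mul_assoc]
  -- `x₃ * c = e * d`
  have hxc : x₃ * c = e * d := by
    have h := hprod.trans hprod'.symm
    rw [swapR (u := x₁ * x₂ * x₃) hc hp, swapR (u := x₁ * x₂) h3' hp] at h
    simpa only [mul_assoc, mul_right_inj] using h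
  have he3 : e ≠ x₃ := fun h => nd.2.2.2.2 (mul_left_cancel (h ▸ hxc)).symm
  have hec : e ≠ c := fun h => nd.2.2.1
    (mul_left_cancel (((hcomm h3' hc).eq.symm.trans (hxc.trans (h ▸ rfl)))).symm)
  obtain ⟨q, hq, nq⟩ := pick [d, x₃, c, e] (by simp)
  simp only [List.mem_cons, List.not_mem_nil, or_false, not_or] at nq
  obtain ⟨r, hr, hrd, hr3, hrc, hrq, hprod''⟩ :=
    quad S hx ha hd h3' hc hq nd.2.2.1 nd.2.2.2.2 (Ne.symm hc3) nq.1 nq.2.1 nq.2.2.1
  -- `e * r * q = 1`
  have heq : e * r * q = 1 := by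
    rw [← hprod'']
    congr 2
    rw [mul_assoc d, hxc, ← mul_assoc, (hcomm hd he).eq, mul_assoc, sq hd, mul_one]
  have hre : r ≠ e := fun h => by
    rw [h, sq he, one_mul] at heq
    exact (ne_one_of_mem hq) heq
  obtain ⟨p', hp', np'⟩ := pick [e, r, q] (by simp)
  simp only [List.mem_cons, List.not_mem_nil, or_false, not_or] at np'
  obtain ⟨c', hc', -, -, -, hcp', hprod3⟩ :=
    quad S hx ha he hr hq hp' (Ne.symm hre) (Ne.symm nq.2.2.2) hrq np'.1 np'.2.1 np'.2.2
  rw [heq, one_mul] at hprod3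
  refine hcp' ?_
  rw [eq_inv_of_mul_eq_one_left hprod3, inv_self S.cls.1 hp'.1]
where
  ne_one_of_mem {q : G} {A : Set G} (hq : q ∈ {z | z ∈ D ∧ z ∈ A}) : q ≠ 1 := fun h => by
    have := S.cls.1.1 q hq.1
    rw [h, orderOf_one] at this
    exact absurd this (by decide)

/-- The five points of a line multiply to one. -/
theorem five_prod {o o' x a b p : G} (ho : o ∈ D) (ho' : o' ∈ Near D o)
    (h5 : (Line D o o').ncard = 5) (hx : x ∈ Line D o o')
    (ha : a ∈ Line D o o') (hb : b ∈ Line D o o') (hp : p ∈ Line D o o') (hxa : x ≠ a)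
    (hxb : x ≠ b) (hab : a ≠ b) (hpx : p ≠ x) (hpa : p ≠ a) (hpb : p ≠ b) {c : G}
    (hc : c ∈ Line D o o') (hcx : c ≠ x) (hca : c ≠ a) (hcb : c ≠ b) (hcp : c ≠ p) :
    x * a * b * c * p = 1 := by
  classical
  obtain ⟨c', hc', hcx', hca', hcb', hcp', h⟩ :=
    quad S ho ho' hx ha hb hp hxa hxb hab hpx hpa hpb
  by_cases hcc : c = c'
  · rwa [hcc]
  exfalso
  have hsub : (({x, a, b, p, c, c'} : Finset G) : Set G) ⊆ Line D o o' := by
    simp only [Finset.coe_insert, Finset.coe_singleton, Set.insert_subset_iff,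
      Set.singleton_subset_iff]
    exact ⟨hx, ha, hb, hp, hc, hc'⟩
  have hle := Set.ncard_le_ncard hsub (Set.toFinite _)
  rw [Set.ncard_coe_finset, h5] at hle
  rw [Finset.card_insert_of_notMem (by simp [hxa, hxb, hpx.symm, hcx.symm, hcx'.symm]),
    Finset.card_insert_of_notMem (by simp [hab, hpa.symm, hca.symm, hca'.symm]),
    Finset.card_insert_of_notMem (by simp [hpb.symm, hcb.symm, hcb'.symm]),
    Finset.card_insert_of_notMem (by simp [hcp.symm, hcp'.symm]),
    Finset.card_pair hcc] at hle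
  omega

/-- The partners of `x` are counted by the trace of a non-partner. -/
theorem near_ncard {x y : G} (hx : x ∈ D) (hy : y ∈ Far D x) {a : G} (ha : a ∈ Near D x) :
    (Near D x).ncard = (common D x y).ncard * ((Line D x a).ncard - 1) := by
  classical
  choose f hf using fun e : Near D x => exists_trace S hx hy e.2
  let g : G → G := fun e => if h : e ∈ Near D x then f ⟨e, h⟩ else e
  rw [Set.ncard_eq_toFinset_card _ (Set.toFinite (common D x y)),
    Set.ncard_eq_toFinset_card _ (Set.toFinite (Near D x))]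
  refine (Finset.card_eq_sum_card_fiberwise (f := g) ?_).trans (Finset.sum_const_nat ?_)
  · intro e he
    have he' : e ∈ Near D x := by simpa using he
    simpa [g, he'] using (hf ⟨e, he'⟩).1
  · intro m hm
    have hmC : m ∈ common D x y := (Set.toFinite _).mem_toFinset.1 hm
    have hmN := common_near S hy hmC
    rw [← line_ncard_eq S hx hmN hx ha,
      ← Set.ncard_sdiff_singleton_of_mem (left_mem_line hx), ← Set.ncard_coe_finset]
    refine congrArg Set.ncard ?_
    ext e
    simp only [Finset.coe_filter, Set.Finite.mem_toFinset, Set.mem_ofPred_eq, Set.mem_sdiff,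
      Set.mem_singleton_iff]
    constructor
    · rintro ⟨he, hge⟩
      simp only [g, dif_pos he] at hge
      obtain ⟨h1, h2, h3⟩ := hf ⟨e, he⟩
      rw [hge] at h2 h3
      exact ⟨(line_of_near S hx he h2 h3.2.1).2 ▸ right_mem_line he.1, he.2.1⟩
    · rintro ⟨heL, hex⟩
      obtain ⟨he, hLe⟩ := line_of_near S hx hmN heL hex
      refine ⟨he, ?_⟩
      simp only [g, dif_pos he]
      exact trace_unique S hx hy he (hf ⟨e, he⟩).1 (hf ⟨e, he⟩).2.1 hmC
        (hLe ▸ right_mem_line hmC.1)

theorem far_ncard_le {x a : G} (hx : x ∈ D) (ha : a ∈ Near D x) :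
    (Far D x).ncard ≤ ((Line D x a).ncard - 1) *
      ((Near D x).ncard - ((Line D x a).ncard - 1)) := by
  classical
  let A := (Set.toFinite (Line D x a \ {x})).toFinset
  let g : G → Finset G := fun u => (Set.toFinite (Near D u \ Line D x a)).toFinset
  have hsub : (Set.toFinite (Far D x)).toFinset ⊆ A.biUnion g := by
    intro d hd
    rw [Set.Finite.mem_toFinset] at hd
    obtain ⟨u, hu, hdu⟩ := meets S hx ha hd.1
    have hux : u ≠ x := fun h => hd.2 (h ▸ hdu).symm
    have hdL : d ∉ Line D x a := fun h => hd.2 (line_commute hx ha (left_mem_line hx) h)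
    simp only [A, g, Finset.mem_biUnion, Set.Finite.mem_toFinset]
    exact ⟨u, ⟨hu, hux⟩, ⟨hd.1, fun h => hdL (h ▸ hu), hdu.symm⟩, hdL⟩
  rw [Set.ncard_eq_toFinset_card _ (Set.toFinite (Far D x))]
  refine (Finset.card_le_card hsub).trans ?_
  rw [← Set.ncard_sdiff_singleton_of_mem (left_mem_line hx),
    Set.ncard_eq_toFinset_card _ (Set.toFinite (Line D x a \ {x}))]
  refine Finset.card_biUnion_le_card_mul _ _ _ fun u hu => ?_
  obtain ⟨huL, hux⟩ : u ∈ Line D x a \ {x} := (Set.toFinite _).mem_toFinset.1 hu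
  rw [← Set.ncard_eq_toFinset_card, ← Set.ncard_eq_toFinset_card]
  have hsub' : Line D x a \ {u} ⊆ Near D u := fun z hz =>
    ⟨hz.1.1, hz.2, line_commute hx ha huL hz.1⟩
  have hd' : Near D u \ Line D x a ⊆ Near D u \ (Line D x a \ {u}) :=
    fun z hz => ⟨hz.1, fun h => hz.2 h.1⟩
  refine (Set.ncard_le_ncard hd' (Set.toFinite _)).trans ?_
  rw [Set.ncard_sdiff hsub', Set.ncard_sdiff_singleton_of_mem huL,
    Set.ncard_sdiff_singleton_of_mem (left_mem_line hx), near_ncard_eq S.cls huL.1 hx]

/-- The line of a non-commuting pair has three points. -/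
theorem far_line_card {x y : G} (hx : x ∈ D) (hy : y ∈ Far D x) :
    (Line D x y).ncard = 3 := by
  classical
  obtain ⟨a, ha⟩ := exists_near S hx
  set H := Line D x y with hH
  have hxH : x ∈ H := left_mem_line hx
  have hyH : y ∈ H := right_mem_line hy.1
  have hcl : ∀ s ∈ H, ∀ s' ∈ H, s * s' * s ∈ H := by
    intro s hs s' hs'
    rw [show s * s' * s = cj s s' by rw [cj, inv_self S.cls.1 hs.1]]
    refine ⟨(cj_mem_iff S.conj).2 hs'.1, fun e he => ?_⟩
    rw [← cj_eq_self (hs.2 e he), commute_cj]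
    exact hs'.2 e he
  obtain ⟨i, hi⟩ := three_pow_ncard S.cls (fun z hz => hz.1) ⟨x, hxH⟩
    (fun p hp q hq h => far_line_pairwise S hx hy hp hq h) hcl
  have h2 : 2 ≤ H.ncard := by
    rw [← Set.ncard_pair (fun h : x = y => hy.2 (h ▸ Commute.refl x))]
    exact Set.ncard_le_ncard (Set.insert_subset hxH (Set.singleton_subset_iff.2 hyH))
      (Set.toFinite _)
  rcases i with _ | _ | i
  · rw [pow_zero] at hi; omega
  · simpa using hi
  exfalso
  have h9 : 9 ≤ H.ncard := by
    rw [hi]; calc 9 = 3 ^ 2 := by norm_num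
      _ ≤ _ := Nat.pow_le_pow_right (by norm_num) (by omega)
  set M := common D x y with hM
  have hMN : ∀ z ∈ H, M ⊆ Near D z := by
    intro z hz m hm
    refine ⟨hm.1, ?_, hz.2 m hm⟩
    rintro rfl
    by_cases hzx : m = x
    · exact hy.2 (hzx ▸ hm.2.2).symm
    · exact far_line_not_commute S hx hy hz hzx hm.2.1
  have hsep : ∀ z ∈ H, ∀ z' ∈ H, z ≠ z' → ∀ e, e ∈ Near D z → e ∈ Near D z' → e ∈ M := by
    intro z hz z' hz' hne e he he'
    have hsub : M ⊆ common D z z' := fun m hm => ⟨hm.1, hz.2 m hm, hz'.2 m hm⟩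
    rw [Set.eq_of_subset_of_ncard_le hsub (common_ncard_const S.cls S.prim S.exists_pair hz.1
      ⟨hz'.1, far_line_pairwise S hx hy hz hz' hne⟩ hx hy).le (Set.toFinite _)]
    exact ⟨he.1, he.2.2, he'.2.2⟩
  let Hf := (Set.toFinite H).toFinset
  let g : G → Finset G := fun z => (Set.toFinite (Near D z \ M)).toFinset
  have hpd : (Hf : Set G).PairwiseDisjoint g := by
    intro z hz z' hz' hne
    refine Finset.disjoint_left.2 fun e he he' => ?_
    simp only [g, Set.Finite.mem_toFinset, Hf, Set.Finite.coe_toFinset] at he he' hz hz'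
    exact he.2 (hsep z hz z' hz' hne e he.1 he'.1)
  have hd1 : Disjoint Hf (Set.toFinite M).toFinset := by
    refine Finset.disjoint_left.2 fun e he he' => ?_
    simp only [Hf, Set.Finite.mem_toFinset] at he he'
    exact ((hMN e he) he').2.1 rfl
  have hd2 : Disjoint (Hf ∪ (Set.toFinite M).toFinset) (Hf.biUnion g) := by
    refine Finset.disjoint_left.2 fun e he he' => ?_
    simp only [Finset.mem_union, Finset.mem_biUnion, g, Hf, Set.Finite.mem_toFinset] at he he'
    obtain ⟨z, hz, he1, he2⟩ := he'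
    rcases he with he | he
    · exact far_line_pairwise S hx hy hz he he1.2.1.symm he1.2.2
    · exact he2 he
  have hsubD : Hf ∪ (Set.toFinite M).toFinset ∪ Hf.biUnion g ⊆ (Set.toFinite D).toFinset := by
    intro e he
    simp only [Finset.mem_union, Finset.mem_biUnion, g, Hf, Set.Finite.mem_toFinset] at he ⊢
    rcases he with (he | he) | ⟨z, -, he, -⟩ <;> exact he.1
  have hle := Finset.card_le_card hsubD
  rw [Finset.card_union_of_disjoint hd2, Finset.card_union_of_disjoint hd1,
    Finset.card_biUnion hpd, Finset.sum_const_nat (m := (Near D x).ncard - M.ncard) ?_] at hle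
  · simp only [Hf, ← Set.ncard_eq_toFinset_card] at hle
    have hDn : D.ncard ≤ 1 + (Near D x).ncard + (Far D x).ncard := by
      have hsub : D ⊆ insert x (Near D x ∪ Far D x) := fun e he => by
        by_cases hc : Commute x e
        · by_cases hex : e = x
          · exact Or.inl hex
          · exact Or.inr (Or.inl ⟨he, hex, hc⟩)
        · exact Or.inr (Or.inr ⟨he, hc⟩)
      refine (Set.ncard_le_ncard hsub (Set.toFinite _)).trans ?_
      refine (Set.ncard_insert_le _ _).trans ?_
      have := Set.ncard_union_le (Near D x) (Far D x)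
      omega
    have hfar := far_ncard_le S hx ha
    have hk := near_ncard S hx hy ha
    rcases line_card S hx ha with h | h <;> simp only [h, Nat.reduceSub, hM] at hfar hk ⊢
    · have hmul := Nat.mul_le_mul_right ((Near D x).ncard - M.ncard) h9
      simp only [hM] at hmul hle
      omega
    · have hmul := Nat.mul_le_mul_right ((Near D x).ncard - M.ncard) h9
      simp only [hM] at hmul hle
      omega
  · intro z hz
    simp only [Hf, Set.Finite.mem_toFinset] at hz
    simp only [g, ← Set.ncard_eq_toFinset_card]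
    rw [Set.ncard_sdiff (hMN z hz), near_ncard_eq S.cls hz.1 hx]

theorem far_line_eq {x y : G} (hx : x ∈ D) (hy : y ∈ Far D x) :
    Line D x y = {x, y, cj x y} := by
  refine (Set.eq_of_subset_of_ncard_le ?_ ?_ (Set.toFinite _)).symm
  · refine Set.insert_subset (left_mem_line hx) (Set.insert_subset (right_mem_line hy.1)
      (Set.singleton_subset_iff.2 ⟨(cj_mem_iff S.conj).2 hy.1, fun e he => ?_⟩))
    rw [← cj_eq_self he.2.1, commute_cj]
    exact he.2.2
  · rw [far_line_card S hx hy, Set.ncard_insert_of_notMem ?_ (Set.toFinite _),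
      Set.ncard_pair ?_]
    · intro h
      exact hy.2 (commute_of_cj_eq h.symm)
    · rintro (h | h)
      · exact hy.2 (h ▸ Commute.refl x)
      · exact hy.2 (cj_injective x ((cj_eq_self (Commute.refl x)).trans h) ▸ Commute.refl x)

end Cfsg.Agent.H9.Polar
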