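import Cfsg.Agent.H9.FischerLocal

/-!
# Conjugation identities for three 3-transpositions commuting with each other
-/

set_option autoImplicit false

namespace Cfsg.Agent.H9.Polar

open Cfsg.Agent.H17
open Cfsg.Agent.H9.Fischer (cj cj_injective cj_eq_self exists_cj)

variable {G : Type*} [Group G]

theorem cj_mul (g h e : G) : cj (g * h) e = cj g (cj h e) := by simp only [cj]; group

theorem cj_one (e : G) : cj (1 : G) e = e := by simp [cj]

theorem cj_map_mul (g e f : G) : cj g (e * f) = cj g e * cj g f := by simp only [cj]; group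

theorem commute_cj (g : G) {e f : G} : Commute (cj g e) (cj g f) ↔ Commute e f := commute_conj g

theorem commute_of_cj_eq {g e : G} (h : cj g e = e) : Commute g e := mul_inv_eq_iff_eq_mul.1 h

theorem cj_cj_of_commute {g h : G} (hc : Commute g h) (e : G) : cj g (cj h e) = cj h (cj g e) := by
  rw [← cj_mul, hc.eq, cj_mul]

/-- A set with an involutive map without fixed points has even size. -/
theorem even_ncard_of_involution {α : Type*} {S : Set α} (hS : S.Finite) (f : α → α)
    (hmem : ∀ x ∈ S, f x ∈ S) (hinv : ∀ x ∈ S, f (f x) = x) (hne : ∀ x ∈ S, f x ≠ x) :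
    Even S.ncard := by
  rw [Set.ncard_eq_toFinset_card S hS, ← ZMod.natCast_eq_zero_iff_even,
    Finset.cast_card]
  exact Finset.sum_involution (fun a _ => f a) (fun _ _ => by decide)
    (fun a ha _ => hne a (hS.mem_toFinset.1 ha))
    (fun a ha => hS.mem_toFinset.2 (hmem a (hS.mem_toFinset.1 ha)))
    (fun a ha => hinv a (hS.mem_toFinset.1 ha))

variable {D : Set G} (hD : Cfsg.IsThreeTranspositionSet D)
  (hconj : ∀ g : G, ∀ d ∈ D, g * d * g⁻¹ ∈ D)
include hD

theorem braid_cj {a b : G} (ha : a ∈ D) (hb : b ∈ D) (h : ¬ Commute a b) : cj a b = cj b a := by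
  rw [cj, cj, inv_self hD ha, inv_self hD hb]; exact braid hD ha hb h

theorem cj_cj_self {a : G} (ha : a ∈ D) (e : G) : cj a (cj a e) = e := by
  rw [← cj_mul, sq_one hD ha, cj_one]

theorem not_commute_self_cj {a b : G} (ha : a ∈ D) (h : ¬ Commute a b) :
    ¬ Commute a (cj a b) := fun hc => h (by
  have := (commute_cj a).2 hc
  rwa [cj_eq_self (Commute.refl a), cj_cj_self hD ha] at this)

include hconj

section Star

variable {d x a b : G} (hd : d ∈ D) (hx : x ∈ D) (ha : a ∈ D) (hb : b ∈ D) (hxa : Commute x a)
  (hxb : Commute x b) (hab : Commute a b) (hdx : ¬ Commute d x) (hda : ¬ Commute d a)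
  (hdb : ¬ Commute d b)
include hd hx ha hxa hdx hda

/-- The element exchanging two commuting members that are both connected to `d`. -/
theorem swap_commute : Commute (cj x d) (cj a d) := by
  rw [← braid_cj hD hd hx hdx, ← braid_cj hD hd ha hda, commute_cj]; exact hxa

theorem swap_left : cj (cj x d * cj a d) x = a := by
  have hq : cj a d ∈ D := hconj a d hd
  have hp : cj x d ∈ D := hconj x d hd
  have hqx : ¬ Commute (cj a d) x := fun h => hdx (by
    have := (commute_cj a).2 h
    rwa [cj_cj_self hD ha, cj_eq_self hxa.symm] at this)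
  have hap : ¬ Commute a (cj x d) := fun h => hda (by
    have := (commute_cj x).2 h
    rw [cj_cj_self hD hx, cj_eq_self hxa] at this
    exact this.symm)
  rw [cj_mul, braid_cj hD hq hx hqx, cj_cj_of_commute hxa d, braid_cj hD ha hp hap,
    cj_cj_self hD hp]

theorem swap_right : cj (cj x d * cj a d) a = x := by
  rw [(swap_commute hD hconj hd hx ha hxa hdx hda).eq]
  exact swap_left hD hconj hd ha hx hxa.symm hda hdx

theorem swap_involutive (e : G) :
    cj (cj x d * cj a d) (cj (cj x d * cj a d) e) = e := by
  have hc := swap_commute hD hconj hd hx ha hxa hdx hda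
  have h1 : cj x d * cj x d = 1 := sq_one hD (hconj x d hd)
  have h2 : cj a d * cj a d = 1 := sq_one hD (hconj a d hd)
  rw [← cj_mul, show cj x d * cj a d * (cj x d * cj a d) = cj x d * cj a d * (cj a d * cj x d) by
    rw [hc.eq], show cj x d * cj a d * (cj a d * cj x d) = cj x d * (cj a d * cj a d) * cj x d by
    simp only [mul_assoc], h2, mul_one, h1, cj_one]

include hb hab hxb hdb

theorem swap_third_eq : cj (cj x d * cj a d) b = cj (cj x d) (cj b (cj a d)) := by
  have hq : cj a d ∈ D := hconj a d hd
  have hqb : ¬ Commute (cj a d) b := fun h => hdb (by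
    have := (commute_cj a).2 h
    rwa [cj_cj_self hD ha, cj_eq_self hab] at this)
  rw [cj_mul, braid_cj hD hq hb hqb]

theorem swap_third_ne (hne : x ≠ a) : cj (cj x d * cj a d) b ≠ b := fun h => by
  rw [swap_third_eq hD hconj hd hx ha hb hxa hxb hab hdx hda hdb] at h
  have hp : cj x d ∈ D := hconj x d hd
  have hbp : ¬ Commute b (cj x d) := fun h => hdb (by
    have := (commute_cj x).2 h
    rw [cj_cj_self hD hx, cj_eq_self hxb] at this
    exact this.symm)
  have h2 := congrArg (cj (cj x d)) h
  rw [cj_cj_self hD hp, ← braid_cj hD hb hp hbp] at h2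
  have h3 := cj_injective b h2
  rw [← braid_cj hD hd ha hda, ← braid_cj hD hd hx hdx] at h3
  exact hne (cj_injective d h3).symm

theorem swap_third_not_commute : ¬ Commute d (cj (cj x d * cj a d) b) := fun h => by
  rw [swap_third_eq hD hconj hd hx ha hb hxa hxb hab hdx hda hdb] at h
  have hp : cj x d ∈ D := hconj x d hd
  have h2 := (commute_cj (cj x d)).2 h
  have hpd : cj (cj x d) d = x := by
    rw [braid_cj hD hp hd fun hc => not_commute_self_cj hD hd hdx
      (by rw [braid_cj hD hd hx hdx]; exact hc.symm), ← braid_cj hD hd hx hdx, cj_cj_self hD hd]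
  rw [cj_cj_self hD hp, hpd] at h2
  rw [cj_cj_of_commute hab.symm] at h2
  have h3 := (commute_cj a).2 h2
  rw [cj_cj_self hD ha, cj_eq_self hxa.symm] at h3
  have h4 := (commute_cj b).2 h3
  rw [cj_cj_self hD hb, cj_eq_self hxb.symm] at h4
  exact hdx h4.symm

/-- The product of the four members connected to `d` commutes with `d`. -/
theorem four_commute (hxc : Commute x (cj (cj x d * cj a d) b))
    (hac : Commute a (cj (cj x d * cj a d) b)) (hbc : Commute b (cj (cj x d * cj a d) b)) :
    Commute d (x * a * b * cj (cj x d * cj a d) b) := by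
  set u := x * a * b with hu
  have hu2 : u * u = 1 := by
    rw [hu]
    calc x * a * b * (x * a * b) = x * a * (b * x) * (a * b) := by simp only [mul_assoc]
      _ = x * (a * x) * (b * a) * b := by rw [← hxb.eq]; simp only [mul_assoc]
      _ = x * (x * a) * (a * b) * b := by rw [← hxa.eq, ← hab.eq]
      _ = (x * x) * (a * a) * (b * b) := by simp only [mul_assoc]
      _ = 1 := by rw [sq_one hD hx, sq_one hD ha, sq_one hD hb, one_mul, one_mul]
  have hc : cj (cj x d * cj a d) b = d * u * d * u * d := by
    rw [swap_third_eq hD hconj hd hx ha hb hxa hxb hab hdx hda hdb, ← braid_cj hD hd hx hdx]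
    have hv : Commute d (cj b (cj a d)) := by
      have h1 : Commute (cj b d) (cj a d) :=
        swap_commute hD hconj hd hb ha hab.symm hdb hda
      have h2 := (commute_cj b).2 h1
      rwa [cj_cj_self hD hb] at h2
    have h3 : cj (cj d x) (cj b (cj a d)) = cj d (cj x (cj d (cj b (cj a d)))) := by
      rw [show cj d x = d * x * d by rw [cj, inv_self hD hd], cj_mul, cj_mul]
    rw [h3, cj_eq_self hv]
    simp only [cj, inv_self hD hd, inv_self hD ha, inv_self hD hb, inv_self hD hx, hu]
    rw [show d * (x * (b * (a * d * a) * b) * x) * d = d * (x * (b * a)) * d * (a * (b * x)) * d by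
      simp only [mul_assoc], hab.eq.symm]
    rw [show a * (b * x) = x * a * b by rw [← hxb.eq, ← mul_assoc, ← hxa.eq]]
    simp only [mul_assoc]
  set c := cj (cj x d * cj a d) b with hcdef
  have hcD : c ∈ D := hconj _ b hb
  have hz2 : (u * c) * (u * c) = 1 := by
    rw [show u * c * (u * c) = u * (c * u) * c by simp only [mul_assoc],
      ((hxc.symm.mul_right hac.symm).mul_right hbc.symm : Commute c u).eq,
      show u * (u * c) * c = (u * u) * (c * c) by simp only [mul_assoc], hu2, sq_one hD hcD, one_mul]
  show d * (u * c) = u * c * d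
  calc d * (u * c) = d * (u * c)⁻¹ := by rw [inv_eq_of_mul_eq_one_right hz2]
    _ = d * (u * (d * u * d * u * d))⁻¹ := by rw [← hc]
    _ = (u * d * u * d * u) := by
        simp only [mul_inv_rev, inv_self hD hd, inv_eq_of_mul_eq_one_right hu2, ← mul_assoc,
          sq_one hD hd, one_mul]
    _ = u * c * d := by
        rw [hc]; simp only [mul_assoc, sq_one hD hd, mul_one]

end Star

end Cfsg.Agent.H9.Polar
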