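import Cfsg.Agent.H9.PolarHerm

/-!
# Coordinates on the translation group
-/

set_option autoImplicit false

namespace Cfsg.Agent.H9.Polar

open Subgroup
open Cfsg.Agent.H17
open Cfsg.Agent.H9.FieldFour
open Cfsg.Agent.H9.Fischer (cj cj_injective cj_eq_self exists_cj Near Far cj_mem_iff)

variable {G : Type*} [Group G] [Finite G] {D : Set G} {x y : G} (B : Base D x y)
include B

theorem pr_triple {m a : G} (hm : m ∈ common D x y) (ha : a ∈ Line D x m) (hax : a ≠ x) :
    pr B (x * m * a) = pr B (m * a) := by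
  rw [mul_assoc, pr_mul B (x_mem_qx B) (pair_mem B (common_near B.set B.farY hm) ha hax),
    (pr_eq_zero B (x_mem_qx B)).2 (Or.inr rfl), zero_add]

theorem triple_sq {m a : G} (hm : m ∈ common D x y) (ha : a ∈ Line D x m) :
    x * m * a * (x * m * a) = 1 := by
  have S := B.set
  have hmN := common_near S B.farY hm
  have hxa : Commute x a := line_commute B.memX hmN (left_mem_line B.memX) ha
  have hma : Commute m a := line_commute B.memX hmN (right_mem_line hm.1) ha
  have h1 : Commute (x * m) a := hxa.mul_left hma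
  rw [mul_assoc (x * m), ← mul_assoc a, ← h1.eq, mul_assoc (x * m) a a, sq_one S.cls.1 ha.1,
    mul_one, mul_assoc x m, ← mul_assoc m, ← hm.2.1.eq, mul_assoc x m m, sq_one S.cls.1 hm.1,
    mul_one, sq_one S.cls.1 B.memX]

theorem lift_sq {q : G} (hq : q ∈ lifts D x y) : q * q = 1 := by
  obtain ⟨m, hm, a, ha, -, -, rfl⟩ := hq
  exact triple_sq B hm ha

/-- A lift lies over a point of the line it moves `y` along. -/
theorem lift_point {q : G} (hq : q ∈ lifts D x y) :
    ∃ m ∈ common D x y, pr B q ∈ Wr B m ∧ pr B q ≠ 0 ∧ cj q y ∈ Line D y m := by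
  have S := B.set
  have hy := B.farY
  obtain ⟨m, hm, a, ha, hax, ham, rfl⟩ := hq
  have hmN := common_near S hy hm
  have hxy : ¬ Commute x y := hy.2
  obtain ⟨haN, -⟩ := line_of_near S B.memX hmN ha hax
  refine ⟨m, hm, ?_, ?_, ?_⟩
  · rw [pr_triple B hm ha hax]
    exact (mem_wr B hmN).2 ⟨a, ⟨ha, hax⟩, rfl⟩
  · rw [pr_triple B hm ha hax]
    intro h
    refine ham (wr_pr_injective B hmN ⟨ha, hax⟩ ⟨right_mem_line hm.1, hmN.2.1⟩ ?_)
    show pr B (m * a) = pr B (m * m)
    rw [h, (pr_eq_zero B (pair_mem B hmN (right_mem_line hm.1) hmN.2.1)).2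
      (Or.inl (sq_one S.cls.1 hm.1))]
  · have hay : ¬ Commute a y := fun h => hxy (commute_all_of_two S B.memX hmN ha
      (right_mem_line hm.1) ham hy.1 h.symm hm.2.2 (left_mem_line B.memX)).symm
    have hz : cj (x * m * a) y = cj x (cj y a) := by
      rw [cj_mul, cj_mul, ← braid_cj S.cls.1 haN.1 hy.1 hay]
      congr 1
      exact cj_eq_self ((commute_cj a).2 hm.2.2.symm |> fun h => by
        rwa [cj_eq_self (line_commute B.memX hmN ha (right_mem_line hm.1))] at h)
    have h1 : Line D (cj x (cj y x)) (cj x (cj y m)) = cj x '' (cj y '' Line D x m) := by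
      rw [line_conj S, line_conj S]
    rw [cj_eq_self hm.2.2, cj_eq_self hm.2.1, ← braid_cj S.cls.1 B.memX hy.1 hxy,
      cj_cj_self S.cls.1 B.memX] at h1
    rw [h1, hz]
    exact ⟨_, ⟨a, ha, rfl⟩, rfl⟩

theorem lift_point_ne {q : G} (hq : q ∈ lifts D x y) :
    cj q y ≠ y ∧ Commute y (cj q y) ∧ cj q y ∈ Far D x := by
  obtain ⟨h1, h2⟩ := (lift_iff B (lift_mem B hq)).1 hq
  exact ⟨fun h => h1 (qx_fix_y B (lift_mem B hq) h), h2, far_cj_mem B (qx_commute (lift_mem B hq))⟩

theorem lift_unique {p q : G} (hp : p ∈ lifts D x y) (hq : q ∈ lifts D x y)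
    (h : pr B p = pr B q) : p = q := by
  have S := B.set
  refine (pr_eq_pr B (lift_mem B hp) (lift_mem B hq) h).resolve_right fun h' => ?_
  obtain ⟨-, hc, hF⟩ := lift_point_ne B hq
  obtain ⟨-, hc', -⟩ := lift_point_ne B hp
  rw [h', cj_mul] at hc'
  have h1 := (commute_cj x).2 hc'
  rw [cj_cj_self S.cls.1 B.memX, braid_cj S.cls.1 B.memX B.farY.1 B.farY.2] at h1
  have h2 := (commute_cj y).2 h1
  rw [cj_cj_self S.cls.1 B.farY.1, cj_eq_self hc] at h2
  exact hF.2 h2

theorem Qf_lift {q : G} (hq : q ∈ lifts D x y) : Qf B (pr B q) = 0 := by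
  obtain ⟨m, hm, hw, -, -⟩ := lift_point B hq
  exact Qf_wr B (common_near B.set B.farY hm) hw

theorem exists_lift {v : Res B} (hv : Qf B v = 0) (hv0 : v ≠ 0) :
    ∃ q ∈ lifts D x y, pr B q = v := by
  obtain ⟨m, hm, hw⟩ := isotropic_mem B hv hv0
  have hmN := common_near B.set B.farY hm
  obtain ⟨a, ⟨ha, hax⟩, hva⟩ := (mem_wr B hmN).1 hw
  have ham : a ≠ m := by
    intro h
    refine hv0 ?_
    rw [← hva, h]
    exact (pr_eq_zero B (pair_mem B hmN (right_mem_line hm.1) hmN.2.1)).2
      (Or.inl (sq_one B.set.cls.1 hm.1))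
  exact ⟨_, ⟨m, hm, a, ha, hax, ham, rfl⟩, (pr_triple B hm ha hax).trans hva⟩

/-- A product of two lifts is a lift exactly for orthogonal lines. -/
theorem lift_product {p q : G} (hp : p ∈ lifts D x y) (hq : q ∈ lifts D x y) :
    (p * q = 1 ∨ p * q ∈ lifts D x y) ↔ hh B (pr B p) (pr B q) = 0 := by
  have S := B.set
  obtain ⟨m, hm, hv, hv0, hz⟩ := lift_point B hp
  obtain ⟨s, hs, hw, hw0, hz'⟩ := lift_point B hq
  obtain ⟨hzy, hzc, hzF⟩ := lift_point_ne B hp
  obtain ⟨hzy', hzc', hzF'⟩ := lift_point_ne B hq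
  have hmN := common_near S B.farY hm
  have hsN := common_near S B.farY hs
  have hy := B.farY.1
  have hmy : m ∈ Near D y := ⟨hm.1, fun h => B.farY.2 (h ▸ hm.2.1), hm.2.2⟩
  have hsy : s ∈ Near D y := ⟨hs.1, fun h => B.farY.2 (h ▸ hs.2.1), hs.2.2⟩
  rw [← commute_iff_hh B hmN hsN hv hv0 hw hw0]
  have hpq : Commute (cj p y) (cj q y) ↔ Commute y (cj (p * q) y) := by
    rw [← commute_cj p, ← cj_mul, lift_sq B hp, cj_one, ← cj_mul]
  have key : Commute (cj p y) (cj q y) ↔ Commute m s := by
    constructor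
    · intro h
      have h1 : Commute (cj q y) m := commute_all_of_two S hy hmy (left_mem_line hy) hz hzy.symm
        hzF'.1 hzc'.symm h.symm (right_mem_line hm.1)
      exact commute_all_of_two S hy hsy (left_mem_line hy) hz' hzy'.symm hm.1 hm.2.2.symm h1.symm
        (right_mem_line hs.1)
    · intro h
      have h1 : Commute s (cj p y) := commute_all_of_two S hy hmy (left_mem_line hy)
        (right_mem_line hm.1) hmy.2.1.symm hs.1 hs.2.2.symm h.symm hz
      exact commute_all_of_two S hy hsy (left_mem_line hy) (right_mem_line hs.1) hsy.2.1.symm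
        hzF.1 hzc.symm h1.symm hz'
  rw [← key, hpq]
  refine ⟨?_, fun h => ?_⟩
  · rintro (h | h)
    · rw [h, cj_one]
    · exact ((lift_iff B (lift_mem B h)).1 h).2
  · by_cases h1 : p * q = 1
    · exact Or.inl h1
    · exact Or.inr ((lift_iff B (mul_mem (lift_mem B hp) (lift_mem B hq))).2 ⟨h1, h⟩)

open Classical in
/-- The lift over an isotropic class. -/
noncomputable def ell (v : Res B) : G :=
  if h : ∃ q ∈ lifts D x y, pr B q = v then h.choose else 1

theorem ell_spec {v : Res B} (hv : Qf B v = 0) (hv0 : v ≠ 0) :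
    ell B v ∈ lifts D x y ∧ pr B (ell B v) = v := by
  classical
  have h := exists_lift B hv hv0
  rw [ell, dif_pos h]
  exact h.choose_spec

theorem ell_zero : ell B (0 : Res B) = 1 := by
  classical
  refine dif_neg ?_
  rintro ⟨q, hq, hq0⟩
  obtain ⟨m, -, -, h0, -⟩ := lift_point B hq
  exact h0 hq0

theorem ell_mem {v : Res B} (hv : Qf B v = 0) : ell B v ∈ Qx D x ∧ pr B (ell B v) = v := by
  rcases eq_or_ne v 0 with rfl | hv0
  · rw [ell_zero]; exact ⟨one_mem _, (pr_eq_zero B (one_mem _)).2 (Or.inl rfl)⟩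
  · exact ⟨lift_mem B (ell_spec B hv hv0).1, (ell_spec B hv hv0).2⟩

theorem ell_mul {v w : Res B} (hv : Qf B v = 0) (hw : Qf B w = 0) (hvw : Qf B (v + w) = 0) :
    ell B v * ell B w = x ^ (coA B v w).val * ell B (v + w) := by
  rcases eq_or_ne v 0 with rfl | hv0
  · simp [coA, bt_zero_left, ell_zero]
  rcases eq_or_ne w 0 with rfl | hw0
  · simp [coA, bt_zero_right, ell_zero]
  obtain ⟨hp, hpv⟩ := ell_spec B hv hv0
  obtain ⟨hq, hqw⟩ := ell_spec B hw hw0
  set p := ell B v
  set q := ell B w
  have hbt : bt B v w = 0 := by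
    rw [Qf_add, hv, hw, zero_add, zero_add] at hvw
    exact hvw
  have hh0 : hh B v w = iota (coA B v w) := hh_trace_zero B hbt
  have hpr : pr B (p * q) = v + w := by rw [pr_mul B (lift_mem B hp) (lift_mem B hq), hpv, hqw]
  have hpc := lift_product B hp hq
  rw [hpv, hqw, hh0, map_eq_zero_iff _ iota_injective] at hpc
  rcases eq_or_ne (v + w) 0 with h0 | h0
  · obtain rfl : v = w := (add_eq_zero_iff_eq_neg.1 h0).trans
      (neg_eq_of_add_eq_zero_left (res_add_self B w))
    simp [coA_self, hv, h0, ell_zero, p, q, lift_sq B hp]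
  obtain ⟨hr, hrv⟩ := ell_spec B hvw h0
  set r := ell B (v + w)
  rcases (by decide : ∀ c : ZMod 2, c = 0 ∨ c = 1) (coA B v w) with hc | hc
  · rw [hc]
    rcases hpc.2 hc with h | h
    · exact absurd (by rw [← hpr, h]; exact (pr_eq_zero B (one_mem _)).2 (Or.inl rfl)) h0
    · simpa using lift_unique B h hr (hpr.trans hrv.symm)
  · rw [hc, show (1 : ZMod 2).val = 1 from rfl, pow_one]
    refine (pr_eq_pr B (mul_mem (lift_mem B hp) (lift_mem B hq)) (lift_mem B hr)
      (hpr.trans hrv.symm)).resolve_left fun h => ?_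
    rw [hc] at hpc
    exact one_ne_zero (hpc.1 (Or.inr (by rw [h]; exact hr)))

/-! ### The cocycle -/

/-- The normalised choice of sign. -/
noncomputable def sgnx (q : G) : ZMod 2 := dlt B q + dlt B 1

/-- The normalised cocycle. -/
noncomputable def kk (v w : Res B) : ZMod 2 := kap B v w + dlt B 1

theorem sgnx_mul {p q : G} (hp : p ∈ Qx D x) (hq : q ∈ Qx D x) :
    sgnx B (p * q) = sgnx B p + sgnx B q + kk B (pr B p) (pr B q) := by
  rw [sgnx, sgnx, sgnx, kk, dlt_mul B hp hq]
  generalize dlt B p = a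
  generalize dlt B q = b
  generalize dlt B 1 = c
  generalize kap B (pr B p) (pr B q) = d
  revert a b c d; decide

theorem sgnx_one : sgnx B 1 = 0 := by
  rw [sgnx]; generalize dlt B 1 = c; revert c; decide

theorem kk_self (v : Res B) : kk B v v = Qf B v := by
  rw [kk, kap_self, add_assoc]; generalize dlt B 1 = c; generalize Qf B v = d; revert c d; decide

theorem kk_zero_left (v : Res B) : kk B 0 v = 0 := by
  have h := sgnx_mul B (one_mem (Qx D x)) (rep_mem B v)
  rw [one_mul, sgnx_one, zero_add, (pr_eq_zero B (one_mem _)).2 (Or.inl rfl), pr_rep] at h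
  exact left_eq_add.1 h

theorem kk_assoc (u v w : Res B) :
    kk B u v + kk B (u + v) w = kk B v w + kk B u (v + w) := by
  have hu := rep_mem B u
  have hv := rep_mem B v
  have hw := rep_mem B w
  have h1 := sgnx_mul B (mul_mem hu hv) hw
  rw [mul_assoc, sgnx_mul B hu hv, sgnx_mul B hu (mul_mem hv hw), sgnx_mul B hv hw, pr_mul B hv hw,
    pr_mul B hu hv, pr_rep, pr_rep, pr_rep] at h1
  revert h1
  generalize sgnx B (rep B u) = a
  generalize sgnx B (rep B v) = b
  generalize sgnx B (rep B w) = c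
  generalize kk B u v = d
  generalize kk B (u + v) w = e
  generalize kk B v w = f
  generalize kk B u (v + w) = g
  intro h
  linear_combination -h

theorem sgnx_x : sgnx B x = 1 := by
  have h1 := dlt_spec B (x_mem_qx B)
  rw [(pr_eq_zero B (x_mem_qx B)).2 (Or.inr rfl)] at h1
  have h0 := dlt_spec B (one_mem (Qx D x))
  rw [(pr_eq_zero B (one_mem _)).2 (Or.inl rfl)] at h0
  rw [sgnx]
  rcases (by decide : ∀ a b : ZMod 2, a = b ∨ a + b = 1) (dlt B x) (dlt B 1) with h | h
  · rw [h] at h1
    exact absurd (h1.trans h0.symm) (x_ne_one B)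
  · exact h

theorem sgnx_xpow (a : ZMod 2) {q : G} (hq : q ∈ Qx D x) :
    sgnx B (x ^ a.val * q) = a + sgnx B q := by
  rcases (by decide : ∀ c : ZMod 2, c = 0 ∨ c = 1) a with rfl | rfl
  · simp
  · rw [show (1 : ZMod 2).val = 1 from rfl, pow_one, sgnx_mul B (x_mem_qx B) hq,
      (pr_eq_zero B (x_mem_qx B)).2 (Or.inr rfl), kk_zero_left, sgnx_x, add_zero]

/-- The extension of the residue by the field of two elements given by the corrected cocycle. -/
@[ext] structure Cext (B : Base D x y) where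
  /-- The class. -/
  fst : Res B
  /-- The sign. -/
  snd : ZMod 2

noncomputable instance : Zero (Cext B) := ⟨⟨0, 0⟩⟩
noncomputable instance : Add (Cext B) :=
  ⟨fun a b => ⟨a.fst + b.fst, a.snd + b.snd + (kk B a.fst b.fst + coA B a.fst b.fst)⟩⟩
instance : Neg (Cext B) := ⟨fun a => a⟩

theorem cext_add_self (a : Cext B) : a + a = 0 := by
  refine Cext.ext (res_add_self B _) ?_
  show a.snd + a.snd + (kk B a.fst a.fst + coA B a.fst a.fst) = 0
  rw [kk_self, coA_self]
  generalize a.snd = s
  generalize Qf B a.fst = t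
  revert s t; decide

noncomputable instance instAddGroupCext : AddGroup (Cext B) :=
  AddGroup.ofLeftAxioms
    (fun a b c => by
      refine Cext.ext (add_assoc _ _ _) ?_
      show a.snd + b.snd + (kk B a.fst b.fst + coA B a.fst b.fst) + c.snd +
          (kk B (a.fst + b.fst) c.fst + coA B (a.fst + b.fst) c.fst) =
        a.snd + (b.snd + c.snd + (kk B b.fst c.fst + coA B b.fst c.fst)) +
          (kk B a.fst (b.fst + c.fst) + coA B a.fst (b.fst + c.fst))
      have e1 : coA B (a.fst + b.fst) c.fst = coA B a.fst c.fst + coA B b.fst c.fst := by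
        simp only [coA, bt_add_left]
      have e2 : coA B a.fst (b.fst + c.fst) = coA B a.fst b.fst + coA B a.fst c.fst := by
        simp only [coA, map_add, bt_add_right]
      rw [e1, e2]
      linear_combination kk_assoc B a.fst b.fst c.fst)
    (fun a => by
      refine Cext.ext (zero_add _) ?_
      show 0 + a.snd + (kk B 0 a.fst + coA B 0 a.fst) = a.snd
      simp [kk_zero_left, coA, bt_zero_left])
    (cext_add_self B)

noncomputable instance instAddCommGroupCext : AddCommGroup (Cext B) :=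
  { instAddGroupCext B with
    add_comm := fun a b => by
      calc a + b = -(a + b) := rfl
        _ = -b + -a := neg_add_rev a b
        _ = b + a := rfl }

theorem cext_fst_add (a b : Cext B) : (a + b).fst = a.fst + b.fst := rfl

theorem cext_snd_add (a b : Cext B) :
    (a + b).snd = a.snd + b.snd + (kk B a.fst b.fst + coA B a.fst b.fst) := rfl

/-- The point of the extension over an isotropic class. -/
noncomputable def fpt (v : Res B) : Cext B := ⟨v, sgnx B (ell B v)⟩

theorem exists_section : ∃ L : Res B →+ Cext B, (∀ v, (L v).fst = v) ∧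
    ∀ v, Qf B v = 0 → L v = fpt B v := by
  obtain ⟨p, q, hp, hq, hpq⟩ := exists_hyperbolic B
  have hiso : ∀ v, hF B v v = 0 ↔ Qf B v = 0 := fun v => by
    rw [hF_apply, hh_self, map_eq_zero_iff _ iota_injective]
  obtain ⟨L, hL⟩ := exists_extension (cext_add_self B) (hF B) (hh_symm B) hp hq hpq (fpt B) (by
    intro a b ha hb hab
    rw [hiso] at ha hb hab
    refine Cext.ext rfl ?_
    show sgnx B (ell B (a + b)) =
      sgnx B (ell B a) + sgnx B (ell B b) + (kk B a b + coA B a b)
    obtain ⟨ha1, ha2⟩ := ell_mem B ha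
    obtain ⟨hb1, hb2⟩ := ell_mem B hb
    have h := sgnx_mul B ha1 hb1
    rw [ell_mul B ha hb hab, sgnx_xpow B _ (ell_mem B hab).1, ha2, hb2] at h
    revert h
    generalize sgnx B (ell B a) = i
    generalize sgnx B (ell B b) = j
    generalize sgnx B (ell B (a + b)) = k
    generalize kk B a b = l
    generalize coA B a b = m
    revert i j k l m; decide)
  refine ⟨L, fun v => ?_, fun v hv => hL v ((hiso v).2 hv)⟩
  induction (res_span B) (Submodule.mem_top : v ∈ ⊤) using Submodule.span_induction with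
  | mem u hu =>
    obtain ⟨r, hr, hu⟩ := hu
    rw [hL u ((hiso u).2 (Qf_wr B hr hu))]
    rfl
  | zero => rw [map_zero]; rfl
  | add u w _ _ hu hw => rw [map_add, cext_fst_add, hu, hw]
  | smul k u _ hu =>
    rcases (by decide : ∀ c : ZMod 2, c = 0 ∨ c = 1) k with rfl | rfl
    · rw [zero_smul, map_zero]; rfl
    · rw [one_smul]; exact hu

/-- The additive section. -/
noncomputable def sect : Res B →+ Cext B := (exists_section B).choose

/-- The central coordinate of a translation. -/
noncomputable def coc (q : G) : F4 :=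
  iota (sgnx B q + (sect B (pr B q)).snd) + om * iota (Qf B (pr B q))

theorem coc_mul {p q : G} (hp : p ∈ Qx D x) (hq : q ∈ Qx D x) :
    coc B (p * q) = coc B p + coc B q + hh B (pr B p) (pr B q) := by
  have hs := (exists_section B).choose_spec.1
  simp only [coc, pr_mul B hp hq, sgnx_mul B hp hq, Qf_add, map_add, cext_snd_add, hh,
    show ∀ v, (sect B v).fst = v from hs]
  linear_combination iota (kk B (pr B p) (pr B q)) * two_eq_zero

theorem coc_one : coc B 1 = 0 := by
  have h : (0 : Cext B).snd = 0 := rfl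
  simp [coc, sgnx_one, (pr_eq_zero B (one_mem (Qx D x))).2 (Or.inl rfl), Qf_zero, h]

theorem coc_x : coc B x = 1 := by
  have h : (0 : Cext B).snd = 0 := rfl
  simp [coc, sgnx_x, (pr_eq_zero B (x_mem_qx B)).2 (Or.inr rfl), Qf_zero, h]

theorem coc_ell {v : Res B} (hv : Qf B v = 0) : coc B (ell B v) = 0 := by
  rw [coc, (ell_mem B hv).2, hv, map_zero, mul_zero, add_zero,
    show sect B v = fpt B v from (exists_section B).choose_spec.2 v hv, fpt]
  exact (congrArg iota ((by decide : ∀ c : ZMod 2, c + c = 0) _)).trans (map_zero _)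

theorem coc_tr (q : G) : coc B q + cnj (coc B q) = iota (Qf B (pr B q)) := by
  simp only [coc, map_add, map_mul, cnj_iota, cnj_om]
  linear_combination (iota (sgnx B q) + iota (sect B (pr B q)).snd +
    om * iota (Qf B (pr B q))) * two_eq_zero

theorem coc_eq_zero_iff {q : G} (hq : q ∈ Qx D x) :
    coc B q = 0 ↔ q = 1 ∨ q ∈ lifts D x y := by
  constructor
  · intro h
    have hv : Qf B (pr B q) = 0 := by
      have := coc_tr B q
      rw [h, map_zero, add_zero, eq_comm, map_eq_zero_iff _ iota_injective] at this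
      exact this
    obtain ⟨he1, he2⟩ := ell_mem B hv
    rcases pr_eq_pr B hq he1 he2.symm with h' | h'
    · rw [h']
      rcases eq_or_ne (pr B q) 0 with h0 | h0
      · rw [h0, ell_zero]; exact Or.inl rfl
      · exact Or.inr (ell_spec B hv h0).1
    · rw [h', coc_mul B (x_mem_qx B) he1, coc_x, coc_ell B hv,
        (pr_eq_zero B (x_mem_qx B)).2 (Or.inr rfl)] at h
      rw [show hh B (0 : Res B) (pr B (ell B (pr B q))) = 0 by
        simp [hh, coA, bt_zero_left], add_zero, add_zero] at h
      exact absurd h one_ne_zero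
  · rintro (rfl | h)
    · exact coc_one B
    · have hv := Qf_lift B h
      obtain ⟨m, -, -, h0, -⟩ := lift_point B h
      rw [lift_unique B h (ell_spec B hv h0).1 (ell_spec B hv h0).2.symm]
      exact coc_ell B hv

end Cfsg.Agent.H9.Polar
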