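import Cfsg.Agent.H9.PolarOrient
import Cfsg.Agent.H9.FieldFour

/-!
# The Hermitian form on the residue
-/

set_option autoImplicit false

namespace Cfsg.Agent.H9.Polar

open Subgroup
open Cfsg.Agent.H17
open Cfsg.Agent.H9.Fischer (cj cj_injective cj_eq_self exists_cj Near Far cj_mem_iff)

variable {G : Type*} [Group G]

/-- The translations carrying `y` to one of its partners outside those of `x`. -/
def lifts (D : Set G) (x y : G) : Set G :=
  {q | ∃ m ∈ common D x y, ∃ a ∈ Line D x m, a ≠ x ∧ a ≠ m ∧ q = x * m * a}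

variable [Finite G] {D : Set G} {x y : G} (B : Base D x y)
include B

theorem far_cj_mem {q : G} (hqx : Commute q x) : cj q y ∈ Far D x :=
  ⟨(cj_mem_iff B.set.conj).2 B.farY.1, fun h => B.farY.2 (by
    rw [← commute_cj q, cj_eq_self hqx]; exact h)⟩

/-- A translation fixing a non-partner of `x` is `1` or `x`. -/
theorem qx_free {q e : G} (hq : q ∈ Qx D x) (he : e ∈ Far D x) (hfix : cj q e = e) :
    q = 1 ∨ q = x := by
  refine kernel_eq B (qx_commute hq) fun f hf => commute_of_cj_eq ?_
  obtain ⟨m, hm, hmL, hmN⟩ := exists_trace B.set B.memX he hf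
  obtain ⟨h1, h2⟩ := qx_line B hq hmN
  obtain ⟨-, hmL'⟩ := line_of_near B.set B.memX hf hmL hmN.2.1
  have hmem : cj q m ∈ common D x e := by
    refine ⟨(cj_mem_iff B.set.conj).2 hm.1, line_commute B.memX hmN (left_mem_line B.memX) h1, ?_⟩
    rw [← hfix, commute_cj]; exact hm.2.2
  have hqm : cj q m = m := trace_unique B.set B.memX he hf hmem (hmL' ▸ h1) hm hmL
  exact qx_fix B hq hmN hqm (hmL' ▸ right_mem_line hf.1) hf.2.1

theorem qx_fix_y {q : G} (hq : q ∈ Qx D x) (hfix : cj q y = y) : q = 1 := by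
  rcases qx_free B hq B.farY hfix with h | h
  · exact h
  · rw [h] at hfix
    exact absurd (commute_of_cj_eq hfix) B.farY.2

theorem qx_orbit_injective {p q : G} (hp : p ∈ Qx D x) (hq : q ∈ Qx D x) (h : cj p y = cj q y) :
    p = q :=
  (inv_mul_eq_one.1 (qx_fix_y B (mul_mem (inv_mem hp) hq)
    (by rw [cj_mul, ← h, ← cj_mul, inv_mul_cancel, cj_one])))

theorem lift_mem {q : G} (hq : q ∈ lifts D x y) : q ∈ Qx D x := by
  obtain ⟨m, hm, a, ha, hax, ham, rfl⟩ := hq
  rw [mul_assoc]
  exact mul_mem (x_mem_qx B) (pair_mem B (common_near B.set B.farY hm) ha hax)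

/-- The lifts are the translations carrying `y` to a different partner. -/
theorem lift_iff {q : G} (hq : q ∈ Qx D x) :
    q ∈ lifts D x y ↔ q ≠ 1 ∧ Commute y (cj q y) := by
  have S := B.set
  have hy := B.farY
  have hxy : ¬ Commute x y := hy.2
  constructor
  · rintro ⟨m, hm, a, ha, hax, ham, rfl⟩
    have hmN := common_near S hy hm
    obtain ⟨haN, -⟩ := line_of_near S B.memX hmN ha hax
    have hay : ¬ Commute a y := fun h => hxy (commute_all_of_two S B.memX hmN ha
      (right_mem_line hm.1) ham hy.1 h.symm hm.2.2 (left_mem_line B.memX)).symm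
    have hz : cj (x * m * a) y = cj x (cj y a) := by
      rw [cj_mul, cj_mul, ← braid_cj S.cls.1 haN.1 hy.1 hay]
      congr 1
      exact cj_eq_self ((commute_cj a).2 hm.2.2.symm |> fun h => by
        rwa [cj_eq_self (line_commute B.memX hmN ha (right_mem_line hm.1))] at h)
    have hc : Commute y (cj (x * m * a) y) := by
      rw [hz, ← commute_cj x, cj_cj_self S.cls.1 B.memX, braid_cj S.cls.1 B.memX hy.1 hxy,
        commute_cj]
      exact haN.2.2
    refine ⟨fun h => ?_, hc⟩
    refine ham ?_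
    have h1 : pr B (m * a) = pr B (m * m) := by
      rw [(pr_eq_zero B (pair_mem B hmN (right_mem_line hm.1) hmN.2.1)).2
        (Or.inl (sq_one S.cls.1 hm.1)), pr_eq_zero B (pair_mem B hmN ha hax)]
      right
      rw [mul_assoc] at h
      rw [eq_inv_of_mul_eq_one_right h, inv_self S.cls.1 B.memX]
    exact wr_pr_injective B hmN ⟨ha, hax⟩ ⟨right_mem_line hm.1, hmN.2.1⟩ h1
  · rintro ⟨hq1, hc⟩
    set z := cj q y with hz
    have hzy : z ≠ y := fun h => hq1 (qx_fix_y B hq h)
    have hzF := far_cj_mem B (qx_commute hq)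
    have hzN : z ∈ Near D y := ⟨hzF.1, hzy, hc⟩
    obtain ⟨m, hmL, hxm⟩ := meets S hy.1 hzN B.memX
    have hmy : m ≠ y := fun h => hxy (by rw [h] at hxm; exact hxm)
    have hmz : m ≠ z := fun h => hzF.2 (by rw [h] at hxm; exact hxm)
    have hym : Commute y m := line_commute hy.1 hzN (left_mem_line hy.1) hmL
    have hm : m ∈ common D x y := ⟨hmL.1, hxm, hym⟩
    have hmN := common_near S hy hm
    set a := cj y (cj x z) with ha
    have haD : a ∈ D := (cj_mem_iff S.conj).2 ((cj_mem_iff S.conj).2 hzF.1)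
    have hcxy : cj y (cj x y) = x := by
      rw [braid_cj S.cls.1 B.memX hy.1 hxy, cj_cj_self S.cls.1 hy.1]
    have hax : a ≠ x := by
      rw [← hcxy, ha]
      exact fun h => hzy (cj_injective x (cj_injective y h))
    have haL : a ∈ Line D x m := by
      have h1 : Line D (cj y (cj x y)) (cj y (cj x m)) =
          cj y '' (cj x '' Line D y m) := by rw [line_conj S, line_conj S]
      rw [hcxy, cj_eq_self hxm, cj_eq_self hym] at h1
      rw [h1]
      refine ⟨_, ⟨z, ?_, rfl⟩, rfl⟩
      have hLm : Line D y m = Line D y z :=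
        line_eq S hy.1 hzN (left_mem_line hy.1) hmL hmy.symm
      rw [hLm]; exact right_mem_line hzF.1
    have ham : a ≠ m := by
      intro h
      refine hmz (cj_injective x ?_)
      apply cj_injective y
      rw [← ha, h, cj_eq_self hxm, cj_eq_self hym]
    have hay : ¬ Commute a y := fun h => hxy (commute_all_of_two S B.memX hmN haL
      (right_mem_line hm.1) ham hy.1 h.symm hm.2.2 (left_mem_line B.memX)).symm
    refine ⟨m, hm, a, haL, hax, ham, qx_orbit_injective B hq ?_ ?_⟩
    · rw [mul_assoc]; exact mul_mem (x_mem_qx B) (pair_mem B hmN haL hax)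
    · rw [← hz, cj_mul, cj_mul, braid_cj S.cls.1 haD hy.1 hay]
      have h2 : cj y a = cj x z := by rw [ha, cj_cj_self S.cls.1 hy.1]
      rw [h2]
      have hmx : Commute m (cj x z) := by
        have := (commute_cj x).2 (line_commute hy.1 hzN hmL (right_mem_line hzF.1))
        rwa [cj_eq_self hxm] at this
      rw [cj_eq_self hmx, cj_cj_self S.cls.1 B.memX]

/-- A chosen representative. -/
noncomputable def rep (v : Res B) : G := (pr_surjective B v).choose

theorem rep_mem (v : Res B) : rep B v ∈ Qx D x := (pr_surjective B v).choose_spec.1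

theorem pr_rep (v : Res B) : pr B (rep B v) = v := (pr_surjective B v).choose_spec.2

open Classical in
/-- The squaring map of the translation group. -/
noncomputable def Qf (v : Res B) : ZMod 2 := if rep B v * rep B v = 1 then 0 else 1

open Classical in
/-- The commutator form of the translation group. -/
noncomputable def bt (u v : Res B) : ZMod 2 := if Commute (rep B u) (rep B v) then 0 else 1

open Classical in
theorem bt_comm (u v : Res B) : bt B u v = bt B v u := by
  simp only [bt]; exact if_congr Commute.symm_iff rfl rfl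

open Classical in
theorem bt_pr {p q : G} (hp : p ∈ Qx D x) (hq : q ∈ Qx D x) :
    bt B (pr B p) (pr B q) = if Commute p q then 0 else 1 := by
  simp only [bt]
  refine if_congr ?_ rfl rfl
  have key : ∀ {p p' q : G}, q ∈ Qx D x → p = p' ∨ p = x * p' → (Commute p q ↔ Commute p' q) := by
    rintro p p' q hq (rfl | rfl)
    · exact Iff.rfl
    · refine ⟨fun h => ?_, fun h => (qx_commute hq).symm.mul_left h⟩
      have := (qx_commute hq).symm.mul_left h
      rwa [← mul_assoc, sq_one B.set.cls.1 B.memX, one_mul] at this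
  rw [key (rep_mem B _) (pr_eq_pr B (rep_mem B _) hp (pr_rep B _)), Commute.symm_iff,
    key hp (pr_eq_pr B (rep_mem B _) hq (pr_rep B _)), Commute.symm_iff]

open Classical in
theorem Qf_pr {p : G} (hp : p ∈ Qx D x) : Qf B (pr B p) = if p * p = 1 then 0 else 1 := by
  simp only [Qf]
  refine if_congr ?_ rfl rfl
  rcases pr_eq_pr B (rep_mem B _) hp (pr_rep B (pr B p)) with h | h <;> rw [h]
  rw [show x * p * (x * p) = p * p by
    rw [mul_assoc, ← mul_assoc p x, (qx_commute hp).eq, mul_assoc, ← mul_assoc x x,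
      sq_one B.set.cls.1 B.memX, one_mul]]

theorem bt_add_left (u v w : Res B) : bt B (u + v) w = bt B u w + bt B v w := by
  classical
  obtain ⟨p, hp, rfl⟩ := pr_surjective B u
  obtain ⟨p', hp', rfl⟩ := pr_surjective B v
  obtain ⟨q, hq, rfl⟩ := pr_surjective B w
  rw [← pr_mul B hp hp', bt_pr B (mul_mem hp hp') hq, bt_pr B hp hq, bt_pr B hp' hq]
  have alt : ∀ {p}, p ∈ Qx D x → ¬ Commute p q → p * q = x * (q * p) := by
    intro p hp h
    rcases comm_mem B hp hq with h1 | h1
    · exact absurd (mul_inv_eq_iff_eq_mul.1 (mul_inv_eq_one.1 h1)) h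
    · rw [mul_inv_eq_iff_eq_mul, mul_inv_eq_iff_eq_mul] at h1
      rw [h1, mul_assoc]
  have hne : ∀ g : G, x * g ≠ g := fun g h =>
    x_ne_one B (mul_right_cancel (h.trans (one_mul g).symm))
  by_cases h1 : Commute p q <;> by_cases h2 : Commute p' q
  · simp [h1.mul_left h2, h1, h2]
  · have : ¬ Commute (p * p') q := fun h => h2 (by
      have := h1.inv_left.mul_left h
      rwa [← mul_assoc, inv_mul_cancel, one_mul] at this)
    simp [this, h1, h2]
  · have : ¬ Commute (p * p') q := fun h => h1 (by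
      have := h.mul_left h2.inv_left
      rwa [mul_assoc, mul_inv_cancel, mul_one] at this)
    simp [this, h1, h2]
  · have : Commute (p * p') q := by
      show p * p' * q = q * (p * p')
      rw [mul_assoc, alt hp' h2, ← mul_assoc, (qx_commute hp).eq, mul_assoc, ← mul_assoc p,
        alt hp h1, ← mul_assoc, ← mul_assoc, sq_one B.set.cls.1 B.memX, one_mul, mul_assoc]
    rw [if_pos this, if_neg h1, if_neg h2]; decide

theorem bt_add_right (u v w : Res B) : bt B u (v + w) = bt B u v + bt B u w := by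
  rw [bt_comm, bt_add_left, bt_comm B v, bt_comm B w]

theorem bt_zero_left (v : Res B) : bt B 0 v = 0 := by
  have h := bt_add_left B 0 0 v
  rw [add_zero] at h
  exact self_eq_add_left' h
where
  self_eq_add_left' {a : ZMod 2} (h : a = a + a) : a = 0 := by
    revert h; revert a; decide

theorem bt_zero_right (v : Res B) : bt B v 0 = 0 := by rw [bt_comm, bt_zero_left]

theorem bt_self (v : Res B) : bt B v v = 0 := by
  classical
  simp [bt]

theorem Qf_zero : Qf B 0 = 0 := by
  classical
  rw [← (pr_eq_zero B (one_mem (Qx D x))).2 (Or.inl rfl), Qf_pr B (one_mem _)]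
  simp

theorem Qf_add (u v : Res B) : Qf B (u + v) = Qf B u + Qf B v + bt B u v := by
  classical
  obtain ⟨p, hp, rfl⟩ := pr_surjective B u
  obtain ⟨q, hq, rfl⟩ := pr_surjective B v
  rw [← pr_mul B hp hq, Qf_pr B (mul_mem hp hq), Qf_pr B hp, Qf_pr B hq, bt_pr B hp hq]
  have hx2 := sq_one B.set.cls.1 B.memX
  have hx1 := x_ne_one B
  have hxq : ∀ {g}, g ∈ Qx D x → g * x = x * g := fun hg => (qx_commute hg).eq
  by_cases hc : Commute p q
  · have h : p * q * (p * q) = p * p * (q * q) := by
      rw [mul_assoc, ← mul_assoc q, ← hc.eq]; simp only [mul_assoc]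
    rw [h, if_pos hc]
    rcases sq_mem B hp with h1 | h1 <;> rcases sq_mem B hq with h2 | h2 <;>
      simp [h1, h2, hx1, hx2] <;> decide
  · have hqp : q * p = x * (p * q) := by
      rcases comm_mem B hq hp with h1 | h1
      · exact absurd (mul_inv_eq_iff_eq_mul.1 (mul_inv_eq_one.1 h1)).symm hc
      · rw [mul_inv_eq_iff_eq_mul, mul_inv_eq_iff_eq_mul] at h1
        rw [h1, mul_assoc]
    have h : p * q * (p * q) = x * (p * p * (q * q)) := by
      rw [mul_assoc, ← mul_assoc q, hqp, ← mul_assoc p, ← mul_assoc p, hxq hp]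
      simp only [mul_assoc]
    rw [h, if_neg hc]
    rcases sq_mem B hp with h1 | h1 <;> rcases sq_mem B hq with h2 | h2 <;>
      simp [h1, h2, hx1, hx2] <;> decide

theorem Qf_wr {r : G} (hr : r ∈ Near D x) {v : Res B} (hv : v ∈ Wr B r) : Qf B v = 0 := by
  classical
  obtain ⟨a, ⟨ha, hax⟩, rfl⟩ := (mem_wr B hr).1 hv
  rw [Qf_pr B (pair_mem B hr ha hax), if_pos]
  rw [mul_assoc, ← mul_assoc a, (line_commute B.memX hr ha (right_mem_line hr.1)).eq, mul_assoc r a,
    sq_one B.set.cls.1 ha.1, mul_one, sq_one B.set.cls.1 hr.1]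

theorem bt_wr_zero {r s : G} (hr : r ∈ Near D x) (hs : s ∈ Near D x) (h : Commute r s)
    {u v : Res B} (hu : u ∈ Wr B r) (hv : v ∈ Wr B s) : bt B u v = 0 := by
  classical
  obtain ⟨a, ⟨ha, hax⟩, rfl⟩ := (mem_wr B hr).1 hu
  obtain ⟨b, ⟨hb, hbx⟩, rfl⟩ := (mem_wr B hs).1 hv
  rw [bt_pr B (pair_mem B hr ha hax) (pair_mem B hs hb hbx), if_pos]
  obtain ⟨haN, -⟩ := line_of_near B.set B.memX hr ha hax
  obtain ⟨hbN, -⟩ := line_of_near B.set B.memX hs hb hbx
  have has : Commute a s := (commute_all_of_two B.set B.memX hr (left_mem_line B.memX)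
    (right_mem_line hr.1) hr.2.1.symm hs.1 hs.2.2.symm h.symm ha).symm
  have hrb : Commute r b := commute_all_of_two B.set B.memX hs (left_mem_line B.memX)
    (right_mem_line hs.1) hs.2.1.symm hr.1 hr.2.2.symm h hb
  have hab : Commute a b := commute_all_of_two B.set B.memX hs (left_mem_line B.memX)
    (right_mem_line hs.1) hs.2.1.symm haN.1 haN.2.2.symm has hb
  exact ((h.mul_right hrb).mul_left (has.mul_right hab))

theorem bt_nr {r : G} (hr : r ∈ Near D x) (v : Res B) : bt B v (Nr B r v) = 0 := by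
  classical
  obtain ⟨q, hq, rfl⟩ := pr_surjective B v
  rw [nr_apply B hr hq]
  obtain ⟨hL, hne⟩ := qx_line B hq hr
  rw [bt_pr B hq (pair_mem B hr hL hne), if_pos]
  refine commute_of_cj_eq ?_
  rw [cj_map_mul, (qx_translation B hq hr).2.1 r ⟨right_mem_line hr.1, hr.2.1⟩]
  exact (line_commute B.memX hr hL (right_mem_line hr.1)).eq

theorem bt_adjoint {r : G} (hr : r ∈ Near D x) (u v : Res B) :
    bt B (Nr B r u) v = bt B u (Nr B r v) := by
  classical
  have h : bt B (Tr B r hr u) (Tr B r hr v) = bt B u v := by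
    obtain ⟨p, hp, rfl⟩ := pr_surjective B u
    obtain ⟨q, hq, rfl⟩ := pr_surjective B v
    rw [tr_apply B hr hp, tr_apply B hr hq, bt_pr B (qx_conj B hr.2.2.symm hp)
      (qx_conj B hr.2.2.symm hq), bt_pr B hp hq]
    exact if_congr (commute_cj r) rfl rfl
  rw [tr_nr, tr_nr, bt_add_left, bt_add_right, bt_add_right,
    bt_wr_zero B hr hr (Commute.refl r) (nr_mem B r hr u) (nr_mem B r hr v), add_zero] at h
  revert h
  generalize bt B u v = a
  generalize bt B (Nr B r u) v = b
  generalize bt B u (Nr B r v) = c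
  revert a b c; decide

/-- An element of the residue squaring to one comes from a line. -/
theorem isotropic_mem {v : Res B} (hv : Qf B v = 0) (hv0 : v ≠ 0) :
    ∃ m ∈ common D x y, v ∈ Wr B m := by
  classical
  have S := B.set
  obtain ⟨q, hq, rfl⟩ := pr_surjective B v
  have hq2 : q * q = 1 := by
    rw [Qf_pr B hq] at hv
    by_contra h
    rw [if_neg h] at hv
    exact one_ne_zero hv
  obtain ⟨q', hq', hpr, hc⟩ :
      ∃ q' ∈ Qx D x, pr B q' = pr B q ∧ Commute y (cj q' y) := by
    by_cases hc : Commute y (cj q y)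
    · exact ⟨q, hq, rfl, hc⟩
    refine ⟨x * q, mul_mem (x_mem_qx B) hq, ?_, ?_⟩
    · rw [pr_mul B (x_mem_qx B) hq, (pr_eq_zero B (x_mem_qx B)).2 (Or.inr rfl), zero_add]
    set d := cj q y with hd
    have hdF := far_cj_mem B (qx_commute hq)
    set e := cj y d with he
    have heD : e ∈ D := (cj_mem_iff S.conj).2 hdF.1
    have hqe : cj q e = e := by
      have hqd : cj q d = y := by rw [hd, ← cj_mul, hq2, cj_one]
      have h1 : cj q (cj y d) = cj (cj q y) (cj q d) := by simp only [cj]; group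
      rw [he, h1, ← hd, hqd, braid_cj S.cls.1 hdF.1 B.farY.1 fun h => hc h.symm]
    have hne : ¬ (q = 1 ∨ q = x) := fun h => hv0 ((pr_eq_zero B hq).2 h)
    have hex : e ≠ x := by
      intro h
      refine hne (Or.inr ?_)
      have hd' : d = cj x y := by
        rw [braid_cj S.cls.1 B.memX B.farY.1 B.farY.2, ← h, he, cj_cj_self S.cls.1 B.farY.1]
      exact qx_orbit_injective B hq (x_mem_qx B) (hd ▸ hd')
    have hxe : Commute x e := by
      by_contra h
      exact hne (qx_free B hq ⟨heD, h⟩ hqe)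
    have h1 : Commute (cj y x) d := by
      have := (commute_cj y).2 hxe
      rwa [he, cj_cj_self S.cls.1 B.farY.1] at this
    rw [← braid_cj S.cls.1 B.memX B.farY.1 B.farY.2, ← commute_cj x, cj_cj_self S.cls.1 B.memX] at h1
    rwa [cj_mul]
  have hq'1 : q' ≠ 1 := fun h => hv0 (by
    rw [← hpr, h]; exact (pr_eq_zero B (one_mem _)).2 (Or.inl rfl))
  obtain ⟨m, hm, a, ha, hax, -, rfl⟩ := (lift_iff B hq').2 ⟨hq'1, hc⟩
  refine ⟨m, hm, ?_⟩
  have hmN := common_near S B.farY hm
  rw [← hpr, mul_assoc, pr_mul B (x_mem_qx B) (pair_mem B hmN ha hax),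
    (pr_eq_zero B (x_mem_qx B)).2 (Or.inr rfl), zero_add]
  exact (mem_wr B hmN).2 ⟨a, ⟨ha, hax⟩, rfl⟩

section Scalar

variable {J : Res B →ₗ[ZMod 2] Res B} (hJ : ∀ v, J (J v) + J v + v = 0)
  (hJN : ∀ r ∈ Near D x, ∀ v, Nr B r (J v) = J (Nr B r v))
include hJ

theorem J_cube (v : Res B) : J (J (J v)) = v := by
  have h2 : ∀ u, J (J u) = J u + u := fun u =>
    ((add_eq_zero_iff_eq_neg.1 ((add_assoc _ _ _).symm.trans (hJ u))).trans
      (neg_eq_of_add_eq_zero_left (res_add_self B _)))
  rw [h2 (J v), h2 v, add_comm (J v) v, add_assoc, res_add_self, add_zero]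

theorem J_injective : Function.Injective J :=
  Function.LeftInverse.injective (g := fun v => J (J v)) (J_cube B hJ)

include hJN

theorem J_wr {r : G} (hr : r ∈ Near D x) {w : Res B} (hw : w ∈ Wr B r) : J w ∈ Wr B r := by
  obtain ⟨s, hs, hsr, -⟩ := exists_bridge B hr hr (Commute.refl r)
  rw [← nr_nr B hr hs (fun h => hsr h.symm) hw, ← hJN r hr]
  exact nr_mem B r hr _

/-- The form on two non-commuting lines. -/
theorem bt_pair {r s : G} (hr : r ∈ Near D x) (hs : s ∈ Near D x) (hrs : ¬ Commute r s)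
    {w u : Res B} (hw : w ∈ Wr B r) (hu : u ∈ Wr B r) :
    bt B w (Nr B s u) = 0 ↔ w = 0 ∨ u = 0 ∨ w = u := by
  refine ⟨fun h => ?_, ?_⟩
  · by_contra hne
    simp only [not_or] at hne
    obtain ⟨hw0, hu0, hwu⟩ := hne
    have hrot : Rot B r J := fun z hz => ⟨J_wr B hJ hJN hr hz, hJ z⟩
    set v := w + Nr B s u with hv
    have hQ : Qf B v = 0 := by
      rw [hv, Qf_add, Qf_wr B hr hw, Qf_wr B hs (nr_mem B s hs u), h]; decide
    have hNr : Nr B r v = u := by
      rw [hv, map_add, nr_wr_zero B hr hr (Commute.refl r) hw, nr_nr B hr hs hrs hu, zero_add]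
    have hNs : Nr B s v = Nr B s w := by rw [hv, map_add, nr_sq B hs, add_zero]
    obtain ⟨p, hp, hvp⟩ := isotropic_mem B hQ fun h0 => hu0 (by rw [← hNr, h0, map_zero])
    have hpN := common_near B.set B.farY hp
    have hpr' : ¬ Commute p r := fun hc => hu0 (by rw [← hNr, nr_wr_zero B hr hpN hc.symm hvp])
    have hps : ¬ Commute p s := fun hc =>
      hw0 (nr_wr_injective B hs hr (fun h' => hrs h'.symm) hw
        (by rw [← hNs, nr_wr_zero B hs hpN hc.symm hvp]))
    have h1 : Nr B p u = v := by rw [← hNr, nr_nr B hpN hr hpr' hvp]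
    have h2 : Nr B p (Nr B s w) = v := by rw [← hNs, nr_nr B hpN hs hps hvp]
    have h0 : Nr B p v = 0 := nr_wr_zero B hpN hpN (Commute.refl p) hvp
    rw [hv, map_add] at h0
    have h3 : Nr B p w = Nr B p (Nr B s u) :=
      (add_eq_zero_iff_eq_neg.1 h0).trans (neg_eq_of_add_eq_zero_left (res_add_self B _))
    have hv0 : v ≠ 0 := fun h' => hu0 (by rw [← hNr, h', map_zero])
    rcases rot_cases B hr hrot hu hu0 hw with h' | h' | h' | h'
    · exact hw0 h'
    · exact hwu h'
    · rw [h'] at h2 h3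
      rw [hJN p hpN, h1] at h3
      rw [hJN s hs, hJN p hpN, ← h3] at h2
      have := hJ v
      rw [h2] at this
      exact hv0 (J_injective B hJ (by
        rw [map_zero]; rwa [add_comm v (J v), add_assoc, res_add_self, add_zero] at this))
    · rw [h'] at h2 h3
      rw [hJN p hpN, hJN p hpN, h1] at h3
      rw [hJN s hs, hJN s hs, hJN p hpN, hJN p hpN, ← h3] at h2
      -- `J ^ 4 v = v`
      rw [J_cube B hJ] at h2
      have := hJ v
      simp only [h2, res_add_self, zero_add] at this
      exact hv0 this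
  · rintro (rfl | rfl | rfl)
    · exact bt_zero_left B _
    · rw [map_zero, bt_zero_right]
    · exact bt_nr B hs w

theorem bt_J (u v : Res B) : bt B (J u) (J v) = bt B u v := by
  have hspan := fun z : Res B => (res_span B) (Submodule.mem_top : z ∈ ⊤)
  have base : ∀ r ∈ Near D x, ∀ w ∈ Wr B r, ∀ s ∈ Near D x, ∀ w' ∈ Wr B s,
      bt B (J w) (J w') = bt B w w' := by
    intro r hr w hw s hs w' hw'
    by_cases hrs : Commute r s
    · rw [bt_wr_zero B hr hs hrs hw hw',
        bt_wr_zero B hr hs hrs (J_wr B hJ hJN hr hw) (J_wr B hJ hJN hs hw')]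
    · have hu := nr_mem B r hr w'
      rw [← nr_nr B hs hr (fun h => hrs h.symm) hw', ← hJN s hs]
      have h1 := bt_pair B hJ hJN hr hs hrs hw hu
      have h2 := bt_pair B hJ hJN hr hs hrs (J_wr B hJ hJN hr hw) (J_wr B hJ hJN hr hu)
      have hiff : bt B (J w) (Nr B s (J (Nr B r w'))) = 0 ↔ bt B w (Nr B s (Nr B r w')) = 0 := by
        rw [h1, h2]
        simp only [map_eq_zero_iff _ (J_injective B hJ), (J_injective B hJ).eq_iff]
      revert hiff
      generalize bt B (J w) (Nr B s (J (Nr B r w'))) = a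
      generalize bt B w (Nr B s (Nr B r w')) = b
      revert a b; decide
  induction hspan u using Submodule.span_induction with
  | mem u hu =>
    obtain ⟨r, hr, hu⟩ := hu
    induction hspan v using Submodule.span_induction with
    | mem v hv => obtain ⟨s, hs, hv⟩ := hv; exact base r hr u hu s hs v hv
    | zero => simp [bt_zero_right]
    | add p q _ _ hp hq => rw [map_add, bt_add_right, bt_add_right, hp, hq]
    | smul k p _ hp =>
      rcases (by decide : ∀ c : ZMod 2, c = 0 ∨ c = 1) k with rfl | rfl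
      · simp [bt_zero_right]
      · rw [one_smul]; exact hp
  | zero => simp [bt_zero_left]
  | add p q _ _ hp hq => rw [map_add, bt_add_left, bt_add_left, hp, hq]
  | smul k p _ hp =>
    rcases (by decide : ∀ c : ZMod 2, c = 0 ∨ c = 1) k with rfl | rfl
    · simp [bt_zero_left]
    · rw [one_smul]; exact hp

theorem bt_J_left (u v : Res B) : bt B (J u) v = bt B u (J (J v)) := by
  conv_lhs => rw [← J_cube B hJ v, bt_J B hJ hJN]

theorem Qf_J (v : Res B) : Qf B (J v) = Qf B v := by
  induction (res_span B) (Submodule.mem_top : v ∈ ⊤) using Submodule.span_induction with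
  | mem u hu =>
    obtain ⟨r, hr, hu⟩ := hu
    rw [Qf_wr B hr hu, Qf_wr B hr (J_wr B hJ hJN hr hu)]
  | zero => rw [map_zero]
  | add p q _ _ hp hq => rw [map_add, Qf_add, Qf_add, hp, hq, bt_J B hJ hJN]
  | smul k p _ hp =>
    rcases (by decide : ∀ c : ZMod 2, c = 0 ∨ c = 1) k with rfl | rfl
    · simp
    · rw [one_smul]; exact hp

theorem bt_sq (v : Res B) : bt B v (J (J v)) = Qf B v := by
  have h := Qf_add B v (J (J v))
  have h2 : v + J (J v) = J v := by
    have := hJ v
    rw [add_comm (J (J v)) (J v), add_assoc] at this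
    rw [add_comm v]
    exact ((add_eq_zero_iff_eq_neg.1 this).trans
      (neg_eq_of_add_eq_zero_left (res_add_self B _))).symm
  rw [h2, Qf_J B hJ hJN, Qf_J B hJ hJN, Qf_J B hJ hJN] at h
  revert h
  generalize Qf B v = a
  generalize bt B v (J (J v)) = b
  revert a b; decide

theorem bt_nondeg {v : Res B} (h : ∀ u, bt B v u = 0) : v = 0 := by
  refine eq_zero_of_nr B fun r hr => ?_
  obtain ⟨s, hs, hsr, -⟩ := exists_bridge B hr hr (Commute.refl r)
  by_contra h0
  have hw := nr_mem B r hr v
  have hrs : ¬ Commute r s := fun h => hsr h.symm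
  have h1 : bt B (Nr B r v) (Nr B s (J (Nr B r v))) = 0 := by rw [bt_adjoint B hr]; exact h _
  rcases (bt_pair B hJ hJN hr hs hrs hw (J_wr B hJ hJN hr hw)).1 h1 with h2 | h2 | h2
  · exact h0 h2
  · exact h0 (J_injective B hJ (h2.trans (map_zero _).symm))
  · have := hJ (Nr B r v)
    rw [← h2, ← h2, res_add_self, zero_add] at this
    exact h0 this

/-- The displacement as a rank one map. -/
theorem nr_formula {r : G} (hr : r ∈ Near D x) {e : Res B} (he : e ∈ Wr B r) (he0 : e ≠ 0)
    (v : Res B) :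
    Nr B r v = (bt B e (J (J v))) • e + (bt B e v) • J e := by
  obtain ⟨s, hs, hsr, -⟩ := exists_bridge B hr hr (Commute.refl r)
  have hrs : ¬ Commute r s := fun h => hsr h.symm
  obtain ⟨u, hu⟩ : ∃ u, u = Nr B r v := ⟨_, rfl⟩
  rw [← hu]
  have huW : u ∈ Wr B r := hu ▸ nr_mem B r hr v
  have horth : ∀ z, z = v + Nr B s u → ∀ w ∈ Wr B r, bt B w z = 0 := by
    intro z hz w hw
    rw [← nr_nr B hr hs hrs hw, bt_adjoint B hr]
    have : Nr B r z = 0 := by
      rw [hz, map_add, ← hu, nr_nr B hr hs hrs huW, res_add_self]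
    rw [this, bt_zero_right]
  have hsplit : ∀ w ∈ Wr B r, bt B w v = bt B w (Nr B s u) := by
    intro w hw
    have := horth _ rfl w hw
    rw [bt_add_right] at this
    revert this
    generalize bt B w v = a
    generalize bt B w (Nr B s u) = b
    revert a b; decide
  have hJe := J_wr B hJ hJN hr he
  have hJJe := J_wr B hJ hJN hr hJe
  have h1 : bt B e (J (J v)) = bt B (J e) (Nr B s u) := by
    rw [← bt_J B hJ hJN, J_cube B hJ, hsplit _ hJe]
  rw [h1, hsplit e he]
  have hJe0 : J e ≠ 0 := fun h => he0 (J_injective B hJ (h.trans (map_zero _).symm))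
  have hne1 : J e ≠ e := fun h => he0 (by
    have := hJ e; rwa [h, h, res_add_self, zero_add] at this)
  have hsum : J (J e) = e + J e := by
    have := hJ e
    rw [add_assoc] at this
    rw [add_comm e]
    exact (add_eq_zero_iff_eq_neg.1 this).trans (neg_eq_of_add_eq_zero_left (res_add_self B _))
  have hval : ∀ {w : Res B}, w ∈ Wr B r → w ≠ 0 → ∀ {z : Res B}, z ∈ Wr B r → z ≠ 0 → w ≠ z →
      bt B w (Nr B s z) = 1 := by
    intro w hw hw0 z hz hz0 hwz
    have := bt_pair B hJ hJN hr hs hrs hw hz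
    rcases (by decide : ∀ c : ZMod 2, c = 0 ∨ c = 1) (bt B w (Nr B s z)) with h | h
    · rcases this.1 h with h' | h' | h'
      exacts [absurd h' hw0, absurd h' hz0, absurd h' hwz]
    · exact h
  have hrot : Rot B r J := fun z hz => ⟨J_wr B hJ hJN hr hz, hJ z⟩
  rcases rot_cases B hr hrot he he0 huW with h | h | h | h <;> rw [h]
  · rw [map_zero, bt_zero_right, bt_zero_right, zero_smul, zero_smul, add_zero]
  · rw [hval hJe hJe0 he he0 hne1, bt_nr B hs, one_smul, zero_smul, add_zero]
  · rw [bt_nr B hs, hval he he0 hJe hJe0 hne1.symm, zero_smul, one_smul, zero_add]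
  · have h0 : J (J e) ≠ 0 := fun h' => hJe0 (J_injective B hJ (h'.trans (map_zero _).symm))
    have h2 : J e ≠ J (J e) := fun h' => hne1 (J_injective B hJ h').symm
    have h3 : e ≠ J (J e) := fun h' => hJe0 (by
      rw [hsum] at h'; exact add_eq_left.1 h'.symm)
    rw [hval hJe hJe0 hJJe h0 h2, hval he he0 hJJe h0 h3, one_smul, one_smul, hsum]

end Scalar

end Cfsg.Agent.H9.Polar
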