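import Cfsg.Agent.H9.PolarForm
import Cfsg.Agent.H9.HermExtend
import Cfsg.Agent.H3.Form

/-!
# The residue as a Hermitian space, and coordinates on the translation group
-/

set_option autoImplicit false

namespace Cfsg.Agent.H9.Polar

open Subgroup
open Cfsg.Agent.H17
open Cfsg.Agent.H9.FieldFour
open Cfsg.Agent.H9.Fischer (cj cj_injective cj_eq_self exists_cj Near Far cj_mem_iff)

variable {G : Type*} [Group G]

/-- The embedding of the field of two elements. -/
noncomputable abbrev iota : ZMod 2 →+* F4 := ZMod.castHom dvd_rfl F4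

theorem iota_injective : Function.Injective iota := iota.injective

theorem cnj_iota (a : ZMod 2) : cnj (iota a) = iota a := by
  rcases (by decide : ∀ c : ZMod 2, c = 0 ∨ c = 1) a with rfl | rfl <;> simp

variable [Finite G] {D : Set G} {x y : G} (B : Base D x y)
include B

/-- The scalar of order three. -/
noncomputable def sJ : Res B →ₗ[ZMod 2] Res B := (exists_scalar B).choose

theorem sJ_eq (v : Res B) : sJ B (sJ B v) + sJ B v + v = 0 := (exists_scalar B).choose_spec.1 v

theorem sJ_nr {r : G} (hr : r ∈ Near D x) (v : Res B) : Nr B r (sJ B v) = sJ B (Nr B r v) :=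
  (exists_scalar B).choose_spec.2 r hr v

/-- The endomorphism of order three. -/
noncomputable def sEnd : AddMonoid.End (Res B) := (sJ B).toAddMonoidHom

theorem sEnd_eq : sEnd B * sEnd B + sEnd B + 1 = 0 := AddMonoidHom.ext fun v => sJ_eq B v

/-- The scalars of the residue. -/
noncomputable def scal : F4 →+* AddMonoid.End (Res B) :=
  scalarHom (sEnd B) (sEnd_eq B) (res_add_self B)

noncomputable instance instModuleF4 : Module F4 (Res B) :=
  Module.compHom (Res B) (scal B)

theorem om_smul (v : Res B) : om • v = sJ B v := by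
  show scal B om v = _
  simp [scal, scalarHom, om_ne_zero, om_ne_one, sEnd]; rfl

theorem om_one_smul (v : Res B) : (om + 1) • v = sJ B v + v := by
  rw [add_smul, one_smul, om_smul]

theorem iota_smul (a : ZMod 2) (v : Res B) : iota a • v = a • v := by
  rcases (by decide : ∀ c : ZMod 2, c = 0 ∨ c = 1) a with rfl | rfl <;> simp

instance instFiniteRes : Finite (Res B) := inferInstanceAs (Finite (Additive (Qx D x ⧸ centX D x)))

instance instModuleFinite : Module.Finite F4 (Res B) := Module.Finite.of_finite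

theorem sJ_sq (v : Res B) : sJ B (sJ B v) = sJ B v + v := by
  have h := sJ_eq B v
  rw [add_assoc] at h
  exact (add_eq_zero_iff_eq_neg.1 h).trans (neg_eq_of_add_eq_zero_left (res_add_self B _))

/-- The first coordinate of the Hermitian form. -/
noncomputable def coA (v w : Res B) : ZMod 2 := bt B v (sJ B (sJ B w))

/-- The Hermitian form, conjugate linear in its first argument. -/
noncomputable def hh (v w : Res B) : F4 := iota (coA B v w) + om * iota (bt B v w)

theorem coA_swap (v w : Res B) : coA B w v = coA B v w + bt B v w := by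
  have hJ := sJ_eq B
  have hN : ∀ r ∈ Near D x, ∀ v, Nr B r (sJ B v) = sJ B (Nr B r v) := fun r hr => sJ_nr B hr
  rw [coA, coA, bt_comm B w, bt_J_left B hJ hN, bt_J_left B hJ hN, J_cube B hJ, ← bt_add_right]
  congr 1
  rw [sJ_sq, add_assoc, res_add_self, add_zero]

theorem hh_symm (v w : Res B) : cnj (hh B v w) = hh B w v := by
  simp only [hh, map_add, map_mul, cnj_iota, cnj_om, coA_swap B v w, bt_comm B w v]
  ring

theorem hh_add_right (u v w : Res B) : hh B u (v + w) = hh B u v + hh B u w := by
  simp only [hh, coA, map_add, bt_add_right]; ring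

theorem hh_add_left (u v w : Res B) : hh B (u + v) w = hh B u w + hh B v w := by
  simp only [hh, coA, map_add, bt_add_left]; ring

theorem hh_om_right (v w : Res B) : hh B v (om • w) = om * hh B v w := by
  have h2 : om * om = om + 1 := by rw [← pow_two, om_sq]
  simp only [hh, om_smul, coA, J_cube B (sJ_eq B)]
  have h3 : bt B v (sJ B w) = bt B v (sJ B (sJ B w)) + bt B v w := by
    rw [← bt_add_right, sJ_sq, add_assoc, res_add_self, add_zero]
  rw [h3, map_add]
  linear_combination -iota (bt B v w) * h2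

theorem hh_smul_right (c : F4) (v w : Res B) : hh B v (c • w) = c * hh B v w := by
  rcases F4_cases c with rfl | rfl | rfl | rfl
  · simp [hh, coA, bt_zero_right]
  · simp
  · exact hh_om_right B v w
  · rw [add_smul, one_smul, hh_add_right, hh_om_right]; ring

theorem hh_smul_left (c : F4) (v w : Res B) : hh B (c • v) w = cnj c * hh B v w := by
  rw [← hh_symm, hh_smul_right, map_mul, hh_symm]

/-- The Hermitian form of the residue. -/
noncomputable def hF : Res B →ₛₗ[cnj] Res B →ₗ[F4] F4 :=
  LinearMap.mk₂'ₛₗ cnj (RingHom.id F4) (hh B) (hh_add_left B) (hh_smul_left B) (hh_add_right B)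
    (hh_smul_right B)

@[simp] theorem hF_apply (v w : Res B) : hF B v w = hh B v w := rfl

theorem coA_self (v : Res B) : coA B v v = Qf B v := bt_sq B (sJ_eq B) (fun _ hr => sJ_nr B hr) v

theorem hh_self (v : Res B) : hh B v v = iota (Qf B v) := by
  rw [hh, coA_self, bt_self, map_zero, mul_zero, add_zero]

theorem hh_sep {v : Res B} (h : ∀ w, hh B v w = 0) : v = 0 := by
  refine bt_nondeg B (sJ_eq B) (fun _ hr => sJ_nr B hr) fun w => ?_
  exact (coords_unique (a := coA B v w) (a' := 0) (b := bt B v w) (b' := 0)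
    (by rw [map_zero, mul_zero, add_zero]; exact h w)).2

theorem hh_trace_zero {v w : Res B} (h : bt B v w = 0) : hh B v w = iota (coA B v w) := by
  rw [hh, h, map_zero, mul_zero, add_zero]

theorem isHerm : H3.IsHerm (hF B) 2 :=
  ⟨by rw [card_F4]; norm_num, cnj_apply, hh_symm B, fun _ h => hh_sep B h⟩

/-- The displacement is a transvection part. -/
theorem nr_eq {r : G} (hr : r ∈ Near D x) {e : Res B} (he : e ∈ Wr B r) (he0 : e ≠ 0)
    (v : Res B) : Nr B r v = hh B e v • e := by
  rw [nr_formula B (sJ_eq B) (fun _ hr => sJ_nr B hr) hr he he0 v, hh, add_smul, mul_comm om,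
    mul_smul, om_smul, iota_smul, iota_smul]
  rfl

theorem exists_wr_ne {r : G} (hr : r ∈ Near D x) : ∃ e ∈ Wr B r, e ≠ 0 := by
  by_contra h
  push Not at h
  have hsub : (Wr B r : Set (Res B)) ⊆ {0} := fun e he => h e he
  have := Set.ncard_le_ncard hsub
  rw [wr_ncard B hr, Set.ncard_singleton] at this
  omega

theorem smul_mem_wr {r : G} (hr : r ∈ Near D x) (c : F4) {e : Res B} (he : e ∈ Wr B r) :
    c • e ∈ Wr B r := by
  have hJ := J_wr B (sJ_eq B) (fun _ hr => sJ_nr B hr) hr he
  rcases F4_cases c with rfl | rfl | rfl | rfl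
  · simp
  · simpa using he
  · rwa [om_smul]
  · rw [om_one_smul]; exact add_mem hJ he

theorem mem_wr_smul {r : G} (hr : r ∈ Near D x) {e w : Res B} (he : e ∈ Wr B r) (he0 : e ≠ 0)
    (hw : w ∈ Wr B r) : ∃ c : F4, w = c • e := by
  rcases rot_cases B hr (fun z hz => ⟨J_wr B (sJ_eq B) (fun _ hr => sJ_nr B hr) hr hz, sJ_eq B z⟩)
    he he0 hw with h | h | h | h
  · exact ⟨0, by rw [h, zero_smul]⟩
  · exact ⟨1, by rw [h, one_smul]⟩
  · exact ⟨om, by rw [h, om_smul]⟩
  · exact ⟨om + 1, by rw [h, om_one_smul, sJ_sq]⟩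

theorem hh_wr_self {r : G} (hr : r ∈ Near D x) {e : Res B} (he : e ∈ Wr B r) : hh B e e = 0 := by
  rw [hh_self, Qf_wr B hr he, map_zero]

/-- Partners are the pairs with orthogonal lines. -/
theorem commute_iff_hh {r s : G} (hr : r ∈ Near D x) (hs : s ∈ Near D x) {e f : Res B}
    (he : e ∈ Wr B r) (he0 : e ≠ 0) (hf : f ∈ Wr B s) (hf0 : f ≠ 0) :
    Commute r s ↔ hh B e f = 0 := by
  refine ⟨fun h => ?_, fun h => ?_⟩
  · have := nr_eq B hr he he0 f
    rw [nr_wr_zero B hr hs h hf, eq_comm, smul_eq_zero] at this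
    exact this.resolve_right he0
  · by_contra hc
    exact hf0 (nr_wr_injective B hr hs hc hf (by rw [nr_eq B hr he he0, h, zero_smul]))

theorem two_le_finrank : 2 ≤ Module.finrank F4 (Res B) := by
  obtain ⟨a, ha⟩ := exists_near B.set B.memX
  obtain ⟨s, hs, hsa, -⟩ := exists_bridge B ha ha (Commute.refl a)
  obtain ⟨e, he, he0⟩ := exists_wr_ne B ha
  obtain ⟨f, hf, hf0⟩ := exists_wr_ne B hs
  have hef : hh B e f ≠ 0 := fun h => hsa ((commute_iff_hh B ha hs he he0 hf hf0).2 h).symm
  refine le_of_eq_of_le (b := Module.finrank F4 (Submodule.span F4 (Set.range ![e, f]))) ?_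
    (Submodule.finrank_le _)
  refine (finrank_span_eq_card (b := ![e, f]) ?_).symm
  refine LinearIndependent.pair_iff.2 fun s t h => ?_
  have h1 := congrArg (hh B e) h
  have h2 := congrArg (hh B f) h
  have he' : hh B f e ≠ 0 := fun h' => hef (by rw [← hh_symm, h', map_zero])
  have h00 : hh B e (0 : Res B) = 0 := map_zero (hF B e)
  have h01 : hh B f (0 : Res B) = 0 := map_zero (hF B f)
  rw [hh_add_right, hh_smul_right, hh_smul_right, hh_wr_self B ha he, mul_zero, zero_add, h00,
    mul_eq_zero] at h1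
  rw [hh_add_right, hh_smul_right, hh_smul_right, hh_wr_self B hs hf, mul_zero, add_zero, h01,
    mul_eq_zero] at h2
  exact ⟨h2.resolve_right he', h1.resolve_right hef⟩

theorem exists_hyperbolic : ∃ p q : Res B, hh B p p = 0 ∧ hh B q q = 0 ∧ hh B p q = 1 := by
  obtain ⟨b, hb, -⟩ := (isHerm B).exists_orth_extend (k := 0) (two_le_finrank B) (Nat.zero_le 2)
    (b := fun i => i.elim0) (fun i => i.elim0)
  have e : ∀ i j : Fin 2, hh B (b i) (b j) = if i = j then 1 else 0 := hb
  refine ⟨b 0 + b 1, om • (b 0 + om • b 1), ?_, ?_, ?_⟩ <;>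
    simp [hh_add_left, hh_add_right, hh_smul_left, hh_smul_right, e, cnj_om]
  · linear_combination two_eq_zero
  · linear_combination (om ^ 2 + om) * om_eq
  · linear_combination om_eq - two_eq_zero

/-! ### Coordinates on the translation group -/

open Classical in
/-- Whether an element differs from the representative of its class. -/
noncomputable def dlt (q : G) : ZMod 2 := if q = rep B (pr B q) then 0 else 1

theorem dlt_spec {q : G} (hq : q ∈ Qx D x) : q = x ^ (dlt B q).val * rep B (pr B q) := by
  classical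
  unfold dlt
  split
  · next h => simpa using h
  · next h =>
    have h1 : (1 : ZMod 2).val = 1 := rfl
    rw [h1, pow_one]
    exact (pr_eq_pr B hq (rep_mem B _) (pr_rep B _).symm).resolve_left h

theorem dlt_eq {q : G} {v : Res B} (a : ZMod 2) (h : q = x ^ a.val * rep B v) :
    pr B q = v ∧ dlt B q = a := by
  have hpr : pr B q = v := by
    rw [h, pr_mul B (pow_mem (x_mem_qx B) _) (rep_mem B v), pr_rep]
    rcases (by decide : ∀ c : ZMod 2, c.val = 0 ∨ c.val = 1) a with h' | h' <;> rw [h']
    · rw [pow_zero, (pr_eq_zero B (one_mem _)).2 (Or.inl rfl), zero_add]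
    · rw [pow_one, (pr_eq_zero B (x_mem_qx B)).2 (Or.inr rfl), zero_add]
  refine ⟨hpr, ?_⟩
  unfold dlt
  rw [hpr]
  split
  · next h' =>
    rw [h'] at h
    rcases (by decide : ∀ c : ZMod 2, c = 0 ∨ c = 1) a with rfl | rfl
    · rfl
    · refine absurd (mul_right_cancel (b := rep B v) (?_ : x * rep B v = 1 * rep B v)) (x_ne_one B)
      rw [one_mul]
      conv_rhs => rw [h]
      rw [show (1 : ZMod 2).val = 1 from rfl, pow_one]
  · next h' =>
    rcases (by decide : ∀ c : ZMod 2, c = 0 ∨ c = 1) a with rfl | rfl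
    · exact absurd (by simpa using h) h'
    · rfl

/-- The cocycle of the representatives. -/
noncomputable def kap (v w : Res B) : ZMod 2 := dlt B (rep B v * rep B w)

theorem dlt_mul {p q : G} (hp : p ∈ Qx D x) (hq : q ∈ Qx D x) :
    dlt B (p * q) = dlt B p + dlt B q + kap B (pr B p) (pr B q) := by
  set u := pr B p with hu
  set v := pr B q with hv
  have hk := dlt_spec B (mul_mem (rep_mem B u) (rep_mem B v))
  rw [pr_mul B (rep_mem B u) (rep_mem B v), pr_rep, pr_rep] at hk
  refine (dlt_eq B _ (v := u + v) ?_).2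
  have hx2 := sq_one B.set.cls.1 B.memX
  conv_lhs => rw [dlt_spec B hp, dlt_spec B hq, ← hu, ← hv, mul_assoc,
    ← mul_assoc (rep B u), ((qx_commute (rep_mem B u)).pow_right _).eq, mul_assoc, hk]
  rw [← mul_assoc, ← mul_assoc, ← pow_add, ← pow_add]
  congr 1
  rw [pow_eq_pow_mod _ (show x ^ 2 = 1 by rw [pow_two]; exact hx2), kap]
  congr 1
  generalize dlt B p = a
  generalize dlt B q = b
  generalize dlt B (rep B u * rep B v) = c
  revert a b c; decide

theorem kap_self (v : Res B) : kap B v v = Qf B v + dlt B 1 := by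
  classical
  conv_rhs => rw [← pr_rep B v, Qf_pr B (rep_mem B v)]
  rw [kap]
  have hx := x_ne_one B
  rcases sq_mem B (rep_mem B v) with h | h <;> rw [h]
  · simp
  · rw [if_neg hx]
    have h1 := dlt_spec B (x_mem_qx B)
    rw [(pr_eq_zero B (x_mem_qx B)).2 (Or.inr rfl)] at h1
    have h0 := dlt_spec B (one_mem (Qx D x))
    rw [(pr_eq_zero B (one_mem _)).2 (Or.inl rfl)] at h0
    rcases (by decide : ∀ c : ZMod 2, c = 0 ∨ c = 1) (dlt B x) with ha | ha <;>
      rcases (by decide : ∀ c : ZMod 2, c = 0 ∨ c = 1) (dlt B 1) with hb | hb <;>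
      rw [ha] at h1 ⊢ <;> rw [hb] at h0 ⊢
    · exact absurd (h1.trans h0.symm) hx
    · rfl
    · rfl
    · exact absurd (h1.trans h0.symm) hx

end Cfsg.Agent.H9.Polar
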