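import Cfsg.Agent.H9.PolarResidue

/-!
# The scalar of order three on the residue
-/

set_option autoImplicit false

namespace Cfsg.Agent.H9.Polar

open Subgroup
open Cfsg.Agent.H17
open Cfsg.Agent.H9.Fischer (cj cj_injective cj_eq_self exists_cj Near Far cj_mem_iff)

variable {G : Type*} [Group G] [Finite G] {D : Set G} {x y : G} (B : Base D x y)
include B

theorem near_cj {r s : G} (hr : r ∈ Near D x) (hs : s ∈ Near D x) : cj r s ∈ Near D x :=
  near_conj_mem B.set hr.2.2.symm hs

theorem not_commute_cj_left {b c d : G} (hb : b ∈ D) (hd : Commute b d) (hcd : ¬ Commute c d) :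
    ¬ Commute (cj b c) d := fun h => hcd (by
  have := (commute_cj b).2 h
  rwa [cj_cj_self B.set.cls.1 hb, cj_eq_self hd] at this)

theorem not_commute_cj_right {b c d : G} (hb : b ∈ D) (hc : c ∈ D) (hbc : ¬ Commute b c)
    (hd : Commute c d) (hbd : ¬ Commute b d) : ¬ Commute (cj b c) d := by
  rw [braid_cj B.set.cls.1 hb hc hbc]
  exact not_commute_cj_left B hc hd hbd

/-- Two partners on different lines at `x` have a common non-commuting partner. -/
theorem exists_bridge {r s : G} (hr : r ∈ Near D x) (hs : s ∈ Near D x) (hrs : Commute r s) :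
    ∃ u ∈ Near D x, ¬ Commute u r ∧ ¬ Commute u s := by
  classical
  have hS := B.set
  -- every partner has a non-commuting partner
  have hnc : ∀ {r}, r ∈ Near D x → ∃ u ∈ Near D x, ¬ Commute r u := by
    intro r hr
    obtain ⟨m, hm, hmL, hmN⟩ := exists_trace hS B.memX B.farY hr
    obtain ⟨m', hm', hmm'⟩ := common_exists_not_commute hS B.memX B.farY hm
    have hm'N := common_near hS B.farY hm'
    exact ⟨m', hm'N, fun h => hmm' (commute_all_of_two hS B.memX hr (left_mem_line B.memX)
      (right_mem_line hr.1) hr.2.1.symm hm'.1 hm'.2.1.symm h.symm hmL).symm⟩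
  -- shortening of paths in the non-commuting graph
  let A : G → G → Prop := fun p q => p ∈ Near D x ∧ q ∈ Near D x ∧ ¬ Commute p q
  have short : ∀ {p q}, p ∈ Near D x → Relation.ReflTransGen A p q →
      p = q ∨ ¬ Commute p q ∨ ∃ u ∈ Near D x, ¬ Commute u p ∧ ¬ Commute u q := by
    intro p q hp h
    induction h with
    | refl => exact Or.inl rfl
    | @tail b c _ hbc ih =>
      obtain ⟨hb, hc, hbc⟩ := hbc
      rcases ih with rfl | hpb | ⟨u, hu, hup, hub⟩
      · exact Or.inr (Or.inl hbc)
      · exact Or.inr (Or.inr ⟨b, hb, fun h => hpb h.symm, hbc⟩)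
      · by_cases huc : Commute u c
        · by_cases hbp : Commute b p
          · refine Or.inr (Or.inr ⟨cj b u, near_cj B hb hu, not_commute_cj_left B hb.1 hbp hup,
              not_commute_cj_right B hb.1 hu.1 (fun h => hub h.symm) huc hbc⟩)
          · exact Or.inr (Or.inr ⟨b, hb, hbp, hbc⟩)
        · exact Or.inr (Or.inr ⟨u, hu, hup, huc⟩)
  have hconn : Relation.ReflTransGen A r s := by
    obtain ⟨k, hk, hks⟩ := transitive_near hS.cls hS.prim hS.exists_pair B.memX hr.1 hs.1 hr.2.1
      hs.2.1 hr.2.2 hs.2.2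
    suffices h : ∀ g ∈ centGen D x, ∀ p ∈ Near D x, Relation.ReflTransGen A r p →
        Relation.ReflTransGen A r (cj g p) by
      rw [← hks]; exact h k hk r hr .refl
    intro g hg
    induction hg using Subgroup.closure_induction'' with
    | one => intro p _ h; rwa [cj_one]
    | mem e he =>
      intro p hp h
      by_cases hc : Commute e p
      · rwa [cj_eq_self hc]
      · have hex : e ≠ x := fun h' => hc (h' ▸ hp.2.2)
        have heN : e ∈ Near D x := ⟨he.1, hex, he.2⟩
        refine (h.tail ⟨hp, heN, fun h' => hc h'.symm⟩).tail ⟨heN, near_cj B heN hp, ?_⟩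
        exact not_commute_self_cj hS.cls.1 he.1 hc
    | inv_mem e he =>
      intro p hp h
      rw [inv_self hS.cls.1 he.1]
      by_cases hc : Commute e p
      · rwa [cj_eq_self hc]
      · have hex : e ≠ x := fun h' => hc (h' ▸ hp.2.2)
        have heN : e ∈ Near D x := ⟨he.1, hex, he.2⟩
        refine (h.tail ⟨hp, heN, fun h' => hc h'.symm⟩).tail ⟨heN, near_cj B heN hp, ?_⟩
        exact not_commute_self_cj hS.cls.1 he.1 hc
    | mul g h hg hh ihg ihh =>
      intro p hp hrp
      rw [cj_mul]
      exact ihg _ (near_conj_mem hS (centGen_commute hh).symm hp) (ihh p hp hrp)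
  rcases short hr hconn with rfl | h | h
  · obtain ⟨u, hu, hru⟩ := hnc hr
    exact ⟨u, hu, fun h => hru h.symm, fun h => hru h.symm⟩
  · exact absurd hrs h
  · exact h

theorem tr_tr {b : G} (hb : b ∈ Near D x) (v : Res B) : Tr B b hb (Tr B b hb v) = v := by
  simp only [tr_nr, map_add, nr_sq B hb, add_zero, add_assoc, res_add_self]

/-- Composites around a triangle are trivial or of order three without fixed vectors. -/
theorem triangle {a b c : G} (ha : a ∈ Near D x) (hb : b ∈ Near D x) (hc : c ∈ Near D x)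
    (hab : ¬ Commute a b) (hbc : ¬ Commute b c) (hac : ¬ Commute a c) :
    (∀ w ∈ Wr B a, Nr B a (Nr B c (Nr B b w)) = w) ∨
      ∀ w ∈ Wr B a, Nr B a (Nr B c (Nr B b (Nr B a (Nr B c (Nr B b w))))) +
        Nr B a (Nr B c (Nr B b w)) + w = 0 := by
  have hR := near_cj B hb hc
  have hNR : ∀ v, Nr B (cj b c) v = Tr B b hb (Nr B c (Tr B b hb v)) := by
    intro v
    have h := tr_cj B hb hc hR v
    rw [tr_nr B hR, tr_nr B hc, map_add, tr_tr] at h
    exact add_left_cancel h
  by_cases haR : Commute a (cj b c)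
  · left
    intro w hw
    have h0 := nr_wr_zero B hR ha haR.symm hw
    rw [hNR] at h0
    have h1 : Nr B c (Tr B b hb w) = 0 := by
      have := congrArg (Tr B b hb) h0
      rwa [tr_tr, map_zero] at this
    rw [tr_nr, map_add] at h1
    have h2 := congrArg (Nr B a) h1
    rw [map_add, map_zero, nr_nr B ha hc hac hw] at h2
    exact (add_eq_zero_iff_eq_neg.1 h2).trans (neg_eq_of_add_eq_zero_left (res_add_self B _)) |>.symm
  · right
    intro w hw
    have key : ∀ w ∈ Wr B a, Nr B a (Nr B c (Nr B b w)) + Nr B a (Nr B b (Nr B c w)) = w := by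
      intro w hw
      have h := nr_nr B ha hR haR hw
      rw [hNR, tr_nr, map_add, tr_nr, map_add, map_add, map_add, map_add] at h
      rw [nr_nr B ha hc hac hw, nr_nr B hb hc hbc (nr_mem B b hb w), nr_nr B ha hb hab hw] at h
      -- `w + g w + (g' w + w) = w`
      calc _ = w + Nr B a (Nr B c (Nr B b w)) + (Nr B a (Nr B b (Nr B c w)) + w) := by
            have e : ∀ p q : Res B, w + p + (q + w) = p + q + (w + w) := fun p q => by abel
            rw [e, res_add_self, add_zero]
        _ = w := h
    set u := Nr B a (Nr B c (Nr B b w)) with hu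
    have hu2 : Nr B a (Nr B b (Nr B c u)) = w := by
      rw [hu, nr_nr B hc ha (fun h => hac h.symm) (nr_mem B c hc _),
        nr_nr B hb hc hbc (nr_mem B b hb _), nr_nr B ha hb hab hw]
    have h := key u (nr_mem B a ha _)
    rw [hu2] at h
    rw [add_assoc, add_comm u w, ← add_assoc, h, res_add_self]

/-- An endomorphism rotating the translations along the line of `r`. -/
def Rot (r : G) (j : Res B →ₗ[ZMod 2] Res B) : Prop :=
  ∀ w ∈ Wr B r, j w ∈ Wr B r ∧ j (j w) + j w + w = 0

theorem rot_cases {r : G} (hr : r ∈ Near D x) {j : Res B →ₗ[ZMod 2] Res B} (hj : Rot B r j)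
    {w u : Res B} (hw : w ∈ Wr B r) (hw0 : w ≠ 0) (hu : u ∈ Wr B r) :
    u = 0 ∨ u = w ∨ u = j w ∨ u = j (j w) := by
  classical
  by_contra h
  simp only [not_or] at h
  have hjw := hj w hw
  have hj2 := hj _ hjw.1
  have ne1 : j w ≠ 0 := fun h1 => hw0 (by
    have := hjw.2; rwa [h1, map_zero, zero_add, zero_add] at this)
  have ne2 : j w ≠ w := fun h1 => hw0 (by
    have := hjw.2; rwa [h1, h1, res_add_self, zero_add] at this)
  have ne3 : j (j w) ≠ 0 := fun h1 => ne1 (by
    have := hj2.2; rwa [h1, map_zero, zero_add, zero_add] at this)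
  have ne4 : j (j w) ≠ j w := fun h1 => hw0 (by
    have := hjw.2; rwa [h1, res_add_self, zero_add] at this)
  have ne5 : j (j w) ≠ w := fun h1 => ne1 (by
    have := hjw.2; rwa [h1, add_assoc, add_comm (j w) w, ← add_assoc, res_add_self, zero_add] at this)
  have hfin : (Wr B r : Set (Res B)).Finite := Set.finite_of_ncard_ne_zero (by rw [wr_ncard B hr]; decide)
  have hsub : (({0, w, j w, j (j w), u} : Finset (Res B)) : Set (Res B)) ⊆ Wr B r := by
    simp only [Finset.coe_insert, Finset.coe_singleton, Set.insert_subset_iff,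
      Set.singleton_subset_iff]
    exact ⟨zero_mem _, hw, hjw.1, hj2.1, hu⟩
  have hle := Set.ncard_le_ncard hsub hfin
  rw [Set.ncard_coe_finset, wr_ncard B hr,
    Finset.card_insert_of_notMem (by simp [hw0.symm, ne1.symm, ne3.symm, Ne.symm h.1]),
    Finset.card_insert_of_notMem (by simp [ne2.symm, ne5.symm, Ne.symm h.2.1]),
    Finset.card_insert_of_notMem (by simp [ne4.symm, Ne.symm h.2.2.1]),
    Finset.card_pair (Ne.symm h.2.2.2)] at hle
  omega

theorem loop_commute {r : G} (hr : r ∈ Near D x) {j g : Res B →ₗ[ZMod 2] Res B} (hj : Rot B r j)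
    (hgm : ∀ w ∈ Wr B r, g w ∈ Wr B r)
    (hg : (∀ w ∈ Wr B r, g w = w) ∨ ∀ w ∈ Wr B r, g (g w) + g w + w = 0)
    {w : Res B} (hw : w ∈ Wr B r) : g (j w) = j (g w) := by
  rcases hg with hg | hg
  · rw [hg w hw, hg _ (hj w hw).1]
  by_cases hw0 : w = 0
  · simp [hw0]
  have h3 : j (j (j w)) = w := by
    have h1 := (hj _ (hj w hw).1).2
    have h2 := (hj w hw).2
    rw [add_assoc] at h1
    have h4 : j (j w) + j w = w :=
      (add_eq_zero_iff_eq_neg.1 h2).trans (neg_eq_of_add_eq_zero_left (res_add_self B _))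
    rw [h4] at h1
    exact (add_eq_zero_iff_eq_neg.1 h1).trans (neg_eq_of_add_eq_zero_left (res_add_self B _))
  have h4 : j (j w) + j w = w :=
    (add_eq_zero_iff_eq_neg.1 (hj w hw).2).trans (neg_eq_of_add_eq_zero_left (res_add_self B _))
  have hgg := hg w hw
  have hgv : g (g w) = g w + w := by
    rw [add_assoc] at hgg
    exact (add_eq_zero_iff_eq_neg.1 hgg).trans (neg_eq_of_add_eq_zero_left (res_add_self B _))
  rcases rot_cases B hr hj hw hw0 (hgm w hw) with h | h | h | h
  · rw [h, map_zero, zero_add] at hgv; exact absurd hgv.symm hw0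
  · rw [h, h, res_add_self] at hgv; exact absurd hgv hw0
  · rw [h] at hgv ⊢
    rw [hgv]
    calc j w + w = j w + (j (j w) + j w) := by rw [h4]
      _ = j (j w) := by rw [add_left_comm, res_add_self, add_zero]
  · rw [h] at hgv ⊢
    rw [h3]
    have h5 : g (j w) = g (j (j w)) + g w := by
      rw [← map_add]; congr 1
      calc j w = j (j w) + (j (j w) + j w) := by rw [← add_assoc, res_add_self, zero_add]
        _ = j (j w) + w := by rw [h4]
    rw [h5, hgv, h]
    calc j (j w) + w + j (j w) = w + (j (j w) + j (j w)) := by abel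
      _ = w := by rw [res_add_self, add_zero]

/-- Compatibility of two rotations through the displacements. -/
def Compat (r s : G) (jr js : Res B →ₗ[ZMod 2] Res B) : Prop :=
  ∀ w ∈ Wr B r, js (Nr B s w) = Nr B s (jr w)

theorem compat_symm {r s : G} (hr : r ∈ Near D x) (hs : s ∈ Near D x) (hrs : ¬ Commute r s)
    {jr js : Res B →ₗ[ZMod 2] Res B} (hjr : Rot B r jr) (h : Compat B r s jr js) :
    Compat B s r js jr := by
  intro w hw
  have hu := nr_mem B r hr w
  have h1 := h _ hu
  rw [nr_nr B hs hr (fun h => hrs h.symm) hw] at h1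
  rw [h1, nr_nr B hr hs hrs (hjr _ hu).1]

theorem compat_triangle {a b c : G} (ha : a ∈ Near D x) (hb : b ∈ Near D x) (hc : c ∈ Near D x)
    (hab : ¬ Commute a b) (hbc : ¬ Commute b c) (hac : ¬ Commute a c)
    {ja jb jc : Res B →ₗ[ZMod 2] Res B} (hja : Rot B a ja) (hjc : Rot B c jc)
    (h1 : Compat B a b ja jb) (h2 : Compat B a c ja jc) : Compat B b c jb jc := by
  intro w hw
  have hu := nr_mem B a ha w
  obtain ⟨u, hu', rfl⟩ : ∃ u ∈ Wr B a, Nr B b u = w :=
    ⟨_, hu, nr_nr B hb ha (fun h => hab h.symm) hw⟩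
  refine sub_eq_zero.1 (nr_wr_injective B ha hc hac
    (sub_mem (hjc _ (nr_mem B c hc _)).1 (nr_mem B c hc _)) ?_)
  rw [map_sub, sub_eq_zero]
  have hg : Nr B a (Nr B c (Nr B b (ja u))) = ja (Nr B a (Nr B c (Nr B b u))) :=
    loop_commute B ha hja (g := Nr B a ∘ₗ Nr B c ∘ₗ Nr B b) (fun _ _ => nr_mem B a ha _)
      (triangle B ha hb hc hab hbc hac) hu'
  have hz := h2 (Nr B a (Nr B c (Nr B b u))) (nr_mem B a ha _)
  rw [nr_nr B hc ha (fun h => hac h.symm) (nr_mem B c hc _)] at hz
  rw [hz, h1 u hu', hg, nr_nr B ha hc hac (hja _ (nr_mem B a ha _)).1]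

/-- A consistent choice of rotations on all lines at `x`. -/
theorem exists_rotations : ∃ j : G → Res B →ₗ[ZMod 2] Res B,
    (∀ r ∈ Near D x, Rot B r (j r)) ∧
      ∀ r ∈ Near D x, ∀ s ∈ Near D x, ¬ Commute r s → Compat B r s (j r) (j s) := by
  classical
  obtain ⟨o, ho⟩ := exists_near B.set B.memX
  haveI : Finite (Wr B o) := (Set.finite_of_ncard_ne_zero (by rw [wr_ncard B ho]; decide)).to_subtype
  have hfr : Module.finrank (ZMod 2) (Wr B o) = 2 := by
    have h := Module.natCard_eq_pow_finrank (K := ZMod 2) (V := Wr B o)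
    rw [show Nat.card (Wr B o) = 4 by
      rw [← wr_ncard B ho, ← Nat.card_coe_set_eq]; rfl, Nat.card_zmod] at h
    exact Nat.pow_right_injective le_rfl h.symm
  let bo := Module.finBasisOfFinrankEq (ZMod 2) (Wr B o) hfr
  let ρ : Wr B o →ₗ[ZMod 2] Wr B o := bo.constr (ZMod 2) ![bo 1, bo 0 + bo 1]
  have hρ : ∀ w, ρ (ρ w) + ρ w + w = 0 := by
    have : ρ ∘ₗ ρ + ρ + LinearMap.id = 0 := bo.ext fun i => by
      have hz : ∀ z : Wr B o, z + z = 0 := fun z => Subtype.ext (res_add_self B _)
      fin_cases i <;>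
        simp only [LinearMap.add_apply, LinearMap.comp_apply, LinearMap.id_apply, LinearMap.zero_apply,
          ρ, Module.Basis.constr_basis, map_add, Fin.zero_eta, Fin.mk_one, Matrix.cons_val_zero,
          Matrix.cons_val_one]
      · calc bo 0 + bo 1 + bo 1 + bo 0 = (bo 0 + bo 0) + (bo 1 + bo 1) := by abel
          _ = 0 := by rw [hz, hz, add_zero]
      · calc bo 1 + (bo 0 + bo 1) + (bo 0 + bo 1) + bo 1 =
              (bo 0 + bo 0) + (bo 1 + bo 1) + (bo 1 + bo 1) := by abel
          _ = 0 := by rw [hz, hz, add_zero, add_zero]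
    exact fun w => LinearMap.congr_fun this w
  obtain ⟨jo, hjo⟩ := ((Wr B o).subtype ∘ₗ ρ).exists_extend
  have hjo' : ∀ w (hw : w ∈ Wr B o), jo w = (ρ ⟨w, hw⟩ : Res B) := fun w hw =>
    LinearMap.congr_fun hjo ⟨w, hw⟩
  have hRo : Rot B o jo := fun w hw => by
    refine ⟨by rw [hjo' w hw]; exact (ρ ⟨w, hw⟩).2, ?_⟩
    rw [hjo' w hw, hjo' _ (ρ ⟨w, hw⟩).2]
    exact congrArg Subtype.val (hρ ⟨w, hw⟩)
  let transport : G → G → (Res B →ₗ[ZMod 2] Res B) → (Res B →ₗ[ZMod 2] Res B) :=
    fun r s j => Nr B s ∘ₗ j ∘ₗ Nr B r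
  have htr : ∀ {r s}, r ∈ Near D x → s ∈ Near D x → ¬ Commute r s → ∀ {j}, Rot B r j →
      Rot B s (transport r s j) ∧ Compat B r s j (transport r s j) := by
    intro r s hr hs hrs j hj
    refine ⟨fun w hw => ⟨nr_mem B s hs _, ?_⟩, fun w hw => ?_⟩
    · show Nr B s (j (Nr B r (Nr B s (j (Nr B r w))))) + Nr B s (j (Nr B r w)) + w = 0
      rw [nr_nr B hr hs hrs (hj _ (nr_mem B r hr w)).1]
      calc _ = Nr B s (j (j (Nr B r w)) + j (Nr B r w) + Nr B r w) := by
            rw [map_add, map_add, nr_nr B hs hr (fun h => hrs h.symm) hw]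
        _ = 0 := by rw [(hj _ (nr_mem B r hr w)).2, map_zero]
    · show Nr B s (j (Nr B r (Nr B s w))) = _
      rw [nr_nr B hr hs hrs hw]
  let j : G → Res B →ₗ[ZMod 2] Res B := fun r =>
    if ¬ Commute o r then transport o r jo else
      if h : ∃ u ∈ Near D x, ¬ Commute u r ∧ ¬ Commute u o then
        transport h.choose r (transport o h.choose jo) else 0
  have hfar : ∀ r, ¬ Commute o r → j r = transport o r jo := fun r h => if_pos h
  have hnear : ∀ r ∈ Near D x, Commute o r → ∀ u ∈ Near D x, ¬ Commute u r → ¬ Commute u o →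
      Rot B r (j r) ∧ Compat B r u (j r) (j u) := by
    intro r hr hor u hu hur huo
    have hex : ∃ u ∈ Near D x, ¬ Commute u r ∧ ¬ Commute u o := ⟨u, hu, hur, huo⟩
    have hjr : j r = transport hex.choose r (transport o hex.choose jo) :=
      (if_neg (not_not_intro hor)).trans (dif_pos hex)
    obtain ⟨hv, hvr, hvo⟩ := hex.choose_spec
    set v := hex.choose with hvdef
    have hov : ¬ Commute o v := fun h => hvo h.symm
    obtain ⟨hRv, hCv⟩ := htr ho hv hov hRo
    obtain ⟨hRr, hCr⟩ := htr hv hr hvr hRv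
    rw [← hjr] at hRr hCr
    refine ⟨hRr, ?_⟩
    have hou : ¬ Commute o u := fun h => huo h.symm
    obtain ⟨hRu, hCu⟩ := htr ho hu hou hRo
    rw [hfar u hou]
    by_cases huv : Commute u v
    · -- bridge through `cj o u`
      set e := cj o u with he
      have heN := near_cj B ho hu
      have heo : ¬ Commute o e := not_commute_self_cj B.set.cls.1 ho.1 hou
      have heu : ¬ Commute u e := by
        rw [he, braid_cj B.set.cls.1 ho.1 hu.1 hou]
        exact not_commute_self_cj B.set.cls.1 hu.1 huo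
      have hev : ¬ Commute e v := not_commute_cj_right B ho.1 hu.1 hou huv hov
      have her : ¬ Commute e r := not_commute_cj_left B ho.1 hor hur
      obtain ⟨hRe, hCe⟩ := htr ho heN heo hRo
      have hve : Compat B v e _ _ :=
        compat_triangle B ho hv heN hov (fun h => hev h.symm) heo hRo hRe hCv hCe
      have her' : Compat B r e _ _ :=
        compat_triangle B hv hr heN hvr (fun h => her h.symm) (fun h => hev h.symm) hRv hRe hCr hve
      have heu' : Compat B e u _ _ :=
        compat_triangle B ho heN hu heo (fun h => heu h.symm) hou hRo hRu hCe hCu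
      exact compat_triangle B heN hr hu her (fun h => hur h.symm) (fun h => heu h.symm) hRe hRu
        (compat_symm B hr heN (fun h => her h.symm) hRr her') heu'
    · have hvu : Compat B v u _ _ :=
        compat_triangle B ho hv hu hov (fun h => huv h.symm) hou hRo hRu hCv hCu
      exact compat_triangle B hv hr hu hvr (fun h => hur h.symm) (fun h => huv h.symm) hRv hRu
        hCr hvu
  have hrot : ∀ r ∈ Near D x, Rot B r (j r) := by
    intro r hr
    by_cases hor : Commute o r
    · obtain ⟨u, hu, huo, hur⟩ := exists_bridge B ho hr hor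
      exact (hnear r hr hor u hu hur huo).1
    · rw [hfar r hor]; exact (htr ho hr hor hRo).1
  refine ⟨j, hrot, fun r hr s hs hrs => ?_⟩
  by_cases hor : Commute o r
  · by_cases hos : Commute o s
    · obtain ⟨u, hu, huo, hur⟩ := exists_bridge B ho hr hor
      by_cases hus : Commute u s
      · set e := cj r u with he
        have heN := near_cj B hr hu
        have her : ¬ Commute e r := fun h =>
          not_commute_self_cj B.set.cls.1 hr.1 (fun h => hur h.symm) h.symm
        have hes : ¬ Commute e s := not_commute_cj_right B hr.1 hu.1 (fun h => hur h.symm) hus hrs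
        have heo : ¬ Commute e o := not_commute_cj_left B hr.1 hor.symm huo
        obtain ⟨-, h1⟩ := hnear r hr hor e heN her heo
        obtain ⟨-, h2⟩ := hnear s hs hos e heN hes heo
        exact compat_triangle B heN hr hs her hrs hes (hrot e heN) (hrot s hs)
          (compat_symm B hr heN (fun h => her h.symm) (hrot r hr) h1)
          (compat_symm B hs heN (fun h => hes h.symm) (hrot s hs) h2)
      · obtain ⟨-, h1⟩ := hnear r hr hor u hu hur huo
        obtain ⟨-, h2⟩ := hnear s hs hos u hu hus huo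
        exact compat_triangle B hu hr hs hur hrs hus (hrot u hu) (hrot s hs)
          (compat_symm B hr hu (fun h => hur h.symm) (hrot r hr) h1)
          (compat_symm B hs hu (fun h => hus h.symm) (hrot s hs) h2)
    · exact (hnear r hr hor s hs (fun h => hrs h.symm) (fun h => hos h.symm)).2
  · by_cases hos : Commute o s
    · exact compat_symm B hs hr (fun h => hrs h.symm) (hrot s hs)
        (hnear s hs hos r hr hrs (fun h => hor h.symm)).2
    · rw [hfar r hor, hfar s hos]
      exact compat_triangle B ho hr hs hor hrs hos hRo (htr ho hs hos hRo).1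
        (htr ho hr hor hRo).2 (htr ho hs hos hRo).2

/-- A scalar of order three commuting with all displacements. -/
theorem exists_scalar : ∃ J : Res B →ₗ[ZMod 2] Res B, (∀ v, J (J v) + J v + v = 0) ∧
    ∀ r ∈ Near D x, ∀ v, Nr B r (J v) = J (Nr B r v) := by
  classical
  obtain ⟨j, hrot, hcomp⟩ := exists_rotations B
  let P : Res B → Res B → Prop := fun v u => ∀ s ∈ Near D x, Nr B s u = j s (Nr B s v)
  have huniq : ∀ {v u u'}, P v u → P v u' → u = u' := fun {v u u'} h h' =>
    sub_eq_zero.1 (eq_zero_of_nr B fun s hs => by rw [map_sub, h s hs, h' s hs, sub_self])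
  have hW : ∀ r ∈ Near D x, ∀ w ∈ Wr B r, P w (j r w) := by
    intro r hr w hw s hs
    by_cases hrs : Commute r s
    · rw [nr_wr_zero B hs hr hrs.symm hw, map_zero, nr_wr_zero B hs hr hrs.symm (hrot r hr w hw).1]
    · exact (hcomp r hr s hs hrs w hw).symm
  let U : Submodule (ZMod 2) (Res B) :=
    { carrier := {v | ∃ u, P v u}
      zero_mem' := ⟨0, fun s _ => by simp⟩
      add_mem' := by
        rintro v v' ⟨u, hu⟩ ⟨u', hu'⟩
        exact ⟨u + u', fun s hs => by rw [map_add, map_add, map_add, hu s hs, hu' s hs]⟩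
      smul_mem' := by
        rintro k v ⟨u, hu⟩
        exact ⟨k • u, fun s hs => by rw [map_smul, map_smul, map_smul, hu s hs]⟩ }
  have hU : ∀ v, ∃ u, P v u := fun v => by
    have h : Submodule.span (ZMod 2) {v : Res B | ∃ r ∈ Near D x, v ∈ Wr B r} ≤ U :=
      Submodule.span_le.2 fun v ⟨r, hr, hv⟩ => ⟨j r v, hW r hr v hv⟩
    exact h (res_span B Submodule.mem_top)
  choose Jf hJf using hU
  let J : Res B →ₗ[ZMod 2] Res B :=
    { toFun := Jf
      map_add' := fun u v => huniq (hJf (u + v))
        fun s hs => by rw [map_add, map_add, map_add, hJf u s hs, hJf v s hs]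
      map_smul' := fun k v => huniq (hJf (k • v))
        fun s hs => by rw [RingHom.id_apply, map_smul, map_smul, map_smul, hJf v s hs] }
  have hJW : ∀ r ∈ Near D x, ∀ w ∈ Wr B r, J w = j r w := fun r hr w hw =>
    huniq (hJf w) (hW r hr w hw)
  refine ⟨J, fun v => eq_zero_of_nr B fun s hs => ?_, fun r hr v => ?_⟩
  · rw [map_add, map_add, show Nr B s (J (J v)) = j s (Nr B s (J v)) from hJf _ s hs,
      show Nr B s (J v) = j s (Nr B s v) from hJf v s hs]
    exact (hrot s hs _ (nr_mem B s hs v)).2
  · rw [hJW r hr _ (nr_mem B r hr v)]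
    exact hJf v r hr

end Cfsg.Agent.H9.Polar
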