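import Cfsg.Agent.H9.PolarCoord

/-!
# The members as the isotropic points of a unitary space
-/

set_option autoImplicit false

namespace Cfsg.Agent.H9.Polar

open Subgroup
open Cfsg.Agent.H17
open Cfsg.Agent.H9.FieldFour
open Cfsg.Agent.H9.Fischer (cj cj_injective cj_eq_self exists_cj Near Far cj_mem_iff)

variable {G : Type*} [Group G] [Finite G] {D : Set G} {x y : G} (B : Base D x y)
include B

/-! ### The non-partners form one orbit of the translations -/

theorem far_near_orbit {z : G} (hz : z ∈ Far D x) (hc : Commute y z) :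
    ∃ q ∈ Qx D x, cj q y = z := by
  have S := B.set
  have hy := B.farY
  rcases eq_or_ne z y with rfl | hzy
  · exact ⟨1, one_mem _, cj_one _⟩
  have hxy : ¬ Commute x y := hy.2
  have hzN : z ∈ Near D y := ⟨hz.1, hzy, hc⟩
  obtain ⟨m, hmL, hxm⟩ := meets S hy.1 hzN B.memX
  have hmy : m ≠ y := fun h => hxy (by rw [h] at hxm; exact hxm)
  have hym : Commute y m := line_commute hy.1 hzN (left_mem_line hy.1) hmL
  have hm : m ∈ common D x y := ⟨hmL.1, hxm, hym⟩
  have hmN := common_near S hy hm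
  set a := cj y (cj x z) with ha
  have haD : a ∈ D := (cj_mem_iff S.conj).2 ((cj_mem_iff S.conj).2 hz.1)
  have hcxy : cj y (cj x y) = x := by
    rw [braid_cj S.cls.1 B.memX hy.1 hxy, cj_cj_self S.cls.1 hy.1]
  have hax : a ≠ x := by
    rw [← hcxy, ha]
    exact fun h => hzy (cj_injective x (cj_injective y h))
  have haL : a ∈ Line D x m := by
    have h1 : Line D (cj y (cj x y)) (cj y (cj x m)) =
        cj y '' (cj x '' Line D y m) := by rw [line_conj S, line_conj S]
    rw [hcxy, cj_eq_self hxm, cj_eq_self hym] at h1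
    rw [h1]
    refine ⟨_, ⟨z, ?_, rfl⟩, rfl⟩
    rw [line_eq S hy.1 hzN (left_mem_line hy.1) hmL hmy.symm]
    exact right_mem_line hz.1
  have hmz : m ≠ z := fun h => hz.2 (by rw [h] at hxm; exact hxm)
  have ham : a ≠ m := by
    intro h
    refine hmz (cj_injective x ?_)
    apply cj_injective y
    rw [← ha, h, cj_eq_self hxm, cj_eq_self hym]
  have hay : ¬ Commute a y := fun h => hxy (commute_all_of_two S B.memX hmN haL
    (right_mem_line hm.1) ham hy.1 h.symm hm.2.2 (left_mem_line B.memX)).symm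
  refine ⟨x * m * a, lift_mem B ⟨m, hm, a, haL, hax, ham, rfl⟩, ?_⟩
  rw [cj_mul, cj_mul, braid_cj S.cls.1 haD hy.1 hay]
  have h2 : cj y a = cj x z := by rw [ha, cj_cj_self S.cls.1 hy.1]
  rw [h2]
  have hmx : Commute m (cj x z) := by
    have := (commute_cj x).2 (line_commute hy.1 hzN hmL (right_mem_line hz.1))
    rwa [cj_eq_self hxm] at this
  rw [cj_eq_self hmx, cj_cj_self S.cls.1 B.memX]

theorem far_orbit {z : G} (hz : z ∈ Far D x) : ∃ q ∈ Qx D x, cj q y = z := by
  have S := B.set
  have hy := B.farY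
  have hxy : ¬ Commute x y := hy.2
  by_cases hc : Commute y z
  · exact far_near_orbit B hz hc
  by_cases hL : ∀ e ∈ common D x y, Commute z e
  · have hzL : z ∈ Line D x y := ⟨hz.1, hL⟩
    rw [far_line_eq S B.memX hy] at hzL
    rcases hzL with rfl | rfl | rfl
    · exact absurd (Commute.refl _) hz.2
    · exact ⟨1, one_mem _, cj_one _⟩
    · exact ⟨x, x_mem_qx B, rfl⟩
  push Not at hL
  obtain ⟨e, he, hze⟩ := hL
  have heN : e ∈ Near D y := ⟨he.1, fun h => hxy (by rw [← h]; exact he.2.1), he.2.2⟩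
  obtain ⟨u, hu, hzu⟩ := meets S hy.1 heN hz.1
  have hue : u ≠ e := fun h => hze (by rw [← h]; exact hzu)
  have hxu : ¬ Commute x u := fun h => hxy (commute_all_of_two S hy.1 heN hu
    (right_mem_line he.1) hue B.memX h he.2.1 (left_mem_line hy.1))
  obtain ⟨q, hq, rfl⟩ := far_near_orbit B ⟨hu.1, hxu⟩ (line_commute hy.1 heN (left_mem_line hy.1) hu)
  have hz' : cj q⁻¹ z ∈ Far D x := by
    refine ⟨(cj_mem_iff S.conj).2 hz.1, fun h => hz.2 ?_⟩
    have := (commute_cj q).2 h
    rwa [cj_eq_self (qx_commute hq), ← cj_mul, mul_inv_cancel, cj_one] at this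
  have hc' : Commute y (cj q⁻¹ z) := by
    have := (commute_cj q⁻¹).2 hzu.symm
    rwa [← cj_mul, inv_mul_cancel, cj_one] at this
  obtain ⟨p, hp, hpz⟩ := far_near_orbit B hz' hc'
  exact ⟨q * p, mul_mem hq hp, by rw [cj_mul, hpz, ← cj_mul, mul_inv_cancel, cj_one]⟩

/-! ### The unitary space -/

/-- The unitary space. -/
abbrev Vec (B : Base D x y) : Type _ := F4 × Res B × F4

/-- Its form. -/
noncomputable def HH (z w : Vec B) : F4 :=
  cnj z.1 * w.2.2 + cnj z.2.2 * w.1 + hh B z.2.1 w.2.1

theorem HH_add_left (u v w : Vec B) : HH B (u + v) w = HH B u w + HH B v w := by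
  simp only [HH, Prod.fst_add, Prod.snd_add, map_add, hh_add_left]; ring

theorem HH_add_right (u v w : Vec B) : HH B u (v + w) = HH B u v + HH B u w := by
  simp only [HH, Prod.fst_add, Prod.snd_add, hh_add_right]; ring

theorem HH_smul_left (c : F4) (v w : Vec B) : HH B (c • v) w = cnj c * HH B v w := by
  simp only [HH, Prod.smul_fst, Prod.smul_snd, smul_eq_mul, map_mul, hh_smul_left]; ring

theorem HH_smul_right (c : F4) (v w : Vec B) : HH B v (c • w) = c * HH B v w := by
  simp only [HH, Prod.smul_fst, Prod.smul_snd, smul_eq_mul, hh_smul_right]; ring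

theorem HH_symm (v w : Vec B) : cnj (HH B v w) = HH B w v := by
  simp only [HH, map_add, map_mul, cnj_cnj, hh_symm]; ring

/-- The form as a semilinear map. -/
noncomputable def hV : Vec B →ₛₗ[cnj] Vec B →ₗ[F4] F4 :=
  LinearMap.mk₂'ₛₗ cnj (RingHom.id F4) (HH B) (HH_add_left B) (HH_smul_left B) (HH_add_right B)
    (HH_smul_right B)

@[simp] theorem hV_apply (v w : Vec B) : hV B v w = HH B v w := rfl

theorem hh_zero_right (v : Res B) : hh B v 0 = 0 := map_zero (hF B v)

theorem hh_zero_left (v : Res B) : hh B 0 v = 0 := by rw [← hh_symm, hh_zero_right, map_zero]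

theorem isHermV : H3.IsHerm (hV B) 2 := by
  refine ⟨by rw [card_F4]; norm_num, cnj_apply, HH_symm B, fun v h => ?_⟩
  have h1 := h (1, 0, 0)
  have h2 := h (0, 0, 1)
  simp only [hV_apply, HH, hh_zero_right, mul_zero, mul_one, add_zero, zero_add] at h1 h2
  rw [map_eq_zero_iff _ cnj.injective] at h1 h2
  obtain ⟨a, b, c⟩ := v
  simp only at h1 h2
  subst h1 h2
  have hb : b = 0 := hh_sep B fun w => by
    have := h (0, w, 0)
    simpa [HH] using this
  rw [hb]; rfl

/-! ### The representing vectors -/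

open Classical in
/-- A chosen vector of the line of a partner. -/
noncomputable def ev (m : G) : Res B :=
  if h : ∃ e ∈ Wr B m, e ≠ 0 then h.choose else 0

theorem ev_spec {m : G} (hm : m ∈ Near D x) : ev B m ∈ Wr B m ∧ ev B m ≠ 0 := by
  classical
  rw [ev, dif_pos (exists_wr_ne B hm)]
  exact (exists_wr_ne B hm).choose_spec

open Classical in
/-- The vector of a member. -/
noncomputable def theta (a : G) : Vec B :=
  if a = x then (1, 0, 0)
  else if h : ∃ p : G × F4, p.1 ∈ common D x y ∧ a ∈ Line D x p.1 ∧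
      pr B (p.1 * a) = p.2 • ev B p.1 then (cnj h.choose.2, ev B h.choose.1, 0)
  else if h : ∃ q ∈ Qx D x, cj q y = a then (coc B h.choose, pr B h.choose, 1) else 0

theorem theta_x : theta B x = ((1, 0, 0) : Vec B) := by
  classical
  exact if_pos rfl

theorem theta_near {a : G} (ha : a ∈ Near D x) :
    ∃ m ∈ common D x y, a ∈ Line D x m ∧ ∃ c : F4, pr B (m * a) = c • ev B m ∧
      theta B a = (cnj c, ev B m, 0) := by
  classical
  obtain ⟨m, hm, hmL, hmN⟩ := exists_trace B.set B.memX B.farY ha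
  obtain ⟨-, hLm⟩ := line_of_near B.set B.memX ha hmL hmN.2.1
  have haL : a ∈ Line D x m := hLm ▸ right_mem_line ha.1
  obtain ⟨hw, hw0⟩ := ev_spec B hmN
  obtain ⟨c, hc⟩ := mem_wr_smul B hmN hw hw0 ((mem_wr B hmN).2 ⟨a, ⟨haL, ha.2.1⟩, rfl⟩)
  have h : ∃ p : G × F4, p.1 ∈ common D x y ∧ a ∈ Line D x p.1 ∧
      pr B (p.1 * a) = p.2 • ev B p.1 := ⟨(m, c), hm, haL, hc⟩
  refine ⟨h.choose.1, h.choose_spec.1, h.choose_spec.2.1, h.choose.2, h.choose_spec.2.2, ?_⟩
  rw [theta, if_neg ha.2.1, dif_pos h]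

theorem theta_far {z : G} (hz : z ∈ Far D x) :
    ∃ q ∈ Qx D x, cj q y = z ∧ theta B z = (coc B q, pr B q, 1) := by
  classical
  have h := far_orbit B hz
  refine ⟨h.choose, h.choose_spec.1, h.choose_spec.2, ?_⟩
  rw [theta, if_neg fun h' : z = x => hz.2 (by rw [h']), dif_neg, dif_pos h]
  rintro ⟨⟨m, c⟩, hm, hL, -⟩
  exact hz.2 (line_commute B.memX (common_near B.set B.farY hm) (left_mem_line B.memX) hL)

theorem member_cases {a : G} (ha : a ∈ D) : a = x ∨ a ∈ Near D x ∨ a ∈ Far D x := by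
  by_cases h1 : a = x
  · exact Or.inl h1
  by_cases h2 : Commute x a
  · exact Or.inr (Or.inl ⟨ha, h1, h2⟩)
  · exact Or.inr (Or.inr ⟨ha, h2⟩)

theorem theta_isotropic {a : G} (ha : a ∈ D) : HH B (theta B a) (theta B a) = 0 := by
  rcases member_cases B ha with rfl | h | h
  · simp [theta_x, HH, hh_zero_left]
  · obtain ⟨m, hm, -, c, -, he⟩ := theta_near B h
    have hmN := common_near B.set B.farY hm
    simp [he, HH, hh_wr_self B hmN (ev_spec B hmN).1]
  · obtain ⟨q, hq, -, he⟩ := theta_far B h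
    simp only [he, HH, map_one, mul_one, one_mul, hh_self]
    rw [add_comm (cnj _), coc_tr, add_self]

theorem theta_ne_zero {a : G} (ha : a ∈ D) : theta B a ≠ 0 := by
  rcases member_cases B ha with rfl | h | h
  · simp [theta_x, Prod.ext_iff]
  · obtain ⟨m, hm, -, c, -, he⟩ := theta_near B h
    simp [he, Prod.ext_iff, (ev_spec B (common_near B.set B.farY hm)).2]
  · obtain ⟨q, hq, -, he⟩ := theta_far B h
    simp [he, Prod.ext_iff]

theorem coc_inv_mul {p q : G} (hp : p ∈ Qx D x) (hq : q ∈ Qx D x) :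
    coc B (p⁻¹ * q) = cnj (coc B p) + coc B q + hh B (pr B p) (pr B q) := by
  have h := coc_mul B hp (mul_mem (inv_mem hp) hq)
  rw [mul_inv_cancel_left, pr_mul B (inv_mem hp) hq, pr_inv B hp, hh_add_right, hh_self,
    ← coc_tr B p] at h
  linear_combination -h - (coc B p + cnj (coc B p) + hh B (pr B p) (pr B q)) * two_eq_zero

theorem commute_far_far {p q : G} (hp : p ∈ Qx D x) (hq : q ∈ Qx D x) :
    Commute (cj p y) (cj q y) ↔ coc B (p⁻¹ * q) = 0 := by
  have hr : p⁻¹ * q ∈ Qx D x := mul_mem (inv_mem hp) hq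
  rw [coc_eq_zero_iff B hr, ← commute_cj p⁻¹, ← cj_mul, inv_mul_cancel, cj_one, ← cj_mul]
  rcases eq_or_ne (p⁻¹ * q) 1 with h | h
  · simp [h, cj_one]
  · rw [lift_iff B hr]
    simp [h]

theorem commute_near_far {m a q : G} (hm : m ∈ common D x y) (haL : a ∈ Line D x m) (hax : a ≠ x)
    {c : F4} (hc : pr B (m * a) = c • ev B m) (hq : q ∈ Qx D x) :
    Commute a (cj q y) ↔ hh B (ev B m) (pr B q) = c := by
  have S := B.set
  have hmN := common_near S B.farY hm
  obtain ⟨hw, hw0⟩ := ev_spec B hmN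
  obtain ⟨hqm, hqmx⟩ := qx_line B hq hmN
  have key : Commute a (cj q y) ↔ cj q m = a := by
    refine ⟨fun h => ?_, fun h => by rw [← h, commute_cj]; exact hm.2.2.symm⟩
    have h' : Commute (cj q⁻¹ a) y := by
      have := (commute_cj q⁻¹).2 h
      rwa [← cj_mul, inv_mul_cancel, cj_one] at this
    obtain ⟨haN, hLa⟩ := line_of_near S B.memX hmN haL hax
    obtain ⟨hL, hne⟩ := qx_line B (inv_mem hq) haN
    have heq : cj q⁻¹ a = m := trace_unique S B.memX B.farY hmN
      ⟨(cj_mem_iff S.conj).2 haN.1, line_commute B.memX haN (left_mem_line B.memX) hL, h'.symm⟩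
      (hLa ▸ hL) hm (right_mem_line hm.1)
    rw [← heq, ← cj_mul, mul_inv_cancel, cj_one]
  rw [key]
  constructor
  · intro h
    have := nr_apply B hmN hq
    rw [nr_eq B hmN hw hw0, h, hc] at this
    exact smul_left_injective _ hw0 this
  · intro h
    refine wr_pr_injective B hmN ⟨hqm, hqmx⟩ ⟨haL, hax⟩ ?_
    show pr B (m * cj q m) = pr B (m * a)
    rw [← nr_apply B hmN hq, nr_eq B hmN hw hw0, h, hc]

theorem commute_near_near {m s a b : G} (hm : m ∈ common D x y) (hs : s ∈ common D x y)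
    (ha : a ∈ Line D x m) (hb : b ∈ Line D x s) (hax : a ≠ x) (hbx : b ≠ x) :
    Commute a b ↔ hh B (ev B m) (ev B s) = 0 := by
  have S := B.set
  have hmN := common_near S B.farY hm
  have hsN := common_near S B.farY hs
  rw [← commute_iff_hh B hmN hsN (ev_spec B hmN).1 (ev_spec B hmN).2 (ev_spec B hsN).1
    (ev_spec B hsN).2]
  obtain ⟨haN, -⟩ := line_of_near S B.memX hmN ha hax
  obtain ⟨hbN, -⟩ := line_of_near S B.memX hsN hb hbx
  constructor
  · intro h
    have h1 : Commute a s := commute_all_of_two S B.memX hsN (left_mem_line B.memX) hb hbx.symm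
      haN.1 haN.2.2.symm h (right_mem_line hs.1)
    exact (commute_all_of_two S B.memX hmN (left_mem_line B.memX) ha hax.symm hs.1
      hsN.2.2.symm h1.symm (right_mem_line hm.1)).symm
  · intro h
    have h1 : Commute s a := commute_all_of_two S B.memX hmN (left_mem_line B.memX)
      (right_mem_line hm.1) hmN.2.1.symm hs.1 hsN.2.2.symm h.symm ha
    exact commute_all_of_two S B.memX hsN (left_mem_line B.memX) (right_mem_line hs.1)
      hsN.2.1.symm haN.1 haN.2.2.symm h1.symm hb

/-- Partners are the orthogonal pairs. -/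
theorem commute_iff_HH {a b : G} (ha : a ∈ D) (hb : b ∈ D) :
    Commute a b ↔ HH B (theta B a) (theta B b) = 0 := by
  have S := B.set
  suffices h : ∀ a b : G, a ∈ D → b ∈ D →
      (a = x ∨ (a ∈ Near D x ∧ b ≠ x) ∨ (a ∈ Far D x ∧ b ∈ Far D x)) →
      (Commute a b ↔ HH B (theta B a) (theta B b) = 0) by
    have hs : HH B (theta B b) (theta B a) = 0 ↔ HH B (theta B a) (theta B b) = 0 := by
      rw [← HH_symm, map_eq_zero_iff _ cnj.injective]
    rcases member_cases B ha with rfl | h1 | h1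
    · exact h _ _ ha hb (Or.inl rfl)
    · by_cases h2 : b = x
      · rw [Commute.symm_iff, ← hs]; exact h _ _ hb ha (Or.inl h2)
      · exact h _ _ ha hb (Or.inr (Or.inl ⟨h1, h2⟩))
    · rcases member_cases B hb with rfl | h2 | h2
      · rw [Commute.symm_iff, ← hs]; exact h _ _ hb ha (Or.inl rfl)
      · rw [Commute.symm_iff, ← hs]
        exact h _ _ hb ha (Or.inr (Or.inl ⟨h2, fun e => h1.2 (by rw [e])⟩))
      · exact h _ _ ha hb (Or.inr (Or.inr ⟨h1, h2⟩))
  rintro a b ha hb (rfl | ⟨h1, hbx⟩ | ⟨h1, h2⟩)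
  · rw [theta_x]
    rcases member_cases B hb with rfl | h | h
    · simp [theta_x, HH, hh_zero_left]
    · obtain ⟨m, -, -, c, -, he⟩ := theta_near B h
      simp [he, HH, hh_zero_left, h.2.2]
    · obtain ⟨q, hq, -, he⟩ := theta_far B h
      simp [he, HH, hh_zero_left, h.2]
  · obtain ⟨m, hm, hmL, c, hc, he⟩ := theta_near B h1
    rcases member_cases B hb with rfl | h | h
    · exact absurd rfl hbx
    · obtain ⟨s, hs, hsL, c', -, he'⟩ := theta_near B h
      rw [commute_near_near B hm hs hmL hsL h1.2.1 hbx]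
      simp [he, he', HH]
    · obtain ⟨q, hq, rfl, he'⟩ := theta_far B h
      rw [commute_near_far B hm hmL h1.2.1 hc hq]
      simp only [he, he', HH, map_zero, zero_mul, add_zero, mul_one, cnj_cnj]
      constructor <;> intro h' <;>
        first
          | linear_combination h' + c * two_eq_zero
          | linear_combination h' - c * two_eq_zero
  · obtain ⟨p, hp, rfl, he⟩ := theta_far B h1
    obtain ⟨q, hq, rfl, he'⟩ := theta_far B h2
    rw [commute_far_far B hp hq, coc_inv_mul B hp hq]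
    simp [he, he', HH]

/-- Distinct members give distinct points. -/
theorem theta_injective {a b : G} (ha : a ∈ D) (hb : b ∈ D) {k : F4}
    (h : theta B a = k • theta B b) : a = b := by
  have S := B.set
  have hk : k ≠ 0 := fun h0 => theta_ne_zero B ha (by rw [h, h0, zero_smul])
  have key : ∀ e ∈ D, Commute a e ↔ Commute b e := fun e he => by
    rw [commute_iff_HH B ha he, commute_iff_HH B hb he, h, HH_smul_left, mul_eq_zero,
      map_eq_zero_iff _ cnj.injective, or_iff_right hk]
  exact vrel_eq S.cls S.prim S.exists_pair ⟨ha, hb, fun e he => (key e he).symm⟩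

/-- Every isotropic point is a member. -/
theorem theta_surjective {z : Vec B} (hz : HH B z z = 0) (hz0 : z ≠ 0) :
    ∃ a ∈ D, ∃ k : F4, theta B a = k • z := by
  have S := B.set
  obtain ⟨al, v, be⟩ := z
  rcases eq_or_ne be 0 with rfl | hbe
  · have hQ : Qf B v = 0 := by
      have h : hh B v v = 0 := by simpa [HH] using hz
      rwa [hh_self, map_eq_zero_iff _ iota_injective] at h
    rcases eq_or_ne v 0 with rfl | hv
    · have hal : al ≠ 0 := fun h => hz0 (by rw [h]; rfl)
      refine ⟨x, B.memX, al⁻¹, ?_⟩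
      simp [theta_x, inv_mul_cancel₀ hal]
    obtain ⟨m, hm, hvm⟩ := isotropic_mem B hQ hv
    have hmN := common_near S B.farY hm
    obtain ⟨hw, hw0⟩ := ev_spec B hmN
    obtain ⟨l, rfl⟩ := mem_wr_smul B hmN hw hw0 hvm
    have hl : l ≠ 0 := fun h => hv (by rw [h, zero_smul])
    obtain ⟨a, ⟨haL, hax⟩, hca⟩ := (mem_wr B hmN).1 (smul_mem_wr B hmN (cnj (l⁻¹ * al)) hw)
    obtain ⟨haN, -⟩ := line_of_near S B.memX hmN haL hax
    refine ⟨a, haN.1, l⁻¹, ?_⟩
    obtain ⟨s, hs, hsL, c, hc, he⟩ := theta_near B haN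
    obtain ⟨-, hLa⟩ := line_of_near S B.memX hmN haL hax
    obtain ⟨-, hLa'⟩ := line_of_near S B.memX (common_near S B.farY hs) hsL hax
    obtain rfl : s = m := trace_unique S B.memX B.farY hmN hs
      (by rw [← hLa, hLa']; exact right_mem_line hs.1) hm (right_mem_line hm.1)
    rw [hca] at hc
    rw [he, ← smul_left_injective _ hw0 hc, cnj_cnj]
    simp [smul_smul, inv_mul_cancel₀ hl]
  · obtain ⟨q, hq, hqv⟩ := pr_surjective B (be⁻¹ • v)
    have hz' : HH B (be⁻¹ • (al, v, be) : Vec B) (be⁻¹ • (al, v, be)) = 0 := by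
      rw [HH_smul_left, HH_smul_right, hz, mul_zero, mul_zero]
    simp only [HH, Prod.smul_mk, smul_eq_mul, inv_mul_cancel₀ hbe, mul_one, map_one, one_mul,
      ← hqv, hh_self, ← coc_tr B q] at hz'
    have hd : cnj (be⁻¹ * al + coc B q) = be⁻¹ * al + coc B q := by
      rw [map_add]
      linear_combination hz' - (be⁻¹ * al + coc B q) * two_eq_zero
    rcases cnj_fixed hd with h | h
    · refine ⟨cj q y, (cj_mem_iff S.conj).2 B.farY.1, be⁻¹, ?_⟩
      obtain ⟨p, hp, hpq, he⟩ := theta_far B (far_cj_mem B (qx_commute hq))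
      obtain rfl := qx_orbit_injective B hp hq hpq
      have h' : coc B p = be⁻¹ * al := by linear_combination h - be⁻¹ * al * two_eq_zero
      simp [he, h', hqv, inv_mul_cancel₀ hbe]
    · have hxq := mul_mem (x_mem_qx B) hq
      refine ⟨cj (x * q) y, (cj_mem_iff S.conj).2 B.farY.1, be⁻¹, ?_⟩
      obtain ⟨p, hp, hpq, he⟩ := theta_far B (far_cj_mem B (qx_commute hxq))
      obtain rfl := qx_orbit_injective B hp hxq hpq
      have hx0 := (pr_eq_zero B (x_mem_qx B)).2 (Or.inr rfl)
      have h1 : pr B (x * q) = be⁻¹ • v := by rw [pr_mul B (x_mem_qx B) hq, hx0, zero_add, hqv]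
      have h' : coc B (x * q) = be⁻¹ * al := by
        rw [coc_mul B (x_mem_qx B) hq, coc_x, hx0, hh_zero_left]
        linear_combination h - be⁻¹ * al * two_eq_zero + two_eq_zero
      simp [he, h', h1, inv_mul_cancel₀ hbe]

/-- Conjugation by a member is the transvection at its point. -/
theorem theta_cj {d e : G} (hd : d ∈ D) (he : e ∈ D) :
    ∃ k : F4, theta B (cj d e) = k • (theta B e + HH B (theta B d) (theta B e) • theta B d) := by
  have S := B.set
  by_cases hc : Commute d e
  · exact ⟨1, by rw [cj_eq_self hc, (commute_iff_HH B hd he).1 hc, zero_smul, add_zero, one_smul]⟩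
  set u := theta B d with hu
  set v := theta B e with hv
  set h := HH B u v with hh
  have hu0 : HH B u u = 0 := theta_isotropic B hd
  have hv0 : HH B v v = 0 := theta_isotropic B he
  have hne : h ≠ 0 := fun h0 => hc ((commute_iff_HH B hd he).2 h0)
  set w := v + h • u with hw
  have huw : HH B u w = h := by rw [hw, HH_add_right, HH_smul_right, hu0, mul_zero, add_zero]
  have hiso : HH B w w = 0 := by
    rw [hw, HH_add_left, HH_smul_left, HH_add_right, HH_smul_right, hv0, ← HH_symm B u v,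
      ← hw, huw, ← hh, zero_add]
    linear_combination (cnj h * h) * two_eq_zero
  have hw0 : w ≠ 0 := fun h0 => hne (by rw [← huw, h0]; exact map_zero (hV B u))
  obtain ⟨a, ha, k, hk⟩ := theta_surjective B hiso hw0
  have hk0 : k ≠ 0 := fun h0 => theta_ne_zero B ha (by rw [hk, h0, zero_smul])
  have haL : a ∈ Line D d e := ⟨ha, fun f hf => by
    rw [commute_iff_HH B ha hf.1, hk, hw, HH_smul_left, HH_add_left, HH_smul_left,
      (commute_iff_HH B he hf.1).1 hf.2.2, (commute_iff_HH B hd hf.1).1 hf.2.1]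
    simp⟩
  rw [far_line_eq S hd ⟨he, hc⟩] at haL
  rcases haL with rfl | rfl | rfl
  · refine absurd ?_ hne
    have := congrArg (HH B u) hk
    rw [hu0, HH_smul_right, huw, eq_comm, mul_eq_zero] at this
    exact this.resolve_left hk0
  · exfalso
    have := congrArg (HH B u) hk
    rw [HH_smul_right, huw, ← hh] at this
    obtain rfl : k = 1 := mul_right_cancel₀ hne (by rw [one_mul]; exact this.symm)
    rw [one_smul, hw, left_eq_add, smul_eq_zero] at hk
    exact hne (hk.resolve_right (theta_ne_zero B hd))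
  · exact ⟨k, hk⟩

end Cfsg.Agent.H9.Polar
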