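import Cfsg.Agent.H9.PolarBound
import Cfsg.Agent.H9.PolarFour

/-!
# The translation group at a member and its quotient, for lines of five points
-/

set_option autoImplicit false

namespace Cfsg.Agent.H9.Polar

open Subgroup
open Cfsg.Agent.H17
open Cfsg.Agent.H9.Fischer (cj cj_injective cj_eq_self exists_cj Near Far cj_mem_iff common_cj
  near_conj)

variable {G : Type*} [Group G]

/-- A member `x`, a non-partner `y`, and lines of five points. -/
structure Base (D : Set G) (x y : G) : Prop where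
  set : Setting D
  five : ∀ z ∈ D, ∀ a ∈ Near D z, (Line D z a).ncard = 5
  memX : x ∈ D
  farY : y ∈ Far D x

/-- The products of two points of one line at `x`. -/
def transGen (D : Set G) (x : G) : Set G :=
  {g | ∃ a b, a ∈ Near D x ∧ b ∈ Near D x ∧ b ∈ Line D x a ∧ g = a * b}

/-- The translation group at `x`. -/
def Qx (D : Set G) (x : G) : Subgroup G := closure (transGen D x)

variable {D : Set G} {x y : G}

theorem qx_commute {q : G} (hq : q ∈ Qx D x) : Commute q x := by
  refine (mem_centralizer_iff.1 ((closure_le (centralizer ({x} : Set G))).2 ?_ hq) x rfl).symm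
  rintro _ ⟨a, b, ha, hb, -, rfl⟩
  exact mem_centralizer_iff.2 fun w hw => by
    rw [Set.mem_singleton_iff.1 hw]; exact (ha.2.2.mul_right hb.2.2).eq

theorem near_conj_mem (S : Setting D) {g e : G} (hgx : Commute g x) (he : e ∈ Near D x) :
    cj g e ∈ Near D x := by
  have h := near_conj S.conj g x
  rw [cj_eq_self hgx] at h
  rw [h]; exact ⟨e, he, rfl⟩

/-- The central subgroup of order two of the translation group. -/
def centX (D : Set G) (x : G) : Subgroup (Qx D x) := (zpowers x).subgroupOf (Qx D x)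

instance centX_normal (D : Set G) (x : G) : (centX D x).Normal := ⟨fun n hn g => by
  rw [centX, mem_subgroupOf] at hn ⊢
  obtain ⟨k, hk⟩ := hn
  have hc : Commute (g : G) (n : G) := by
    have hk' : (n : G) = x ^ k := hk.symm
    rw [hk']; exact (qx_commute g.2).zpow_right k
  have : ((g * n * g⁻¹ : Qx D x) : G) = n := by
    simp only [coe_mul, coe_inv]
    rw [hc.eq, mul_assoc, mul_inv_cancel, mul_one]
  rw [this]; exact ⟨k, hk⟩⟩

/-- The translation group modulo `x`, written additively. -/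
def Res (_B : Base D x y) : Type _ := Additive (Qx D x ⧸ centX D x)

variable [Finite G] (B : Base D x y)
include B

theorem line_sdiff_ncard {e : G} (he : e ∈ Near D x) : (Line D x e \ {x}).ncard = 4 := by
  rw [Set.ncard_sdiff_singleton_of_mem (left_mem_line B.memX), B.five x B.memX e he]

theorem gen_translation {a b e : G} (ha : a ∈ Near D x) (hb : b ∈ Line D x a) (hbx : b ≠ x)
    (he : e ∈ Near D x) : IsTranslation (Line D x e \ {x}) (cj (a * b)) := by
  have S := B.set
  have hsq : ∀ z, cj (a * b) (cj (a * b) z) = z := fun z => by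
    rw [← cj_mul, show a * b * (a * b) = a * a * (b * b) by
      rw [mul_assoc, ← mul_assoc b, (line_commute B.memX ha hb (right_mem_line ha.1)).eq,
        mul_assoc, mul_assoc], sq_one S.cls.1 ha.1, sq_one S.cls.1 hb.1, one_mul, cj_one]
  refine ⟨fun z hz => ?_, fun z _ => hsq z, fun z hz hfix z' hz' => ?_⟩
  · obtain ⟨hzN, hzL⟩ := line_of_near S B.memX he hz.1 hz.2
    obtain ⟨h1, h2, -⟩ := translate S B.memX ha hb hbx hzN
    exact ⟨hzL ▸ h1, h2⟩
  · obtain ⟨hzN, -⟩ := line_of_near S B.memX he hz.1 hz.2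
    obtain ⟨-, -, h3⟩ := translate S B.memX ha hb hbx hzN
    by_cases hba : b = a
    · rw [hba, sq_one S.cls.1 ha.1, cj_one]
    have haz : Commute a z := by
      by_contra h
      exact h3 h hba hfix
    have hall : Commute a z' := commute_all_of_two S B.memX he (left_mem_line B.memX) hz.1
      (fun h => hzN.2.1 h.symm) ha.1 ha.2.2.symm haz hz'.1
    obtain ⟨hzN', -⟩ := line_of_near S B.memX he hz'.1 hz'.2
    exact cj_eq_self (hall.mul_left (commute_all_of_two S B.memX ha (left_mem_line B.memX)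
      (right_mem_line ha.1) ha.2.1.symm hz'.1.1 hzN'.2.2.symm hall.symm hb).symm)

theorem qx_translation {q e : G} (hq : q ∈ Qx D x) (he : e ∈ Near D x) :
    IsTranslation (Line D x e \ {x}) (cj q) := by
  refine closure_induction (p := fun g _ => IsTranslation (Line D x e \ {x}) (cj g)) ?_ ?_ ?_ ?_ hq
  · rintro _ ⟨a, b, ha, hb, hbL, rfl⟩
    exact gen_translation B ha hbL hb.2.1 he
  · exact ⟨fun z hz => by rwa [cj_one], fun z _ => by simp [cj_one], fun z _ _ z' _ => cj_one z'⟩
  · intro g h _ _ hg hh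
    have hm := (translation_mul (line_sdiff_ncard B he) hg hh).1
    rwa [show cj g ∘ cj h = cj (g * h) from funext fun z => (cj_mul g h z).symm] at hm
  · intro g _ hg
    have hinv : ∀ z ∈ Line D x e \ {x}, cj g⁻¹ z = cj g z := fun z hz => cj_injective g (by
      rw [hg.2.1 z hz, ← cj_mul, mul_inv_cancel, cj_one])
    refine ⟨fun z hz => hinv z hz ▸ hg.1 z hz, fun z hz => ?_, fun z hz h z' hz' => ?_⟩
    · rw [hinv z hz, hinv _ (hg.1 z hz), hg.2.1 z hz]
    · rw [hinv z' hz']; exact hg.2.2 z hz (hinv z hz ▸ h) z' hz'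

theorem qx_line {q e : G} (hq : q ∈ Qx D x) (he : e ∈ Near D x) :
    cj q e ∈ Line D x e ∧ cj q e ≠ x :=
  (qx_translation B hq he).1 e ⟨right_mem_line he.1, he.2.1⟩

theorem qx_fix {q e e' : G} (hq : q ∈ Qx D x) (he : e ∈ Near D x) (h : cj q e = e)
    (he' : e' ∈ Line D x e) (hne : e' ≠ x) : cj q e' = e' :=
  (qx_translation B hq he).2.2 e ⟨right_mem_line he.1, he.2.1⟩ h e' ⟨he', hne⟩

/-- An element commuting with `x` and all its partners is `1` or `x`. -/
theorem kernel_eq {g : G} (hgx : Commute g x) (hN : ∀ e ∈ Near D x, Commute g e) :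
    g = 1 ∨ g = x := by
  have S := B.set
  have hy' : cj g y ∈ Line D x y := by
    refine ⟨(cj_mem_iff S.conj).2 B.farY.1, fun e he => ?_⟩
    rw [← cj_eq_self (hN e (common_near S B.farY he)), commute_cj]
    exact he.2.2
  rw [far_line_eq S B.memX B.farY] at hy'
  rcases hy' with h | h | h
  · exact absurd (cj_injective g (h.trans (cj_eq_self hgx).symm))
      (fun h' : y = x => B.farY.2 (h' ▸ Commute.refl x))
  · exact Or.inl (fix_eq_one S B.memX B.farY hgx (commute_of_cj_eq h) hN)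
  · right
    have h1 := fix_eq_one S B.memX B.farY ((Commute.refl x).mul_left hgx) (g := x * g)
      (commute_of_cj_eq (by rw [cj_mul, h, cj_cj_self S.cls.1 B.memX]))
      (fun e he => he.2.2.mul_left (hN e he))
    rw [eq_inv_of_mul_eq_one_right h1, inv_self S.cls.1 B.memX]

theorem x_ne_one : x ≠ 1 := fun h => by
  have := B.set.cls.1.1 x B.memX
  rw [h, orderOf_one] at this
  exact absurd this (by decide)

theorem mem_centX {q : Qx D x} : q ∈ centX D x ↔ (q : G) = 1 ∨ (q : G) = x := by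
  rw [centX, mem_subgroupOf]
  constructor
  · rintro ⟨k, hk⟩
    have hk' : (q : G) = x ^ k := hk.symm
    have h2 : x ^ (2 : ℤ) = 1 := by rw [zpow_two, sq_one B.set.cls.1 B.memX]
    obtain ⟨j, rfl | rfl⟩ := Int.even_or_odd' k
    · left; rw [hk', zpow_mul, h2, one_zpow]
    · right; rw [hk', zpow_add, zpow_mul, h2, one_zpow, one_mul, zpow_one]
  · rintro (h | h) <;> rw [h]
    exacts [one_mem _, mem_zpowers x]

theorem comm_mem {p q : G} (hp : p ∈ Qx D x) (hq : q ∈ Qx D x) :
    p * q * p⁻¹ * q⁻¹ = 1 ∨ p * q * p⁻¹ * q⁻¹ = x := by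
  refine kernel_eq B ((((qx_commute hp).mul_left (qx_commute hq)).mul_left
    (qx_commute hp).inv_left).mul_left (qx_commute hq).inv_left) fun e he => commute_of_cj_eq ?_
  set e' := cj (q * p)⁻¹ e with he'
  obtain ⟨hL, hne⟩ := qx_line B (inv_mem (mul_mem hq hp)) he
  have he1 : cj (q * p) e' = e := by rw [he', ← cj_mul, mul_inv_cancel, cj_one]
  rw [show p * q * p⁻¹ * q⁻¹ = (p * q) * (q * p)⁻¹ by group, cj_mul, ← he', cj_mul,
    (translation_mul (line_sdiff_ncard B he) (qx_translation B hp he)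
      (qx_translation B hq he)).2 e' ⟨hL, hne⟩, ← cj_mul, he1]

theorem sq_mem {q : G} (hq : q ∈ Qx D x) : q * q = 1 ∨ q * q = x :=
  kernel_eq B ((qx_commute hq).mul_left (qx_commute hq)) fun e he => commute_of_cj_eq (by
    rw [cj_mul]; exact (qx_translation B hq he).2.1 e ⟨right_mem_line he.1, he.2.1⟩)

/-- The class of an element of the translation group. -/
def cls' (q : Qx D x) : Res B := Additive.ofMul ((q : Qx D x ⧸ centX D x))

instance instAddCommGroupRes : AddCommGroup (Res B) :=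
  { (inferInstanceAs (AddGroup (Additive (Qx D x ⧸ centX D x))) : AddGroup (Res B)) with
    add_comm := fun u v => by
      induction u using Quotient.inductionOn with
      | h p =>
        induction v using Quotient.inductionOn with
        | h q =>
          refine congrArg Additive.ofMul ?_
          show ((p : Qx D x ⧸ centX D x)) * q = (q : Qx D x ⧸ centX D x) * p
          rw [← QuotientGroup.mk_mul, ← QuotientGroup.mk_mul, eq_comm, QuotientGroup.eq,
            mem_centX B]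
          have h : ((((q * p)⁻¹ * (p * q)) : Qx D x) : G) =
              (p : G)⁻¹ * (q : G)⁻¹ * (p : G)⁻¹⁻¹ * (q : G)⁻¹⁻¹ := by
            simp only [coe_mul, coe_inv]; group
          rw [h]
          exact comm_mem B (inv_mem p.2) (inv_mem q.2) }

theorem cls'_mul (p q : Qx D x) : cls' B (p * q) = cls' B p + cls' B q := rfl

theorem cls'_surjective : Function.Surjective (cls' B) := fun v => by
  induction v using Quotient.inductionOn with
  | h p => exact ⟨p, rfl⟩

theorem cls'_eq_zero {q : Qx D x} : cls' B q = 0 ↔ (q : G) = 1 ∨ (q : G) = x := by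
  rw [← mem_centX B]
  exact QuotientGroup.eq_one_iff q

theorem cls'_one : cls' B 1 = 0 := (cls'_eq_zero B).2 (Or.inl rfl)

theorem res_add_self (v : Res B) : v + v = 0 := by
  obtain ⟨q, rfl⟩ := cls'_surjective B v
  rw [← cls'_mul, cls'_eq_zero]
  exact sq_mem B q.2

instance instModuleRes : Module (ZMod 2) (Res B) :=
  AddCommGroup.zmodModule fun v => by rw [two_nsmul]; exact res_add_self B v

theorem cls'_inv (q : Qx D x) : cls' B q⁻¹ = cls' B q := by
  have h := cls'_mul B q⁻¹ q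
  rw [inv_mul_cancel, cls'_one] at h
  exact (add_eq_zero_iff_eq_neg.1 h.symm).trans (neg_eq_of_add_eq_zero_left (res_add_self B _))

open Classical in
/-- The class of an element of the group, zero outside the translation group. -/
noncomputable def pr (g : G) : Res B := if h : g ∈ Qx D x then cls' B ⟨g, h⟩ else 0

theorem pr_of_mem {g : G} (h : g ∈ Qx D x) : pr B g = cls' B ⟨g, h⟩ := dif_pos h

theorem pr_mul {g h : G} (hg : g ∈ Qx D x) (hh : h ∈ Qx D x) :
    pr B (g * h) = pr B g + pr B h := by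
  rw [pr_of_mem B hg, pr_of_mem B hh, pr_of_mem B (mul_mem hg hh), ← cls'_mul]; rfl

theorem pr_inv {g : G} (hg : g ∈ Qx D x) : pr B g⁻¹ = pr B g := by
  rw [pr_of_mem B hg, pr_of_mem B (inv_mem hg)]; exact cls'_inv B ⟨g, hg⟩

theorem pr_eq_zero {g : G} (hg : g ∈ Qx D x) : pr B g = 0 ↔ g = 1 ∨ g = x := by
  rw [pr_of_mem B hg, cls'_eq_zero]

theorem pr_surjective (v : Res B) : ∃ g ∈ Qx D x, pr B g = v := by
  obtain ⟨q, rfl⟩ := cls'_surjective B v
  exact ⟨q, q.2, pr_of_mem B q.2⟩

theorem pr_eq_pr {g h : G} (hg : g ∈ Qx D x) (hh : h ∈ Qx D x) (he : pr B g = pr B h) :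
    g = h ∨ g = x * h := by
  have h0 : pr B (g * h⁻¹) = 0 := by
    rw [pr_mul B hg (inv_mem hh), pr_inv B hh, he, res_add_self]
  rcases (pr_eq_zero B (mul_mem hg (inv_mem hh))).1 h0 with h1 | h1
  · exact Or.inl (mul_inv_eq_one.1 h1)
  · exact Or.inr (mul_inv_eq_iff_eq_mul.1 h1)

theorem pair_mem {a b : G} (ha : a ∈ Near D x) (hb : b ∈ Line D x a) (hbx : b ≠ x) :
    a * b ∈ Qx D x :=
  subset_closure ⟨a, b, ha, (line_of_near B.set B.memX ha hb hbx).1, hb, rfl⟩

theorem exists_other_two {r a : G} (hr : r ∈ Near D x) (ha : a ∈ Line D x r) (hax : a ≠ x)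
    (har : a ≠ r) :
    ∃ b c, b ∈ Line D x r ∧ c ∈ Line D x r ∧ b ≠ x ∧ c ≠ x ∧ b ≠ r ∧ c ≠ r ∧ b ≠ a ∧ c ≠ a ∧
      b ≠ c ∧ Line D x r \ {x} = {r, a, b, c} := by
  have hsub : ({r, a} : Set G) ⊆ Line D x r \ {x} :=
    Set.insert_subset ⟨right_mem_line hr.1, hr.2.1⟩ (Set.singleton_subset_iff.2 ⟨ha, hax⟩)
  have h2 := Set.ncard_sdiff hsub (Set.toFinite _)
  rw [line_sdiff_ncard B hr, Set.ncard_pair har.symm] at h2
  obtain ⟨b, c, hbc, hs⟩ := Set.ncard_eq_two.1 h2
  have hb : b ∈ (Line D x r \ {x}) \ {r, a} := by rw [hs]; exact Or.inl rfl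
  have hc : c ∈ (Line D x r \ {x}) \ {r, a} := by rw [hs]; exact Or.inr rfl
  refine ⟨b, c, hb.1.1, hc.1.1, hb.1.2, hc.1.2, fun h => hb.2 (Or.inl h), fun h => hc.2 (Or.inl h),
    fun h => hb.2 (Or.inr h), fun h => hc.2 (Or.inr h), hbc, ?_⟩
  rw [← Set.union_sdiff_cancel hsub, hs]
  ext z; simp only [Set.mem_union, Set.mem_insert_iff, Set.mem_singleton_iff]; tauto

theorem five_at {r a b c : G} (hr : r ∈ Near D x) (ha : a ∈ Line D x r) (hb : b ∈ Line D x r)
    (hc : c ∈ Line D x r) (hax : a ≠ x) (hbx : b ≠ x) (hcx : c ≠ x) (har : a ≠ r) (hbr : b ≠ r)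
    (hcr : c ≠ r) (hba : b ≠ a) (hca : c ≠ a) (hcb : c ≠ b) : x * r * a * c * b = 1 :=
  five_prod B.set B.memX hr (B.five x B.memX r hr) (left_mem_line B.memX) (right_mem_line hr.1) ha
    hb hr.2.1.symm hax.symm har.symm hbx hbr hba hc hcx hcr hca hcb

theorem x_mem_qx : x ∈ Qx D x := by
  obtain ⟨r, hr⟩ := exists_near B.set B.memX
  obtain ⟨a, ha, hax, har⟩ := exists_third B.set B.memX hr
  obtain ⟨b, c, hb, hc, hbx, hcx, hbr, hcr, hba, hca, hbc, -⟩ := exists_other_two B hr ha hax har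
  have h := five_at B hr ha hb hc hax hbx hcx har hbr hcr hba hca hbc.symm
  obtain ⟨hcN, hcL⟩ := line_of_near B.set B.memX hr hc hcx
  have hm : r * a * (c * b) ∈ Qx D x :=
    mul_mem (pair_mem B hr ha hax) (pair_mem B hcN (hcL.symm ▸ hb) hbx)
  have hx' : x = (r * a * (c * b))⁻¹ :=
    eq_inv_of_mul_eq_one_left (by rw [← h]; simp only [mul_assoc])
  have h' := inv_mem hm
  rwa [← hx'] at h' 

/-- The translations along the line of `r`. -/
noncomputable def Wr (r : G) : Submodule (ZMod 2) (Res B) :=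
  Submodule.span (ZMod 2) ((fun a => pr B (r * a)) '' (Line D x r \ {x}))

theorem wr_carrier {r : G} (hr : r ∈ Near D x) :
    (Wr B r : Set (Res B)) = (fun a => pr B (r * a)) '' (Line D x r \ {x}) := by
  refine subset_antisymm ?_ Submodule.subset_span
  have h0 : pr B (r * r) = 0 := (pr_eq_zero B (pair_mem B hr (right_mem_line hr.1) hr.2.1)).2
    (Or.inl (sq_one B.set.cls.1 hr.1))
  intro v hv
  induction hv using Submodule.span_induction with
  | mem v hv => exact hv
  | zero => exact ⟨r, ⟨right_mem_line hr.1, hr.2.1⟩, h0⟩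
  | smul k v _ hv =>
    rcases (by decide : ∀ c : ZMod 2, c = 0 ∨ c = 1) k with rfl | rfl
    · exact ⟨r, ⟨right_mem_line hr.1, hr.2.1⟩, h0.trans (zero_smul _ _).symm⟩
    · rwa [one_smul]
  | add u v _ _ hu hv =>
    obtain ⟨a, ⟨ha, hax⟩, rfl⟩ := hu
    obtain ⟨b, ⟨hb, hbx⟩, rfl⟩ := hv
    by_cases har : a = r
    · exact ⟨b, ⟨hb, hbx⟩, by simp only [har, h0, zero_add]⟩
    by_cases hbr : b = r
    · exact ⟨a, ⟨ha, hax⟩, by simp only [hbr, h0, add_zero]⟩
    by_cases hab : a = b
    · exact ⟨r, ⟨right_mem_line hr.1, hr.2.1⟩, by simp only [hab, h0, res_add_self]⟩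
    obtain ⟨b', c', hb', hc', hbx', hcx', hbr', hcr', hba', hca', hbc', hs⟩ :=
      exists_other_two B hr ha hax har
    obtain ⟨c, hc, hcx, hcr, hca, hcb⟩ :
        ∃ c ∈ Line D x r, c ≠ x ∧ c ≠ r ∧ c ≠ a ∧ c ≠ b := by
      by_cases h : b = b'
      · exact ⟨c', hc', hcx', hcr', hca', h ▸ hbc'.symm⟩
      · exact ⟨b', hb', hbx', hbr', hba', fun h' => h h'.symm⟩
    refine ⟨c, ⟨hc, hcx⟩, ?_⟩
    have h5 := five_at B hr ha hb hc hax hbx hcx har hbr hcr (Ne.symm hab) hca hcb
    have hra := pair_mem B hr ha hax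
    have hrb := pair_mem B hr hb hbx
    have hrc := pair_mem B hr hc hcx
    have hrB : Commute r b := line_commute B.memX hr (right_mem_line hr.1) hb
    have h6 : pr B (r * a * (r * c) * (r * b)) = 0 := by
      refine (pr_eq_zero B (mul_mem (mul_mem hra hrc) hrb)).2 (Or.inr ?_)
      have hcr2 : r * a * (r * c) * (r * b) = r * (a * c * b) := by
        rw [show r * a * (r * c) = a * c by
          rw [(line_commute B.memX hr (right_mem_line hr.1) ha).eq, mul_assoc, ← mul_assoc r r,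
            sq_one B.set.cls.1 hr.1, one_mul],
          ← mul_assoc (a * c) r b,
          ((line_commute B.memX hr ha (right_mem_line hr.1)).mul_left
            (line_commute B.memX hr hc (right_mem_line hr.1))).eq, mul_assoc r]
      rw [hcr2, ← inv_self B.set.cls.1 B.memX]
      refine (inv_eq_of_mul_eq_one_right ?_).symm
      rw [← h5]; simp only [mul_assoc]
    show pr B (r * c) = pr B (r * a) + pr B (r * b)
    rw [pr_mul B (mul_mem hra hrc) hrb, pr_mul B hra hrc, add_comm (pr B (r * a)) (pr B (r * c)),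
      add_assoc] at h6
    exact (add_eq_zero_iff_eq_neg.1 h6).trans (neg_eq_of_add_eq_zero_left (res_add_self B _))

theorem mem_wr {r : G} (hr : r ∈ Near D x) {v : Res B} :
    v ∈ Wr B r ↔ ∃ a ∈ Line D x r \ {x}, pr B (r * a) = v := by
  rw [← SetLike.mem_coe, wr_carrier B hr]; rfl

theorem wr_pr_injective {r : G} (hr : r ∈ Near D x) :
    Set.InjOn (fun a => pr B (r * a)) (Line D x r \ {x}) := by
  rintro a ⟨ha, hax⟩ b ⟨hb, hbx⟩ h
  have hrr := sq_one B.set.cls.1 hr.1
  rcases pr_eq_pr B (pair_mem B hr ha hax) (pair_mem B hr hb hbx) h with h1 | h1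
  · exact mul_left_cancel h1
  exfalso
  -- `a = x * b`
  have hxr : Commute x r := hr.2.2
  have hab : a = x * b := mul_left_cancel (a := r) (by
    rw [h1, ← mul_assoc, ← mul_assoc, hxr.eq])
  by_cases har : a = r
  · by_cases hbr : b = r
    · rw [har, hbr] at hab
      exact x_ne_one B (mul_right_cancel (hab.symm.trans (one_mul r).symm))
    obtain ⟨c, d, hc, hd, hcx, hdx, hcr, hdr, hcb, hdb, hcd, -⟩ := exists_other_two B hr hb hbx hbr
    have h5 := five_at B hr hb hc hd hbx hcx hdx hbr hcr hdr hcb hdb hcd.symm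
    rw [← har, hab, ← mul_assoc, sq_one B.set.cls.1 B.memX, one_mul, sq_one B.set.cls.1 hb.1,
      one_mul] at h5
    rw [eq_inv_of_mul_eq_one_left h5, inv_self B.set.cls.1 hc.1] at hcd
    exact hcd rfl
  obtain ⟨c, d, hc, hd, hcx, hdx, hcr, hdr, hca, hda, hcd, hs⟩ := exists_other_two B hr ha hax har
  have hne : b ≠ a := fun h' => x_ne_one B (mul_right_cancel ((h' ▸ hab).symm.trans (one_mul a).symm))
  have hb4 : b ∈ ({r, a, c, d} : Set G) := hs ▸ ⟨hb, hbx⟩
  have h5 := five_at B hr ha hc hd hax hcx hdx har hcr hdr hca hda hcd.symm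
  -- the product of the five points, with `a * b = x`
  have hcomm : ∀ {u v}, u ∈ Line D x r → v ∈ Line D x r → Commute u v := line_commute B.memX hr
  have hxab : x = a * b := by rw [hab, mul_assoc, sq_one B.set.cls.1 hb.1, mul_one]
  have hx2 : x * (r * a * d * c) = 1 := by rw [← h5]; simp only [mul_assoc]
  have hprod : a * b = r * a * d * c := by
    rw [← hxab, ← inv_self B.set.cls.1 B.memX]
    exact inv_eq_of_mul_eq_one_right hx2
  have hprod' : a * b = a * (r * (d * c)) := by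
    rw [hprod, (hcomm (right_mem_line hr.1) ha).eq]; simp only [mul_assoc]
  have hb' : b = r * (d * c) := mul_left_cancel hprod'
  rcases hb4 with rfl | rfl | rfl | rfl
  · have : d * c = 1 := mul_left_cancel (hb'.symm.trans (mul_one b).symm)
    rw [eq_inv_of_mul_eq_one_left this, inv_self B.set.cls.1 hc.1] at hcd
    exact hcd rfl
  · exact hne rfl
  · rw [← mul_assoc] at hb'
    have : r * d = 1 := mul_right_cancel (hb'.symm.trans (one_mul b).symm)
    rw [eq_inv_of_mul_eq_one_left this, inv_self B.set.cls.1 hd.1] at hdr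
    exact hdr rfl
  · rw [(hcomm hd hc).eq, ← mul_assoc] at hb'
    have : r * c = 1 := mul_right_cancel (hb'.symm.trans (one_mul b).symm)
    rw [eq_inv_of_mul_eq_one_left this, inv_self B.set.cls.1 hc.1] at hcr
    exact hcr rfl

theorem wr_ncard {r : G} (hr : r ∈ Near D x) : (Wr B r : Set (Res B)).ncard = 4 := by
  rw [wr_carrier B hr, (wr_pr_injective B hr).ncard_image, line_sdiff_ncard B hr]

theorem wr_eq {r r' : G} (hr : r ∈ Near D x) (hr' : r' ∈ Line D x r) (hne : r' ≠ x) :
    Wr B r' = Wr B r := by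
  obtain ⟨hr'N, hL⟩ := line_of_near B.set B.memX hr hr' hne
  have key : ∀ {p p'}, p ∈ Near D x → p' ∈ Line D x p → p' ≠ x → Line D x p' = Line D x p →
      Wr B p' ≤ Wr B p := by
    intro p p' hp hp' hne hL
    refine Submodule.span_le.2 ?_
    rintro _ ⟨a, ⟨ha, hax⟩, rfl⟩
    rw [hL] at ha
    have h : pr B (p' * a) = pr B (p * p') + pr B (p * a) := by
      rw [← pr_mul B (pair_mem B hp hp' hne) (pair_mem B hp ha hax),
        (line_commute B.memX hp (right_mem_line hp.1) hp').eq, mul_assoc, ← mul_assoc p p,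
        sq_one B.set.cls.1 hp.1, one_mul]
    show pr B (p' * a) ∈ Wr B p
    rw [h]
    exact add_mem ((mem_wr B hp).2 ⟨p', ⟨hp', hne⟩, rfl⟩) ((mem_wr B hp).2 ⟨a, ⟨ha, hax⟩, rfl⟩)
  exact le_antisymm (key hr hr' hne hL)
    (key hr'N (hL.symm ▸ right_mem_line hr.1) hr.2.1 hL.symm)

theorem qx_conj {g q : G} (hgx : Commute g x) (hq : q ∈ Qx D x) : cj g q ∈ Qx D x := by
  refine closure_induction (p := fun h _ => cj g h ∈ Qx D x) ?_ ?_ ?_ ?_ hq
  · rintro _ ⟨a, b, ha, hb, hbL, rfl⟩
    rw [cj_map_mul]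
    refine subset_closure ⟨cj g a, cj g b, near_conj_mem B.set hgx ha,
      near_conj_mem B.set hgx hb, ?_, rfl⟩
    have h := line_conj B.set g x a
    rw [cj_eq_self hgx] at h
    rw [h]; exact ⟨b, hbL, rfl⟩
  · simp [cj]
  · intro p q _ _ hp hq
    rw [cj_map_mul]; exact mul_mem hp hq
  · intro p _ hp
    rw [show cj g p⁻¹ = (cj g p)⁻¹ by simp only [cj]; group]
    exact inv_mem hp

theorem pr_cj {g p q : G} (hgx : Commute g x) (hp : p ∈ Qx D x) (hq : q ∈ Qx D x)
    (h : pr B p = pr B q) : pr B (cj g p) = pr B (cj g q) := by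
  rcases pr_eq_pr B hp hq h with rfl | rfl
  · rfl
  · rw [cj_map_mul, cj_eq_self hgx, pr_mul B (x_mem_qx B) (qx_conj B hgx hq),
      (pr_eq_zero B (x_mem_qx B)).2 (Or.inr rfl), zero_add]

/-- Conjugation by a partner on the residue. -/
noncomputable def Tr (r : G) (hr : r ∈ Near D x) : Res B →ₗ[ZMod 2] Res B :=
  AddMonoidHom.toZModLinearMap 2
    (AddMonoidHom.mk' (fun v => pr B (cj r (pr_surjective B v).choose)) fun u v => by
      obtain ⟨hu, hu'⟩ := (pr_surjective B u).choose_spec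
      obtain ⟨hv, hv'⟩ := (pr_surjective B v).choose_spec
      obtain ⟨hw, hw'⟩ := (pr_surjective B (u + v)).choose_spec
      rw [← pr_mul B (qx_conj B hr.2.2.symm hu) (qx_conj B hr.2.2.symm hv), ← cj_map_mul]
      exact pr_cj B hr.2.2.symm hw (mul_mem hu hv) (by rw [hw', pr_mul B hu hv, hu', hv']))

theorem tr_apply {r : G} (hr : r ∈ Near D x) {q : G} (hq : q ∈ Qx D x) :
    Tr B r hr (pr B q) = pr B (cj r q) := by
  obtain ⟨h, h'⟩ := (pr_surjective B (pr B q)).choose_spec
  exact pr_cj B hr.2.2.symm h hq h'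

open Classical in
/-- The displacement along the line of `r`. -/
noncomputable def Nr (r : G) : Res B →ₗ[ZMod 2] Res B :=
  if hr : r ∈ Near D x then Tr B r hr + LinearMap.id else 0

theorem nr_apply {r : G} (hr : r ∈ Near D x) {q : G} (hq : q ∈ Qx D x) :
    Nr B r (pr B q) = pr B (r * cj q r) := by
  rw [Nr, dif_pos hr, LinearMap.add_apply, tr_apply B hr hq, LinearMap.id_apply]
  rw [← pr_inv B hq, ← pr_mul B (qx_conj B hr.2.2.symm hq) (inv_mem hq)]
  refine congrArg _ ?_
  simp only [cj, inv_self B.set.cls.1 hr.1, mul_assoc]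

theorem nr_mem (r : G) (hr : r ∈ Near D x) (v : Res B) : Nr B r v ∈ Wr B r := by
  obtain ⟨q, hq, rfl⟩ := pr_surjective B v
  rw [nr_apply B hr hq]
  exact (mem_wr B hr).2 ⟨_, qx_line B hq hr, rfl⟩

theorem nr_eq_zero_iff {r q : G} (hr : r ∈ Near D x) (hq : q ∈ Qx D x) :
    Nr B r (pr B q) = 0 ↔ cj q r = r := by
  rw [nr_apply B hr hq]
  have h0 : pr B (r * r) = 0 := (pr_eq_zero B (pair_mem B hr (right_mem_line hr.1) hr.2.1)).2
    (Or.inl (sq_one B.set.cls.1 hr.1))
  exact ⟨fun h => wr_pr_injective B hr (qx_line B hq hr) ⟨right_mem_line hr.1, hr.2.1⟩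
    (h.trans h0.symm), fun h => by rw [h, h0]⟩

theorem eq_zero_of_nr {v : Res B} (h : ∀ r ∈ Near D x, Nr B r v = 0) : v = 0 := by
  obtain ⟨q, hq, rfl⟩ := pr_surjective B v
  rw [pr_eq_zero B hq]
  exact kernel_eq B (qx_commute hq) fun e he =>
    commute_of_cj_eq ((nr_eq_zero_iff B he hq).1 (h e he))

theorem nr_wr_zero {r s : G} (hr : r ∈ Near D x) (hs : s ∈ Near D x) (h : Commute r s)
    {v : Res B} (hv : v ∈ Wr B s) : Nr B r v = 0 := by
  obtain ⟨a, ⟨ha, hax⟩, rfl⟩ := (mem_wr B hs).1 hv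
  rw [nr_eq_zero_iff B hr (pair_mem B hs ha hax)]
  exact cj_eq_self (h.symm.mul_left (commute_all_of_two B.set B.memX hs (left_mem_line B.memX)
    (right_mem_line hs.1) hs.2.1.symm hr.1 hr.2.2.symm h ha).symm)

theorem nr_wr_injective {r s : G} (hr : r ∈ Near D x) (hs : s ∈ Near D x) (h : ¬ Commute r s)
    {v : Res B} (hv : v ∈ Wr B s) (h0 : Nr B r v = 0) : v = 0 := by
  obtain ⟨a, ⟨ha, hax⟩, rfl⟩ := (mem_wr B hs).1 hv
  rw [nr_eq_zero_iff B hr (pair_mem B hs ha hax)] at h0
  by_cases has : a = s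
  · rw [has]
    exact (pr_eq_zero B (pair_mem B hs (right_mem_line hs.1) hs.2.1)).2
      (Or.inl (sq_one B.set.cls.1 hs.1))
  · exact absurd h0 ((translate B.set B.memX hs ha hax hr).2.2 (fun h' => h h'.symm) has)

theorem res_span : ⊤ ≤ Submodule.span (ZMod 2)
    {v : Res B | ∃ r ∈ Near D x, v ∈ Wr B r} := by
  rintro v -
  obtain ⟨q, hq, rfl⟩ := pr_surjective B v
  refine (closure_induction (p := fun g _ => g ∈ Qx D x ∧ pr B g ∈ Submodule.span (ZMod 2)
    {v : Res B | ∃ r ∈ Near D x, v ∈ Wr B r}) ?_ ?_ ?_ ?_ hq).2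
  · rintro _ ⟨a, b, ha, hb, hbL, rfl⟩
    exact ⟨pair_mem B ha hbL hb.2.1,
      Submodule.subset_span ⟨a, ha, (mem_wr B ha).2 ⟨b, ⟨hbL, hb.2.1⟩, rfl⟩⟩⟩
  · refine ⟨one_mem _, ?_⟩
    rw [(pr_eq_zero B (one_mem _)).2 (Or.inl rfl)]; exact zero_mem _
  · rintro g h - - ⟨hg, hg'⟩ ⟨hh, hh'⟩
    exact ⟨mul_mem hg hh, by rw [pr_mul B hg hh]; exact add_mem hg' hh'⟩
  · rintro g - ⟨hg, hg'⟩
    exact ⟨inv_mem hg, by rw [pr_inv B hg]; exact hg'⟩

theorem nr_line {r r' : G} (hr : r ∈ Near D x) (hr' : r' ∈ Line D x r) (hne : r' ≠ x)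
    (v : Res B) : Nr B r' v = Nr B r v := by
  obtain ⟨hr'N, -⟩ := line_of_near B.set B.memX hr hr' hne
  obtain ⟨q, hq, rfl⟩ := pr_surjective B v
  simp only [Nr, dif_pos hr'N, dif_pos hr, LinearMap.add_apply, tr_apply B hr'N hq, tr_apply B hr hq]
  congr 1
  have hu := pair_mem B hr hr' hne
  have h1 : cj r' q = cj r (cj (r * r') q) := by
    rw [← cj_mul, ← mul_assoc, sq_one B.set.cls.1 hr.1, one_mul]
  have hq' := qx_conj B (qx_commute hu) hq
  rw [h1]
  refine pr_cj B hr.2.2.symm hq' hq ?_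
  rw [cj, pr_mul B (mul_mem hu hq) (inv_mem hu), pr_mul B hu hq, pr_inv B hu, add_comm (pr B (r * r')),
    add_assoc, res_add_self, add_zero]

theorem tr_nr {r : G} (hr : r ∈ Near D x) (v : Res B) : Tr B r hr v = v + Nr B r v := by
  rw [Nr, dif_pos hr, LinearMap.add_apply, LinearMap.id_apply, add_left_comm, res_add_self,
    add_zero]

theorem tr_cj {r s : G} (hr : r ∈ Near D x) (hs : s ∈ Near D x) (hrs : cj r s ∈ Near D x)
    (v : Res B) : Tr B (cj r s) hrs v = Tr B r hr (Tr B s hs (Tr B r hr v)) := by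
  obtain ⟨q, hq, rfl⟩ := pr_surjective B v
  rw [tr_apply B hrs hq, tr_apply B hr hq, tr_apply B hs (qx_conj B hr.2.2.symm hq),
    tr_apply B hr (qx_conj B hs.2.2.symm (qx_conj B hr.2.2.symm hq)), ← cj_mul, ← cj_mul]
  congr 2
  simp only [cj, inv_self B.set.cls.1 hr.1]

theorem nr_sq {r : G} (hr : r ∈ Near D x) (v : Res B) : Nr B r (Nr B r v) = 0 :=
  nr_wr_zero B hr hr (Commute.refl r) (nr_mem B r hr v)

/-- For non-commuting partners the displacements are inverse bijections of their lines' translations. -/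
theorem nr_nr {r s : G} (hr : r ∈ Near D x) (hs : s ∈ Near D x) (h : ¬ Commute r s) {v : Res B}
    (hv : v ∈ Wr B r) : Nr B r (Nr B s v) = v := by
  have hrs := near_conj_mem B.set hr.2.2.symm hs
  have hsr := near_conj_mem B.set hs.2.2.symm hr
  have h1 := tr_cj B hr hs hrs v
  have h2 := tr_cj B hs hr hsr v
  have hb : Tr B (cj r s) hrs = Tr B (cj s r) hsr := by
    have := braid_cj B.set.cls.1 hr.1 hs.1 h
    congr 1
  rw [hb, h2] at h1
  have hv0 : Nr B r v = 0 := nr_wr_zero B hr hr (Commute.refl r) hv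
  simp only [tr_nr, map_add, hv0, add_zero, map_zero, nr_sq B hr] at h1
  have h3 : Nr B s v = Nr B s (Nr B r (Nr B s v)) := by
    have hss := nr_sq B hs v
    simp only [hss, add_zero, zero_add] at h1
    set a := Nr B s v with ha
    set b := Nr B r a with hb'
    set c := Nr B s b with hc
    have e : v + a + (a + (b + c)) = v + (a + b) + (a + c) := by abel
    rw [e, add_eq_left] at h1
    exact (add_eq_zero_iff_eq_neg.1 h1).trans (neg_eq_of_add_eq_zero_left (res_add_self B _))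
  refine sub_eq_zero.1 (nr_wr_injective B hs hr (fun h' => h h'.symm)
    (sub_mem (nr_mem B r hr _) hv) ?_)
  rw [map_sub, sub_eq_zero]
  exact h3.symm

end Cfsg.Agent.H9.Polar
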