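import Cfsg.Agent.H9.PolarBound
import Cfsg.Agent.H2.Basis
import Cfsg.Agent.H2.Witt

/-!
# Lines of three points give a symplectic group over the field of two elements
-/

set_option autoImplicit false

namespace Cfsg.Agent.H9.Polar

open Subgroup
open Cfsg.Agent.H17
open Cfsg.Agent.H9.Fischer (cj cj_injective cj_eq_self exists_cj Near Far cj_mem_iff common_cj
  common_ncard_const)

variable {G : Type*} [Group G]

open Classical in
/-- The partner indicator of a member, as a vector over the field of two elements. -/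
noncomputable def phi (D : Set G) (u : G) : D → ZMod 2 :=
  fun d => if Commute u (d : G) then 0 else 1

variable [Finite G] {D : Set G} (S : Setting D)
include S

/-- With lines of three points no member avoids a hyperbolic line. -/
theorem hyperbolic_meets (h3 : ∀ x ∈ D, ∀ a ∈ Near D x, (Line D x a).ncard = 3) {x y d : G}
    (hx : x ∈ D) (hy : y ∈ Far D x) (hd : d ∈ D) :
    Commute d x ∨ Commute d y ∨ Commute d (cj x y) := by
  by_contra h
  push Not at h
  obtain ⟨hdx, hdy, hdz⟩ := h
  have hw : cj y d ∈ D := (cj_mem_iff S.conj).2 hd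
  have hM : ∀ e ∈ common D x y, Commute d e := by
    intro m hm
    by_contra hdm
    have hmN := common_near S hy hm
    obtain ⟨m', hm', hm'x, hm'm⟩ := exists_third S hx hmN
    have hL : Line D x m = {x, m, m'} := by
      refine (Set.eq_of_subset_of_ncard_le (Set.insert_subset (left_mem_line hx)
        (Set.insert_subset (right_mem_line hm.1) (Set.singleton_subset_iff.2 hm')))
        (le_of_eq ?_) (Set.toFinite _)).symm
      rw [h3 x hx m hmN, Set.ncard_insert_of_notMem (by simp [hmN.2.1.symm, hm'x.symm])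
        (Set.toFinite _), Set.ncard_pair hm'm.symm]
    have hmeet : ∀ e ∈ D, ¬ Commute e x → ¬ Commute e m → Commute e m' := by
      intro e he hex hem
      obtain ⟨u, hu, heu⟩ := meets S hx hmN he
      rw [hL] at hu
      rcases hu with rfl | rfl | rfl
      exacts [absurd heu hex, absurd heu hem, heu]
    have hdm' := hmeet d hd hdx hdm
    have hwm : ¬ Commute (cj y d) m := fun h => hdm (by
      have := (commute_cj y).2 h
      rwa [cj_cj_self S.cls.1 hy.1, cj_eq_self hm.2.2] at this)
    have hxy' : ¬ Commute x y := hy.2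
    have hwx : ¬ Commute (cj y d) x := fun h => hdz (by
      have := (commute_cj y).2 h
      rwa [cj_cj_self S.cls.1 hy.1, ← braid_cj S.cls.1 hx hy.1 hxy'] at this)
    have hwm' := hmeet _ hw hwx hwm
    have hym' : ¬ Commute y m' := fun h => hxy' (commute_all_of_two S hx hmN
      (right_mem_line hm.1) hm' hm'm.symm hy.1 hm.2.2 h (left_mem_line hx)).symm
    refine hym' ?_
    have h1 := (commute_cj d).2 hwm'
    rwa [cj_eq_self hdm', ← braid_cj S.cls.1 hd hy.1 hdy, cj_cj_self S.cls.1 hd] at h1
  have hdL : d ∈ Line D x y := ⟨hd, hM⟩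
  rw [far_line_eq S hx hy] at hdL
  rcases hdL with rfl | rfl | rfl
  exacts [hdx (Commute.refl _), hdy (Commute.refl _), hdz (Commute.refl _)]

theorem phi_inj {u v : G} (hu : u ∈ D) (hv : v ∈ D) (h : phi D u = phi D v) : u = v := by
  refine vrel_eq S.cls S.prim S.exists_pair ⟨hu, hv, fun y hy => ?_⟩
  have := congrFun h ⟨y, hy⟩
  by_cases h1 : Commute u y <;> by_cases h2 : Commute v y <;> simp_all [phi]

theorem exists_far {x : G} (hx : x ∈ D) : ∃ y, y ∈ Far D x := by
  obtain ⟨a, ha⟩ := exists_near S hx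
  obtain ⟨y, hy, -, hxy⟩ := exists_partner_not_commute S ha.1 hx ha.2.1
  exact ⟨y, hy, hxy⟩

theorem phi_ne_zero {u : G} (hu : u ∈ D) : phi D u ≠ 0 := fun h => by
  obtain ⟨y, hy⟩ := exists_far S hu
  have := congrFun h ⟨y, hy.1⟩
  simp [phi, hy.2] at this

theorem phi_third (h3 : ∀ x ∈ D, ∀ a ∈ Near D x, (Line D x a).ncard = 3) {u v : G}
    (hu : u ∈ D) (hv : v ∈ D) (huv : u ≠ v) :
    (¬ Commute u v → phi D (cj u v) = phi D u + phi D v) ∧
      ∃ w ∈ D, phi D w = phi D u + phi D v := by
  classical
  have two : ∀ {p q r d : G}, Commute p d → Commute q d → r = cj p q → Commute r d := by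
    rintro p q r d hp hq rfl
    rw [← cj_eq_self hp, commute_cj]; exact hq
  have key : ¬ Commute u v → phi D (cj u v) = phi D u + phi D v := by
    intro hc
    funext ⟨d, hd⟩
    have hy : v ∈ Far D u := ⟨hv, hc⟩
    simp only [phi, Pi.add_apply]
    by_cases h1 : Commute u d <;> by_cases h2 : Commute v d
    · simp [h1, h2, two h1 h2 rfl]
    · have : ¬ Commute (cj u v) d := fun h => h2 (two h1 h (cj_cj_self S.cls.1 hu v).symm)
      simp [h1, h2, this]
    · have : ¬ Commute (cj u v) d := fun h => h1 (by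
        have h' := two (p := v) (q := cj u v) (r := u) h2 h
          (by rw [braid_cj S.cls.1 hu hv hc, cj_cj_self S.cls.1 hv])
        exact h')
      simp [h1, h2, this]
    · rcases hyperbolic_meets S h3 hu hy hd with h | h | h
      · exact absurd h.symm h1
      · exact absurd h.symm h2
      · rw [if_pos h.symm, if_neg h1, if_neg h2]; decide
  refine ⟨key, ?_⟩
  by_cases hc : Commute u v
  · have hvN : v ∈ Near D u := ⟨hv, huv.symm, hc⟩
    obtain ⟨w, hw, hwu, hwv⟩ := exists_third S hu hvN
    have hL : Line D u v = {u, v, w} := by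
      refine (Set.eq_of_subset_of_ncard_le (Set.insert_subset (left_mem_line hu)
        (Set.insert_subset (right_mem_line hv) (Set.singleton_subset_iff.2 hw)))
        (le_of_eq ?_) (Set.toFinite _)).symm
      rw [h3 u hu v hvN, Set.ncard_insert_of_notMem (by simp [huv, hwu.symm]) (Set.toFinite _),
        Set.ncard_pair hwv.symm]
    refine ⟨w, hw.1, ?_⟩
    funext ⟨d, hd⟩
    simp only [phi, Pi.add_apply]
    have h2' : ∀ {p q r}, p ∈ Line D u v → q ∈ Line D u v → r ∈ Line D u v → p ≠ q →
        Commute p d → Commute q d → Commute r d := fun hp hq hr hne h1 h2 =>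
      (commute_all_of_two S hu hvN hp hq hne hd h1.symm h2.symm hr).symm
    obtain ⟨z, hz, hdz⟩ := meets S hu hvN hd
    rw [hL] at hz
    have hzc : Commute u d ∨ Commute v d ∨ Commute w d := by
      rcases hz with rfl | rfl | rfl
      exacts [Or.inl hdz.symm, Or.inr (Or.inl hdz.symm), Or.inr (Or.inr hdz.symm)]
    by_cases h1 : Commute u d <;> by_cases h2 : Commute v d
    · simp [h1, h2, h2' (left_mem_line hu) (right_mem_line hv) hw huv h1 h2]
    · have : ¬ Commute w d := fun h =>
        h2 (h2' (left_mem_line hu) hw (right_mem_line hv) hwu.symm h1 h)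
      simp [h1, h2, this]
    · have : ¬ Commute w d := fun h =>
        h1 (h2' (right_mem_line hv) hw (left_mem_line hu) hwv.symm h2 h)
      simp [h1, h2, this]
    · rw [if_pos (hzc.resolve_left h1 |>.resolve_left h2), if_neg h1, if_neg h2]; decide
  · exact ⟨cj u v, (cj_mem_iff S.conj).2 hv, key hc⟩

/-- The group is symplectic, acting on its class as on the non-zero vectors. -/
theorem symplectic_model (h3 : ∀ x ∈ D, ∀ a ∈ Near D x, (Line D x a).ncard = 3) :
    ∃ (m : ℕ) (θ : G → (Fin m ⊕ Fin m → ZMod 2)),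
      Nonempty (G ≃* Matrix.symplecticGroup (Fin m) (ZMod 2)) ∧
      (∀ u ∈ D, ∀ v ∈ D, θ u = θ v → u = v) ∧ (∀ u ∈ D, θ u ≠ 0) ∧
      (∀ w, w ≠ 0 → ∃ u ∈ D, θ u = w) ∧
      ∀ u ∈ D, ∀ v ∈ D, (Commute u v ↔ Cfsg.sympForm m (ZMod 2) (θ u) (θ v) = 0) := by
  classical
  have z2 : ∀ c : ZMod 2, c = 0 ∨ c = 1 := by decide
  have hself : ∀ w : D → ZMod 2, w + w = 0 := fun w => funext fun d => by
    simp only [Pi.add_apply, Pi.zero_apply]
    rcases z2 (w d) with h | h <;> rw [h] <;> decide
  let V : Submodule (ZMod 2) (D → ZMod 2) :=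
    { carrier := {w | w = 0 ∨ ∃ u ∈ D, phi D u = w}
      zero_mem' := Or.inl rfl
      add_mem' := by
        rintro w w' (rfl | ⟨u, hu, rfl⟩) (rfl | ⟨v, hv, rfl⟩)
        · exact Or.inl (add_zero _)
        · exact Or.inr ⟨v, hv, (zero_add _).symm⟩
        · exact Or.inr ⟨u, hu, (add_zero _).symm⟩
        · by_cases huv : u = v
          · exact Or.inl (by rw [huv]; exact hself _)
          · obtain ⟨-, w, hw, h⟩ := phi_third S h3 hu hv huv
            exact Or.inr ⟨w, hw, h⟩
      smul_mem' := fun c w hw => by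
        rcases z2 c with rfl | rfl
        · exact Or.inl (zero_smul _ _)
        · rwa [one_smul] }
  let pick : V → G := fun w => if h : ∃ u ∈ D, phi D u = w.1 then h.choose else 1
  have pick_spec : ∀ w : V, w.1 ≠ 0 → pick w ∈ D ∧ phi D (pick w) = w.1 := fun w hw => by
    have h := w.2.resolve_left hw
    simp only [pick, dif_pos h]
    exact h.choose_spec
  let ev : V → V → ZMod 2 := fun v w =>
    if h : pick w ∈ D ∧ phi D (pick w) = w.1 then v.1 ⟨pick w, h.1⟩ else 0
  have ev_phi : ∀ (v w : V) (u : G) (hu : u ∈ D), phi D u = w.1 → ev v w = v.1 ⟨u, hu⟩ := by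
    intro v w u hu h
    obtain ⟨h1, h2⟩ := pick_spec w (h ▸ phi_ne_zero S hu)
    simp only [ev, dif_pos (show pick w ∈ D ∧ phi D (pick w) = w.1 from ⟨h1, h2⟩)]
    have he : pick w = u := phi_inj S h1 hu (h2.trans h.symm)
    exact congrArg v.1 (Subtype.ext he)
  have ev_zero : ∀ (v w : V), w.1 = 0 → ev v w = 0 := fun v w hw => by
    simp only [ev]
    split_ifs with h
    · exact absurd (h.2.trans hw) (phi_ne_zero S h.1)
    · rfl
  have ev_symm : ∀ v w : V, ev v w = ev w v := by
    intro v w
    rcases eq_or_ne v.1 0 with hv | hv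
    · rw [ev_zero w v hv]
      rcases eq_or_ne w.1 0 with hw | hw
      · exact ev_zero v w hw
      · obtain ⟨h1, h2⟩ := pick_spec w hw
        rw [ev_phi v w _ h1 h2, hv]; rfl
    rcases eq_or_ne w.1 0 with hw | hw
    · rw [ev_zero v w hw]
      obtain ⟨h1, h2⟩ := pick_spec v hv
      rw [ev_phi w v _ h1 h2, hw]; rfl
    obtain ⟨h1, h2⟩ := pick_spec v hv
    obtain ⟨h1', h2'⟩ := pick_spec w hw
    rw [ev_phi v w _ h1' h2', ev_phi w v _ h1 h2, ← h2, ← h2']
    simp only [phi]
    exact if_congr Commute.symm_iff rfl rfl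
  have ev_add : ∀ v v' w : V, ev (v + v') w = ev v w + ev v' w := by
    intro v v' w
    rcases eq_or_ne w.1 0 with hw | hw
    · simp [ev_zero _ w hw]
    · obtain ⟨h1, h2⟩ := pick_spec w hw
      simp [ev_phi _ w _ h1 h2]
  have ev_smul : ∀ (c : ZMod 2) (v w : V), ev (c • v) w = c * ev v w := by
    intro c v w
    rcases eq_or_ne w.1 0 with hw | hw
    · simp [ev_zero _ w hw]
    · obtain ⟨h1, h2⟩ := pick_spec w hw
      simp [ev_phi _ w _ h1 h2]
  let B : LinearMap.BilinForm (ZMod 2) V := LinearMap.mk₂ (ZMod 2) ev ev_add ev_smul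
    (fun v w w' => by rw [ev_symm, ev_add, ev_symm w, ev_symm w'])
    (fun c v w => by rw [ev_symm, ev_smul, ev_symm, smul_eq_mul])
  have hA : B.IsAlt := fun v => by
    show ev v v = 0
    rcases eq_or_ne v.1 0 with hv | hv
    · exact ev_zero v v hv
    · obtain ⟨h1, h2⟩ := pick_spec v hv
      rw [ev_phi v v _ h1 h2, ← h2]
      simp [phi]
  let vec : D → V := fun u => ⟨phi D u, Or.inr ⟨u, u.2, rfl⟩⟩
  have hBev : ∀ (v : V) (u : D), B v (vec u) = v.1 u := fun v u => ev_phi v (vec u) u u.2 rfl
  have hsepl : ∀ v : V, (∀ w, B v w = 0) → v = 0 := fun v h =>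
    Subtype.ext (funext fun u => by rw [← hBev v u, h]; rfl)
  have hB : B.Nondegenerate := ⟨hsepl, fun w h => hsepl w fun v => by
    show ev w v = 0
    rw [ev_symm]; exact h v⟩
  -- the action of the group
  let act : G → (D → ZMod 2) → D → ZMod 2 := fun g w d =>
    w ⟨g⁻¹ * d * g, by simpa using S.conj g⁻¹ d d.2⟩
  have act_phi : ∀ g u, act g (phi D u) = phi D (cj g u) := fun g u => funext fun d => by
    simp only [act, phi]
    refine if_congr ?_ rfl rfl
    rw [← commute_cj g]
    simp only [cj]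
    rw [show g * (g⁻¹ * (d : G) * g) * g⁻¹ = d by group]
  have act_mem : ∀ g, ∀ w ∈ V, act g w ∈ V := by
    rintro g w (rfl | ⟨u, hu, rfl⟩)
    · exact Or.inl rfl
    · exact Or.inr ⟨cj g u, (cj_mem_iff S.conj).2 hu, (act_phi g u).symm⟩
  have act_mul : ∀ g h w, act (g * h) w = act g (act h w) := fun g h w => funext fun d => by
    simp only [act]
    congr 2
    group
  have act_one : ∀ w, act 1 w = w := fun w => funext fun d => by simp [act]
  let L : G →* (V ≃ₗ[ZMod 2] V) :=
    { toFun := fun g =>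
        { toFun := fun w => ⟨act g w.1, act_mem g _ w.2⟩
          map_add' := fun _ _ => rfl
          map_smul' := fun _ _ => rfl
          invFun := fun w => ⟨act g⁻¹ w.1, act_mem _ _ w.2⟩
          left_inv := fun w => Subtype.ext (by simp [← act_mul, act_one])
          right_inv := fun w => Subtype.ext (by simp [← act_mul, act_one]) }
      map_one' := LinearEquiv.ext fun w => Subtype.ext (act_one _)
      map_mul' := fun g h => LinearEquiv.ext fun w => Subtype.ext (act_mul _ _ _) }
  have hiso : ∀ g, L g ∈ H2.isometries B := by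
    intro g v w
    show ev (L g v) (L g w) = ev v w
    rcases eq_or_ne w.1 0 with hw | hw
    · rw [ev_zero v w hw, ev_zero]
      show act g w.1 = 0
      rw [hw]; rfl
    · obtain ⟨h1, h2⟩ := pick_spec w hw
      rw [ev_phi v w _ h1 h2, ev_phi _ _ (cj g (pick w)) ((cj_mem_iff S.conj).2 h1)
        (by show phi D _ = act g w.1; rw [← act_phi, h2])]
      show act g v.1 _ = _
      simp only [act]
      congr 2
      simp only [cj]; group
  let ψ : G →* H2.isometries B := L.codRestrict _ hiso
  have hinj : Function.Injective ψ := by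
    rw [injective_iff_map_eq_one]
    intro g hg
    have hfix : ∀ d ∈ D, Commute g d := fun d hd => by
      refine commute_of_cj_eq (phi_inj S ((cj_mem_iff S.conj).2 hd) hd ?_)
      have h := congrArg (fun f : H2.isometries B => ((f : V ≃ₗ[ZMod 2] V) (vec ⟨d, hd⟩)).1) hg
      exact (act_phi g d).symm.trans h
    have hmem : g ∈ center G := by
      rw [mem_center_iff]
      intro h
      have hle : closure D ≤ centralizer {g} := (closure_le _).2 fun d hd =>
        mem_centralizer_iff.2 fun w hw => by rw [Set.mem_singleton_iff.1 hw]; exact (hfix d hd).eq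
      exact (mem_centralizer_iff.1 (hle (S.cls.2.2.symm ▸ mem_top h)) g rfl).symm
    rwa [S.center_bot, mem_bot] at hmem
  have htrans : ∀ (u : D) (v : V), (ψ u : V ≃ₗ[ZMod 2] V) v = v + B v (vec u) • vec u := by
    rintro ⟨u, hu⟩ v
    refine Subtype.ext ?_
    show act u v.1 = v.1 + B v (vec ⟨u, hu⟩) • phi D u
    rw [hBev]
    rcases eq_or_ne v.1 0 with hv | hv
    · rw [hv]; funext d; simp [act]
    · obtain ⟨h1, h2⟩ := pick_spec v hv
      rw [← h2, act_phi]
      generalize pick v = p at h1 ⊢
      simp only [phi]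
      by_cases hc : Commute p u
      · rw [if_pos hc, zero_smul, add_zero, cj_eq_self hc.symm]
      · rw [if_neg hc, one_smul]
        exact ((phi_third S h3 hu h1 (fun h => hc (h ▸ Commute.refl _))).1
          (fun h => hc h.symm)).trans (add_comm _ _)
  have hsurj : Function.Surjective ψ := by
    intro A
    let b := Module.finBasis (ZMod 2) V
    let ρ : H2.isometries B →* Module.End (ZMod 2) V :=
      { toFun := fun f => (f : V ≃ₗ[ZMod 2] V).toLinearMap
        map_one' := rfl
        map_mul' := fun _ _ => rfl }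
    obtain ⟨g, ⟨g', rfl⟩, hg⟩ := H2.exists_mem_map_tuple hB hA ρ ψ.range (fun v c => by
        rcases eq_or_ne v 0 with rfl | hv
        · exact ⟨1, one_mem _, fun x => by simp⟩
        rcases z2 c with rfl | rfl
        · exact ⟨1, one_mem _, fun x => by simp⟩
        obtain ⟨h1, h2⟩ := pick_spec v fun h => hv (Subtype.ext h)
        refine ⟨ψ (pick v), ⟨_, rfl⟩, fun x => ?_⟩
        have h := htrans ⟨pick v, h1⟩ x
        rw [show vec ⟨pick v, h1⟩ = v from Subtype.ext h2] at h
        show (ψ (pick v) : V ≃ₗ[ZMod 2] V) x = _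
        rw [h, one_mul])
      (fun f _ x y => f.2 x y) b (fun i => (A : V ≃ₗ[ZMod 2] V) (b i)) b.linearIndependent
      (b.linearIndependent.map' _ (LinearEquiv.ker _)) (fun i j => (A.2 _ _).symm)
    refine ⟨g', Subtype.ext (LinearEquiv.toLinearMap_injective (b.ext hg))⟩
  obtain ⟨m, e, hdim, he⟩ := H2.exists_equiv_std B hB hA
  obtain ⟨iso⟩ := H2.isometries_equiv_sp B hB hA hdim
  refine ⟨m, fun u => if h : u ∈ D then e (vec ⟨u, h⟩) else 0,
    ⟨(MulEquiv.ofBijective ψ ⟨hinj, hsurj⟩).trans iso⟩, ?_, ?_, ?_, ?_⟩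
  · intro u hu v hv h
    simp only [dif_pos hu, dif_pos hv] at h
    exact phi_inj S hu hv (congrArg Subtype.val (e.injective h))
  · intro u hu h
    simp only [dif_pos hu, LinearEquiv.map_eq_zero_iff] at h
    exact phi_ne_zero S hu (congrArg Subtype.val h)
  · intro w hw
    obtain ⟨h1, h2⟩ := pick_spec (e.symm w) fun h => hw (by
      rw [← e.apply_symm_apply w, show e.symm w = 0 from Subtype.ext h, map_zero])
    refine ⟨pick (e.symm w), h1, ?_⟩
    simp only [dif_pos h1]
    rw [show vec ⟨_, h1⟩ = e.symm w from Subtype.ext h2, e.apply_symm_apply]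
  · intro u hu v hv
    simp only [dif_pos hu, dif_pos hv]
    rw [he, hBev]
    simp only [vec, phi]
    by_cases h : Commute u v <;> simp [h]

end Cfsg.Agent.H9.Polar
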