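import Cfsg.Agent.H9.PolarPoints
import Cfsg.Agent.H3.Generation
import Cfsg.Agent.H3.Isotropic

/-!
# Lines of five points give a unitary group over the field of four elements
-/

set_option autoImplicit false

namespace Cfsg.Agent.H9.Polar

open Subgroup
open Cfsg.Agent.H17
open Cfsg.Agent.H9.FieldFour
open Cfsg.Agent.H9.Fischer (cj cj_injective cj_eq_self exists_cj Near Far cj_mem_iff)

variable {G : Type*} [Group G] [Finite G] {D : Set G} {x y : G} (B : Base D x y)
include B

theorem finrank_vec : Module.finrank F4 (Vec B) = Module.finrank F4 (Res B) + 2 := by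
  rw [Module.finrank_prod, Module.finrank_prod, Module.finrank_self]; omega

/-- The group is the projective special unitary group of the space. -/
theorem unitary_model :
    Nonempty (G ≃* Cfsg.PSU (Module.finrank F4 (Res B) + 2) F4 2) := by
  classical
  have S := B.set
  set n := Module.finrank F4 (Res B) + 2 with hn
  have h4n : 4 ≤ n := by have := two_le_finrank B; omega
  have hF : Fintype.card F4 = 2 ^ 2 := by rw [card_F4]; norm_num
  obtain ⟨b, hb⟩ := (isHermV B).exists_orth_basis (finrank_vec B)
  let φ := b.equivFun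
  have hφ : ∀ v w : Vec B, hermForm n F4 2 (φ w) (φ v) = HH B v w := by
    intro v w
    have key : ∀ (u : Vec B) i, hV B (b i) u = φ u i := fun u i => by
      conv_lhs => rw [← b.sum_equivFun u]
      exact hb.apply_sum _ i
    have key2 : hV B v w = ∑ i, cnj (φ v i) * φ w i := by
      conv_lhs => rw [← b.sum_equivFun v]
      rw [map_sum, LinearMap.sum_apply]
      refine Finset.sum_congr rfl fun i _ => ?_
      rw [LinearMap.map_smulₛₗ, LinearMap.smul_apply, smul_eq_mul, key]
    rw [← hV_apply, key2]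
    exact Finset.sum_congr rfl fun i _ => by rw [cnj_apply, mul_comm]
  let X : G → Fin n → F4 := fun d => φ (theta B d)
  have hX0 : ∀ d ∈ D, hermForm n F4 2 (X d) (X d) = 0 := fun d hd => by
    rw [hφ]; exact theta_isotropic B hd
  have hXne : ∀ d ∈ D, X d ≠ 0 := fun d hd h => theta_ne_zero B hd (φ.injective (h.trans (map_zero φ).symm))
  have hXinj : ∀ {a b : G}, a ∈ D → b ∈ D → ∀ k : F4, X a = k • X b → a = b := fun ha hb k h =>
    theta_injective B ha hb (φ.injective (h.trans (map_smul φ k _).symm))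
  have hXsurj : ∀ v : Fin n → F4, hermForm n F4 2 v v = 0 → v ≠ 0 →
      ∃ a ∈ D, ∃ k : F4, k ≠ 0 ∧ X a = k • v := by
    intro v hv hv0
    obtain ⟨a, ha, k, hk⟩ := theta_surjective B (z := φ.symm v)
      (by rw [← hφ, φ.apply_symm_apply]; exact hv)
      (fun h => hv0 (by rw [← φ.apply_symm_apply v, h, map_zero]))
    have hXa : X a = k • v := by simp only [X, hk, map_smul, φ.apply_symm_apply]
    exact ⟨a, ha, k, fun h => hXne a ha (by rw [hXa, h, zero_smul]), hXa⟩
  let app : Cfsg.SU n F4 2 → (Fin n → F4) → Fin n → F4 := fun g v =>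
    Matrix.mulVec (g.1 : Matrix (Fin n) (Fin n) F4) v
  have app_mul : ∀ g h v, app (g * h) v = app g (app h v) := fun g h v => by
    simp [app, Matrix.mulVec_mulVec]
  have app_one : ∀ v, app 1 v = v := fun v => by simp [app]
  have hex : ∀ (g : Cfsg.SU n F4 2) (d : D), ∃ a ∈ D, ∃ k : F4, k ≠ 0 ∧ X a = k • app g (X d) := by
    intro g d
    refine hXsurj _ ((H3.mem_SU_iff.1 g.2 _ _).trans (hX0 d d.2)) fun h => hXne d d.2 ?_
    have h1 := app_mul g⁻¹ g (X d)
    rw [inv_mul_cancel, app_one, h] at h1
    rw [h1]; simp [app]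
  let pact : Cfsg.SU n F4 2 → D → D := fun g d => ⟨(hex g d).choose, (hex g d).choose_spec.1⟩
  have pact_spec : ∀ g d, ∃ k : F4, k ≠ 0 ∧ X (pact g d) = k • app g (X d) := fun g d =>
    (hex g d).choose_spec.2
  have pact_eq : ∀ g (d a : D) (k : F4), X a = k • app g (X d) → pact g d = a := by
    intro g d a k h
    obtain ⟨k', hk', h'⟩ := pact_spec g d
    refine (Subtype.ext (hXinj a.2 (pact g d).2 (k * k'⁻¹) ?_)).symm
    rw [h, h', smul_smul, inv_mul_cancel_right₀ hk']
  have pact_mul : ∀ g h d, pact (g * h) d = pact g (pact h d) := by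
    intro g h d
    obtain ⟨k, -, hk⟩ := pact_spec h d
    obtain ⟨k', -, hk'⟩ := pact_spec g (pact h d)
    refine pact_eq _ _ _ (k' * k) ?_
    rw [hk', hk, app_mul]
    simp only [app, Matrix.mulVec_smul, smul_smul]
  have pact_one : ∀ d, pact 1 d = d := fun d => pact_eq _ _ _ 1 (by rw [app_one, one_smul])
  let ρ : Cfsg.SU n F4 2 →* Equiv.Perm D :=
    { toFun := fun g => ⟨pact g, pact g⁻¹, fun d => by rw [← pact_mul, inv_mul_cancel, pact_one],
        fun d => by rw [← pact_mul, mul_inv_cancel, pact_one]⟩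
      map_one' := Equiv.ext pact_one
      map_mul' := fun g h => Equiv.ext fun d => pact_mul g h d }
  let c : G →* Equiv.Perm D :=
    { toFun := fun g => ⟨fun d => ⟨cj g d, (cj_mem_iff S.conj).2 d.2⟩,
        fun d => ⟨cj g⁻¹ d, (cj_mem_iff S.conj).2 d.2⟩,
        fun d => Subtype.ext (by show cj g⁻¹ (cj g d) = d; rw [← cj_mul, inv_mul_cancel, cj_one]),
        fun d => Subtype.ext (by show cj g (cj g⁻¹ d) = d; rw [← cj_mul, mul_inv_cancel, cj_one])⟩
      map_one' := Equiv.ext fun d => Subtype.ext (cj_one _)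
      map_mul' := fun g h => Equiv.ext fun d => Subtype.ext (cj_mul g h _) }
  have hcinj : Function.Injective c := by
    rw [injective_iff_map_eq_one]
    intro g hg
    have hfix : ∀ d ∈ D, Commute g d := fun d hd =>
      commute_of_cj_eq (congrArg Subtype.val (Equiv.ext_iff.1 hg ⟨d, hd⟩))
    have hmem : g ∈ center G := by
      rw [mem_center_iff]
      intro h
      have hle : closure D ≤ centralizer {g} := (closure_le _).2 fun d hd =>
        mem_centralizer_iff.2 fun w hw => by rw [Set.mem_singleton_iff.1 hw]; exact (hfix d hd).eq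
      exact (mem_centralizer_iff.1 (hle (S.cls.2.2.symm ▸ mem_top h)) g rfl).symm
    rwa [S.center_bot, mem_bot] at hmem
  -- transvections
  have h11 : (1 : F4) + 1 ^ 2 = 0 := by rw [one_pow]; exact FieldFour.add_self 1
  let T : D → Cfsg.SU n F4 2 := fun d => H3.suTrans hF (X d) 1 (hX0 d d.2) h11
  have hT : ∀ d : D, ρ (T d) = c d := by
    intro d
    refine Equiv.ext fun e => ?_
    obtain ⟨k, hk⟩ := theta_cj B d.2 e.2
    refine pact_eq _ _ ⟨cj d e, (cj_mem_iff S.conj).2 e.2⟩ k ?_
    show φ (theta B (cj d e)) = k • app (T d) (X e)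
    rw [hk, map_smul, map_add, map_smul]
    congr 1
    show _ = Matrix.mulVec (unitaryTransvection n 2 (X d) 1) (X e)
    rw [H3.unitaryTransvection_mulVec, one_mul, hφ]
  have hrange : ρ.range = c.range := by
    refine le_antisymm ?_ ?_
    · have hle : H3.transGroup n F4 2 ≤ (c.range.comap ρ).map (H3.suToGU n F4 2) := by
        refine (closure_le _).2 ?_
        rintro t ⟨v, a, hv, ht⟩
        have h1 : unitaryTransvection n 2 v a = 1 → t ∈ (c.range.comap ρ).map (H3.suToGU n F4 2) :=
          fun h => by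
            have : t = 1 := Subtype.ext (Units.ext (ht.trans h))
            rw [this]; exact one_mem _
        rcases eq_or_ne a 0 with rfl | ha
        · exact h1 (by simp [unitaryTransvection])
        rcases eq_or_ne v 0 with rfl | hv0
        · exact h1 (by simp [unitaryTransvection, Matrix.zero_vecMulVec])
        have htr := H3.trace_zero_of_transvection_preserves hF hv0 (c := a) hv fun u w => by
          rw [← ht]; exact H3.GU_preserves t u w
        obtain rfl : a = 1 := by
          have h : a * (a + 1) = 0 := by linear_combination htr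
          exact (add_eq_zero_iff_eq_neg.1 ((mul_eq_zero.1 h).resolve_left ha)).trans
            (neg_eq_of_add_eq_zero_left (FieldFour.add_self 1))
        obtain ⟨d, hd, k, hk, hXd⟩ := hXsurj v hv hv0
        refine ⟨T ⟨d, hd⟩, ⟨d, (hT ⟨d, hd⟩).symm⟩, Subtype.ext (Units.ext ?_)⟩
        show unitaryTransvection n 2 (X d) 1 = _
        rw [ht, hXd]
        refine Matrix.ext_of_mulVec_single fun i => ?_
        rw [H3.unitaryTransvection_mulVec, H3.unitaryTransvection_mulVec, H3.hermForm_smul_right hF,
          smul_smul]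
        congr 2
        have hk3 : k ^ 2 * k = 1 := by rw [← cnj_apply]; exact norm_eq_one hk
        linear_combination hermForm n F4 2 (Pi.single i 1) v * hk3
      rintro _ ⟨g, rfl⟩
      have hg : H3.suToGU n F4 2 g ∈ (H3.guDet n F4 2).ker := by
        rw [← H3.range_suToGU]; exact ⟨g, rfl⟩
      obtain ⟨g', hg', he⟩ := hle (H3.ker_le_transGroup hF (by omega) (by omega) hg)
      rw [← H3.suToGU_injective n he]
      exact hg'
    · rw [MonoidHom.range_eq_map c, ← S.cls.2.2, MonoidHom.map_closure]
      refine (closure_le _).2 ?_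
      rintro _ ⟨d, hd, rfl⟩
      exact ⟨T ⟨d, hd⟩, hT ⟨d, hd⟩⟩
  have hker : ρ.ker = center (Cfsg.SU n F4 2) := by
    ext g
    rw [MonoidHom.mem_ker, H3.mem_center_SU_iff hF (by omega)]
    constructor
    · intro hg
      refine H3.scalar_of_isotropic_eigen hF (by omega) _ fun v hv => ?_
      rcases eq_or_ne v 0 with rfl | hv0
      · exact ⟨0, by simp⟩
      obtain ⟨d, hd, k, hk, hXd⟩ := hXsurj v hv hv0
      obtain ⟨k', hk', h'⟩ := pact_spec g ⟨d, hd⟩
      have hp : pact g ⟨d, hd⟩ = ⟨d, hd⟩ := Equiv.ext_iff.1 hg ⟨d, hd⟩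
      rw [hp] at h'
      simp only [hXd, app, Matrix.mulVec_smul, smul_smul] at h'
      refine ⟨(k' * k)⁻¹ * k, ?_⟩
      rw [← smul_smul, h', smul_smul, inv_mul_cancel₀ (mul_ne_zero hk' hk), one_smul]
    · rintro ⟨l, hl⟩
      refine Equiv.ext fun d => ?_
      obtain ⟨k, -, hk⟩ := pact_spec g d
      have h2 : app g (X d) = l • X d := hl (X d)
      rw [h2, smul_smul] at hk
      exact Subtype.ext (hXinj (pact g d).2 d.2 _ hk)
  exact ⟨(MonoidHom.ofInjective hcinj).trans ((MulEquiv.subgroupCongr hrange.symm).trans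
    ((QuotientGroup.quotientKerEquivRange ρ).symm.trans (QuotientGroup.quotientMulEquivOfEq hker)))⟩

end Cfsg.Agent.H9.Polar
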