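import Cfsg.Agent.S1612
import Cfsg.Agent.H9.PolarUnitary
import Cfsg.Agent.H9.PolarSymp

/-!
# Getting the polar space setting
-/

set_option autoImplicit false

namespace Cfsg.Agent.H9.Polar

open Subgroup
open Cfsg.Agent.H17
open Cfsg.Agent.H9.Fischer (cj cj_injective cj_eq_self exists_cj Near Far cj_mem_iff near_conj)

variable {G : Type*} [Group G] [Finite G] {D : Set G}

/-- A normal 2-subgroup of the partners' group outside the centre gives the polar space setting. -/
theorem setting_of_twoGroup (hsol : ∀ N : Subgroup G, N.Normal → Group.IsSolvable ↥N → N = ⊥)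
    (hperf : ⁅commutator G, commutator G⁆ = commutator G) (hD : Cfsg.IsThreeTranspositionClass D)
    {x : G} (hx : x ∈ D) (O : Subgroup (closure (Near D x))) (hn : O.Normal) (hp : IsPGroup 2 O)
    (hO : ¬ O ≤ center (closure (Near D x))) : Setting D := by
  haveI := hn
  have hconj := class_conj hD
  obtain ⟨a, ha, o, ho, hao⟩ : ∃ a ∈ Near D x, ∃ o ∈ O, ¬ Commute a (o : G) := by
    by_contra h
    push Not at h
    refine hO fun o ho => mem_center_iff.2 fun g => Subtype.ext ?_
    have hle : (closure (Near D x)) ≤ centralizer {(o : G)} := (closure_le _).2 fun e he =>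
      mem_centralizer_iff.2 fun w hw => by
        rw [Set.mem_singleton_iff.1 hw]; exact (h e he o ho).symm.eq
    exact (mem_centralizer_iff.1 (hle g.2) _ rfl).symm
  have hxK : (closure (Near D x)) ≤ centralizer {x} := (closure_le _).2 fun e he =>
    mem_centralizer_iff.2 fun w hw => by rw [Set.mem_singleton_iff.1 hw]; exact he.2.2.eq
  have hox : Commute x (o : G) := mem_centralizer_iff.1 (hxK o.2) _ rfl
  set b := cj (o : G) a with hbdef
  have hb : b ∈ Near D x := by
    have h := near_conj hconj (o : G) x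
    rw [cj_eq_self hox.symm] at h
    rw [h]; exact ⟨a, ha, rfl⟩
  have hne : b ≠ a := fun h => hao ((mul_inv_eq_iff_eq_mul.1 h).symm)
  let el : ∀ {e : G}, e ∈ Near D x → closure (Near D x) := fun {e} he => ⟨e, subset_closure he⟩
  have hsq : ∀ {e : G} (he : e ∈ Near D x), el he * el he = 1 := fun he =>
    Subtype.ext (sq_one hD.1 he.1)
  have hab : el ha * el hb ∈ O := by
    have h : el ha * el hb = el ha * o * (el ha)⁻¹ * o⁻¹ := by
      refine Subtype.ext ?_
      show a * b = a * (o : G) * a⁻¹ * (o : G)⁻¹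
      rw [inv_self hD.1 ha.1, hbdef, cj]
      simp only [mul_assoc]
    rw [h]
    exact mul_mem (hn.conj_mem o ho _) (inv_mem ho)
  have hcomm : ∀ {p q : G} (hp' : p ∈ Near D x) (hq : q ∈ Near D x), el hp' * el hq ∈ O →
      Commute p q := by
    intro p q hp' hq h
    obtain ⟨n, hn⟩ := hp ⟨_, h⟩
    refine commute_of_two_pow hD.1 hp'.1 hq.1 (n := n) ?_
    have := congrArg (fun z : O => ((z : closure (Near D x)) : G)) hn
    simpa [el] using this
  have hba : el hb * el ha ∈ O := by
    have h := inv_mem hab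
    rwa [mul_inv_rev, inv_eq_of_mul_eq_one_right (hsq ha),
      inv_eq_of_mul_eq_one_right (hsq hb)] at h
  have key : ∀ p q (hp' : p ∈ Near D x) (hq : q ∈ Near D x), el hp' * el hq ∈ O →
      common D x p ⊆ common D x q := by
    intro p q hp' hq hmem e he
    refine ⟨he.1, he.2.1, ?_⟩
    rcases eq_or_ne e x with rfl | hex
    · exact hq.2.2.symm
    have heN : e ∈ Near D x := ⟨he.1, hex, he.2.1⟩
    by_contra hc
    refine hc (hcomm heN hq ?_).symm
    set E := el heN
    set P := el hp'
    set Q := el hq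
    have hP2 : P * P = 1 := hsq hp'
    have hPQ : (P : (closure (Near D x)) ⧸ O) = Q := by
      rw [QuotientGroup.eq, inv_eq_of_mul_eq_one_right hP2]; exact hmem
    have h3 : (E * Q) ^ 3 = 1 :=
      Subtype.ext (cube_one hD.1 he.1 hq.1 fun h => hc h.symm)
    have h2 : (E * P) ^ 2 = 1 := Subtype.ext
      ((commute_iff_sq (sq_one hD.1 he.1) (sq_one hD.1 hp'.1)).1 he.2.2.symm)
    have h3' : ((E * P : (closure (Near D x))) : (closure (Near D x)) ⧸ O) ^ 3 = 1 := by
      rw [QuotientGroup.mk_mul, hPQ, ← QuotientGroup.mk_mul, ← QuotientGroup.mk_pow, h3,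
        QuotientGroup.mk_one]
    rw [pow_succ, ← QuotientGroup.mk_pow, h2, QuotientGroup.mk_one, one_mul,
      QuotientGroup.eq_one_iff] at h3'
    have : E * Q = E * P * (P * Q) := by rw [mul_assoc, ← mul_assoc P P, hP2, one_mul]
    rw [this]; exact mul_mem h3' hmem
  refine ⟨hD, S1612.primitive hsol hperf hD ⟨x, hx, a, ha.1, ha.2.1.symm⟩, ?_,
    ⟨x, hx, a, ha, b, hb.1, hb.2.1, hne,
      subset_antisymm (key b a hb ha hba) (key a b ha hb hab)⟩⟩
  haveI : Group.IsSolvable (center G) := Group.isSolvable_of_comm fun a b =>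
    Subtype.ext ((mem_center_iff.1 b.2 a.1))
  exact hsol _ inferInstance inferInstance

/-- The two models of the polar space. -/
theorem model (S : Setting D) :
    ((∀ z ∈ D, ∀ a ∈ Near D z, (Line D z a).ncard = 3)) ∨
      ∃ x y, Base D x y := by
  obtain ⟨x, hx, a, ha, -⟩ := S.vline
  rcases line_card S hx ha with h | h
  · exact Or.inl fun z hz b hb => (line_ncard_eq S hz hb hx ha).trans h
  · obtain ⟨y, hy⟩ := exists_far S hx
    exact Or.inr ⟨x, y, S, fun z hz b hb => (line_ncard_eq S hz hb hx ha).trans h, hx, hy⟩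

end Cfsg.Agent.H9.Polar
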