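import Cfsg.Agent.H9.PolarSetup
import Cfsg.Agent.H9.FischerS5
import Cfsg.Agent.H19.Fitting
import Cfsg.Agent.S0247
import Cfsg.Agent.S1615

/-!
# Solvable partners' groups
-/

set_option autoImplicit false

namespace Cfsg.Agent.H9.Polar

open Subgroup
open Cfsg.Agent.H17
open Cfsg.Agent.H9.FieldFour
open Cfsg.Agent.H9.Fischer (cj cj_injective cj_eq_self exists_cj Near Far cj_mem_iff near_conj)

variable {G : Type*} [Group G]

theorem isLiftable_chain {K : Type*} [Group K] {a b c d : K} (s1 : a * a = 1) (s2 : b * b = 1)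
    (s3 : c * c = 1) (s4 : d * d = 1) (t1 : (a * b) ^ 3 = 1) (t1' : (b * a) ^ 3 = 1)
    (t2 : (b * c) ^ 3 = 1) (t2' : (c * b) ^ 3 = 1) (t3 : (c * d) ^ 3 = 1) (t3' : (d * c) ^ 3 = 1)
    (u1 : (a * c) ^ 2 = 1) (u1' : (c * a) ^ 2 = 1) (u2 : (a * d) ^ 2 = 1) (u2' : (d * a) ^ 2 = 1)
    (u3 : (b * d) ^ 2 = 1) (u3' : (d * b) ^ 2 = 1) :
    (CoxeterMatrix.A 4).IsLiftable ![a, b, c, d] := by
  intro i j
  rw [H63.coxeterA_apply]
  fin_cases i <;> fin_cases j <;>
    simp [s1, s2, s3, s4, t1, t1', t2, t2', t3, t3', u1, u1', u2, u2', u3, u3']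

theorem injective_perm_five {K : Type*} [Group K] (φ : Equiv.Perm (Fin 5) →* K)
    (h : φ (Equiv.swap 0 1 * Equiv.swap 2 3) ≠ 1) : Function.Injective φ := by
  rw [injective_iff_map_eq_one]
  intro n hn
  haveI := alternatingGroup.isSimpleGroup_five
  rcases Subgroup.Normal.eq_bot_or_eq_top
    (inferInstance : (φ.ker.subgroupOf (alternatingGroup (Fin 5))).Normal) with hk | hk
  · refine Fischer.perm_five_central n fun g => ?_
    have hmem : g * n * g⁻¹ * n⁻¹ ∈ alternatingGroup (Fin 5) := by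
      rw [Equiv.Perm.mem_alternatingGroup]
      simp [mul_comm, mul_left_comm]
    have hker : (⟨_, hmem⟩ : alternatingGroup (Fin 5)) ∈
        φ.ker.subgroupOf (alternatingGroup (Fin 5)) := by
      rw [mem_subgroupOf, MonoidHom.mem_ker]
      show φ (g * n * g⁻¹ * n⁻¹) = 1
      simp [hn]
    rw [hk, mem_bot] at hker
    have h1 : g * n * g⁻¹ * n⁻¹ = 1 := congrArg Subtype.val hker
    rwa [mul_inv_eq_one, mul_inv_eq_iff_eq_mul] at h1
  · exfalso
    apply h
    have hmem : (Equiv.swap 0 1 * Equiv.swap 2 3 : Equiv.Perm (Fin 5)) ∈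
        alternatingGroup (Fin 5) := by
      rw [Equiv.Perm.mem_alternatingGroup]; decide
    have hm : (⟨_, hmem⟩ : alternatingGroup (Fin 5)) ∈
        φ.ker.subgroupOf (alternatingGroup (Fin 5)) := hk ▸ mem_top _
    exact MonoidHom.mem_ker.1 (mem_subgroupOf.1 hm)

variable [Finite G] {D : Set G}

/-- Four partners of one member forming a chain are incompatible with solvability. -/
theorem no_chain (hD : Cfsg.IsThreeTranspositionClass D) {x z : G} (hx : x ∈ D) (hz : z ∈ D)
    (hs : Group.IsSolvable (closure (Near D x))) {a b c d : G} (ha : a ∈ Near D z)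
    (hb : b ∈ Near D z) (hc : c ∈ Near D z) (hd : d ∈ Near D z) (hab : ¬ Commute a b)
    (hbc : ¬ Commute b c) (hcd : ¬ Commute c d) (hac : Commute a c) (had : Commute a d)
    (hbd : Commute b d) : False := by
  have hconj := class_conj hD
  obtain ⟨g, rfl⟩ := class_transitive hD hx hz
  rw [show g * x * g⁻¹ = cj g x from rfl, near_conj hconj g x] at ha hb hc hd
  obtain ⟨a, ha, rfl⟩ := ha
  obtain ⟨b, hb, rfl⟩ := hb
  obtain ⟨c, hc, rfl⟩ := hc
  obtain ⟨d, hd, rfl⟩ := hd
  rw [commute_cj] at hab hbc hcd hac had hbd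
  let K := closure (Near D x)
  let A : K := ⟨a, subset_closure ha⟩
  let B : K := ⟨b, subset_closure hb⟩
  let C : K := ⟨c, subset_closure hc⟩
  let E : K := ⟨d, subset_closure hd⟩
  have sq : ∀ {e} (he : e ∈ Near D x), e * e = 1 := fun he => sq_one hD.1 he.1
  have cu : ∀ {e f} (he : e ∈ Near D x) (hf : f ∈ Near D x), ¬ Commute e f → (e * f) ^ 3 = 1 :=
    fun he hf => cube_one hD.1 he.1 hf.1
  have cm : ∀ {e f} (he : e ∈ Near D x) (hf : f ∈ Near D x), Commute e f → (e * f) ^ 2 = 1 :=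
    fun he hf => (commute_iff_sq (sq he) (sq hf)).1
  have hlift : (CoxeterMatrix.A 4).IsLiftable ![A, B, C, E] :=
    isLiftable_chain (Subtype.ext (sq ha)) (Subtype.ext (sq hb)) (Subtype.ext (sq hc))
      (Subtype.ext (sq hd)) (Subtype.ext (cu ha hb hab))
      (Subtype.ext (cu hb ha fun h => hab h.symm)) (Subtype.ext (cu hb hc hbc))
      (Subtype.ext (cu hc hb fun h => hbc h.symm)) (Subtype.ext (cu hc hd hcd))
      (Subtype.ext (cu hd hc fun h => hcd h.symm)) (Subtype.ext (cm ha hc hac))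
      (Subtype.ext (cm hc ha hac.symm)) (Subtype.ext (cm ha hd had))
      (Subtype.ext (cm hd ha had.symm)) (Subtype.ext (cm hb hd hbd))
      (Subtype.ext (cm hd hb hbd.symm))
  obtain ⟨cs, hcs⟩ := H63.exists_coxeterSystem_perm 4
  set φ := cs.lift ⟨_, hlift⟩ with hφ
  have hgen : ∀ i : Fin 4, φ (Equiv.swap i.castSucc i.succ) = ![A, B, C, E] i := fun i => by
    rw [← hcs i, hφ]; exact CoxeterSystem.lift_apply_simple cs hlift i
  have hinj : Function.Injective φ := by
    refine injective_perm_five φ ?_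
    have e1 : φ (Equiv.swap 0 1) = A := hgen 0
    have e3 : φ (Equiv.swap 2 3) = C := hgen 2
    rw [map_mul, e1, e3]
    intro h
    have h' : a * c = 1 := congrArg Subtype.val h
    have hca : c = a := by
      rw [eq_inv_of_mul_eq_one_right h', inv_self hD.1 ha.1]
    exact hcd (hca ▸ had)
  haveI : Group.IsSolvable K := hs
  exact Equiv.Perm.fin_5_not_solvable (Group.isSolvable_of_isSolvable_injective hinj)

theorem exists_nontrivial (hsol : ∀ N : Subgroup G, N.Normal → Group.IsSolvable ↥N → N = ⊥)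
    (hD : Cfsg.IsThreeTranspositionClass D) {x : G} (hx : x ∈ D) :
    ∃ a, a ∈ Near D x := by
  by_contra hne
  push Not at hne
  have hconj := class_conj hD
  have hall : ∀ d ∈ D, ∀ e, e ∉ Near D d := by
    intro d hd e he
    obtain ⟨g, rfl⟩ := class_transitive hD hx hd
    rw [show g * x * g⁻¹ = cj g x from rfl, near_conj hconj g x] at he
    obtain ⟨e', he', -⟩ := he
    exact hne e' he'
  have h3 : ∀ d ∈ D, ∀ e ∈ D, (d * e) ^ 3 = 1 := by
    intro d hd e he
    by_cases h : Commute d e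
    · obtain rfl : e = d := by_contra fun hed => hall d hd e ⟨he, hed, h⟩
      rw [sq_one hD.1 hd, one_pow]
    · exact cube_one hD.1 hd he h
  haveI : Fact (Nat.Prime 3) := ⟨Nat.prime_three⟩
  have h0 : Cfsg.pCore 3 G = ⊥ := hsol _ (H51.pCore_normal 3 G)
    (isSolvable_of_le_isPGroup le_rfl (H51.pCore_isPGroup 3 G))
  have hsingle : ∀ d ∈ D, d = x := fun d hd => by
    have h := width_one_mem_pCore (fun d hd => sq_one hD.1 hd) hconj h3 hd hx
    rw [h0, mem_bot] at h
    rw [eq_inv_of_mul_eq_one_left h, inv_self hD.1 hx]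
  have hx1 : x ≠ 1 := ne_one_of_orderOf (hD.1.1 x hx)
  refine hx1 ?_
  have hxc : ∀ g, Commute g x := fun g => commute_of_cj_eq (hsingle _ ((cj_mem_iff hconj).2 hx))
  haveI : Group.IsSolvable (center G) := Group.isSolvable_of_comm fun a b =>
    Subtype.ext ((mem_center_iff.1 b.2 a.1))
  have hxZ : x ∈ center G := mem_center_iff.2 fun g => (hxc g).eq
  have hbot : center G = ⊥ := hsol (center G) inferInstance inferInstance
  rwa [hbot, mem_bot] at hxZ

/-- A solvable partners' group has a non-central core. -/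
theorem core_not_central (hsol : ∀ N : Subgroup G, N.Normal → Group.IsSolvable ↥N → N = ⊥)
    (hperf : ⁅commutator G, commutator G⁆ = commutator G) (hD : Cfsg.IsThreeTranspositionClass D)
    {x : G} (hx : x ∈ D) (hs : Group.IsSolvable (closure (Near D x))) :
    ¬ Cfsg.oddCore (closure (Near D x)) ≤ center (closure (Near D x)) ∨
      ¬ Cfsg.pCore 2 (closure (Near D x)) ≤ center (closure (Near D x)) := by
  by_contra hboth
  push Not at hboth
  obtain ⟨hodd, htwo⟩ := hboth
  haveI := hs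
  have hF : Cfsg.fittingSubgroup (closure (Near D x)) ≤ center (closure (Near D x)) := by
    rw [H19.fitting_eq_iSup_pCore]
    refine iSup_le fun p => ?_
    rcases eq_or_ne (p : ℕ) 2 with h | h
    · rw [h]; exact htwo
    · haveI : Fact (p : ℕ).Prime := ⟨p.2⟩
      refine le_trans (H19.le_pPrimeCore (H19.pCore_normal _ _) ?_) hodd
      obtain ⟨n, hn⟩ := (IsPGroup.iff_card).1 (H19.pCore_isPGroup (G := closure (Near D x)) (p : ℕ))
      rw [hn]
      exact Nat.Coprime.pow_left n ((Nat.coprime_primes p.2 Nat.prime_two).2 h)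
  have hab : ∀ u v : closure (Near D x), u * v = v * u := by
    intro u v
    have h1 : u ∈ Cfsg.fittingSubgroup (closure (Near D x)) :=
      H19.centralizer_fitting_le (mem_centralizer_iff.2 fun f hf => ((mem_center_iff.1 (hF hf)) u).symm)
    exact ((mem_center_iff.1 (hF h1)) v).symm
  have hcomm : ∀ a ∈ Near D x, ∀ b ∈ Near D x, Commute a b := fun a ha b hb =>
    congrArg Subtype.val (hab ⟨a, subset_closure ha⟩ ⟨b, subset_closure hb⟩)
  obtain ⟨a, ha⟩ := exists_nontrivial hsol hD hx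
  have hprim := S1612.primitive hsol hperf hD ⟨x, hx, a, ha.1, ha.2.1.symm⟩
  have hconj := class_conj hD
  let perp : G → Set G := fun d => {e | e ∈ D ∧ Commute d e}
  have hsub : perp x ⊆ perp a := by
    rintro e ⟨he, hxe⟩
    refine ⟨he, ?_⟩
    rcases eq_or_ne e x with rfl | hex
    · exact ha.2.2.symm
    · exact hcomm a ha e ⟨he, hex, hxe⟩
  have heq : perp x = perp a := by
    refine Set.eq_of_subset_of_ncard_le hsub (le_of_eq ?_) (Set.toFinite _)
    obtain ⟨g, rfl⟩ := class_transitive hD hx ha.1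
    rw [show perp (g * x * g⁻¹) = cj g '' perp x from ?_,
      Set.ncard_image_of_injective _ (cj_injective g)]
    ext e
    obtain ⟨e, rfl⟩ := exists_cj g e
    simp only [perp, Set.mem_setOf_eq, (cj_injective g).mem_set_image,
      show g * x * g⁻¹ = cj g x from rfl, commute_cj, cj_mem_iff hconj]
  refine ha.2.1 (vrel_eq hD hprim ⟨x, hx, a, ha.1, ha.2.1.symm, ha.2.2⟩
    ⟨ha.1, hx, fun e he => ?_⟩)
  exact ⟨fun h => (heq ▸ (⟨he, h⟩ : e ∈ perp x) : e ∈ perp a).2,
    fun h => (heq.symm ▸ (⟨he, h⟩ : e ∈ perp a) : e ∈ perp x).2⟩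

/-- With lines of five points and a solvable partners' group the residue has dimension at most 3. -/
theorem finrank_le_three {x y z : G} (hz : z ∈ D) (hs : Group.IsSolvable (closure (Near D z)))
    (B : Base D x y) : Module.finrank F4 (Res B) ≤ 3 := by
  by_contra h
  obtain ⟨b, hb, -⟩ := (isHerm B).exists_orth_extend (k := 0) (n := 4) (by omega) (Nat.zero_le 4)
    (b := fun i => i.elim0) (fun i => i.elim0)
  have e : ∀ i j : Fin 4, hh B (b i) (b j) = if i = j then 1 else 0 := hb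
  have hom : (1 : F4) + om ≠ 0 := fun h' => om_ne_one (by linear_combination h' - two_eq_zero)
  let p := b 0 + b 1
  let q := b 0 + om • b 1
  let d' := b 2 + om • b 3
  let r := b 2 + b 3
  have hp : hh B p p = 0 := by simp [p, hh_add_left, hh_add_right, e, FieldFour.add_self]
  have hq : hh B q q = 0 := by
    simp [q, hh_add_left, hh_add_right, hh_smul_left, hh_smul_right, e, cnj_om]
    linear_combination om_eq
  have hd : hh B d' d' = 0 := by
    simp [d', hh_add_left, hh_add_right, hh_smul_left, hh_smul_right, e, cnj_om]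
    linear_combination om_eq
  have hr : hh B r r = 0 := by simp [r, hh_add_left, hh_add_right, e, FieldFour.add_self]
  have hpr : hh B p r = 0 := by simp [p, r, hh_add_left, hh_add_right, e]
  have hc : hh B (p + r) (p + r) = 0 := by
    rw [hh_add_left, hh_add_right B p p r, hh_add_right B r p r, hp, hr, hpr, ← hh_symm B p r, hpr]
    simp
  have h1 : hh B p q ≠ 0 := by
    simpa [p, q, hh_add_left, hh_add_right, hh_smul_right, e] using hom
  have h2 : hh B q (p + r) ≠ 0 := by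
    have : hh B q r = 0 := by simp [q, r, hh_add_left, hh_add_right, hh_smul_left, e]
    rw [hh_add_right, this, add_zero, ← hh_symm B p q, ne_eq, map_eq_zero_iff _ cnj.injective]
    exact h1
  have hpd : hh B p d' = 0 := by simp [p, d', hh_add_left, hh_add_right, hh_smul_right, e]
  have h3 : hh B (p + r) d' ≠ 0 := by
    rw [hh_add_left, hpd, zero_add]
    simpa [r, d', hh_add_left, hh_add_right, hh_smul_right, e] using hom
  have h4 : hh B p (p + r) = 0 := by rw [hh_add_right, hp, hpr, add_zero]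
  have h5 : hh B q d' = 0 := by
    simp [q, d', hh_add_left, hh_add_right, hh_smul_left, hh_smul_right, e]
  have pt : ∀ v : Res B, hh B v v = 0 → v ≠ 0 →
      ∃ a ∈ Near D x, ∃ k : F4, k ≠ 0 ∧ theta B a = (0, k • v, 0) := by
    intro v hv hv0
    obtain ⟨a, ha, k, hk⟩ := theta_surjective B (z := (0, v, 0)) (by simp [HH, hv])
      (by simp [Prod.ext_iff, hv0])
    have hk0 : k ≠ 0 := fun h0 => theta_ne_zero B ha (by rw [hk, h0, zero_smul])
    simp only [Prod.smul_mk, smul_zero] at hk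
    refine ⟨a, ⟨ha, fun hax => ?_, ?_⟩, k, hk0, hk⟩
    · rw [hax, theta_x, Prod.mk.injEq] at hk
      exact one_ne_zero hk.1
    · rw [commute_iff_HH B B.memX ha, theta_x, hk]
      simp [HH, hh_zero_left]
  have ne0 : ∀ {u w : Res B}, hh B u w ≠ 0 → u ≠ 0 ∧ w ≠ 0 := fun {u w} h' =>
    ⟨fun h0 => h' (by rw [h0, hh_zero_left]), fun h0 => h' (by rw [h0, hh_zero_right])⟩
  obtain ⟨a, ha, k1, hk1, ea⟩ := pt p hp (ne0 h1).1
  obtain ⟨c, hcN, k3, hk3, ec⟩ := pt (p + r) hc (ne0 h3).1
  obtain ⟨b', hb', k2, hk2, eb⟩ := pt q hq (ne0 h1).2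
  obtain ⟨f, hf, k4, hk4, ef⟩ := pt d' hd (ne0 h3).2
  have adj : ∀ {u v : G} {s t : F4} {i j : Res B}, u ∈ Near D x → v ∈ Near D x → s ≠ 0 → t ≠ 0 →
      theta B u = (0, s • i, 0) → theta B v = (0, t • j, 0) → (Commute u v ↔ hh B i j = 0) := by
    intro u v s t i j hu hv hs ht eu ev'
    rw [commute_iff_HH B hu.1 hv.1, eu, ev']
    simp [HH, hh_smul_left, hh_smul_right, hs, ht]
  exact no_chain B.set.cls hz B.memX hs ha hb' hcN hf
    (fun h' => h1 ((adj ha hb' hk1 hk2 ea eb).1 h'))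
    (fun h' => h2 ((adj hb' hcN hk2 hk3 eb ec).1 h'))
    (fun h' => h3 ((adj hcN hf hk3 hk4 ec ef).1 h'))
    ((adj ha hcN hk1 hk3 ea ec).2 h4) ((adj ha hf hk1 hk4 ea ef).2 hpd)
    ((adj hb' hf hk2 hk4 eb ef).2 h5)

/-- With lines of three points and a solvable partners' group the dimension is four. -/
theorem symplectic_rank {z : G} (hz : z ∈ D) (hs : Group.IsSolvable (closure (Near D z)))
    (S : Setting D) (h3 : ∀ x ∈ D, ∀ a ∈ Near D x, (Line D x a).ncard = 3) :
    Nonempty (G ≃* Equiv.Perm (Fin 6)) := by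
  obtain ⟨m, θ, ⟨e⟩, hinj, hne, hsurj, hc⟩ := symplectic_model S h3
  obtain ⟨a, ha⟩ := exists_near S hz
  have hz0 := hne z hz
  have ha0 := hne a ha.1
  have hza : θ z ≠ θ a := fun h => ha.2.1 (hinj z hz a ha.1 h).symm
  have hperp := (hc z hz a ha.1).1 ha.2.2
  rcases lt_trichotomy m 2 with hm | rfl | hm
  · exfalso
    interval_cases m
    · exact hz0 (funext fun i => by rcases i with i | i <;> exact i.elim0)
    · have key : ∀ u v : Fin 1 ⊕ Fin 1 → ZMod 2, u ≠ 0 → v ≠ 0 → u ≠ v →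
          Cfsg.sympForm 1 (ZMod 2) u v ≠ 0 := by
        have h2 : ∀ u v : Fin 1 ⊕ Fin 1 → ZMod 2, u ≠ 0 → v ≠ 0 → u ≠ v →
            u (Sum.inr 0) * v (Sum.inl 0) - u (Sum.inl 0) * v (Sum.inr 0) ≠ 0 := by decide
        intro u v h1 h1' h1''
        simpa [H2.sympForm_apply] using h2 u v h1 h1' h1''
      exact key _ _ hz0 ha0 hza hperp
  · obtain ⟨f⟩ := S0247.result (F := ZMod 2) (ZMod.card 2)
    exact ⟨e.trans f⟩
  · exfalso
    let P : Fin m → (Fin m ⊕ Fin m → ZMod 2) := fun i => Pi.single (Sum.inl i) 1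
    let Q : Fin m → (Fin m ⊕ Fin m → ZMod 2) := fun i => Pi.single (Sum.inr i) 1
    let i0 : Fin m := ⟨0, by omega⟩
    let i1 : Fin m := ⟨1, by omega⟩
    let i2 : Fin m := ⟨2, by omega⟩
    have n01 : i0 ≠ i1 := by simp [i0, i1]
    have n02 : i0 ≠ i2 := by simp [i0, i2]
    have n12 : i1 ≠ i2 := by simp [i1, i2]
    have fPP : ∀ i j, Cfsg.sympForm m (ZMod 2) (P i) (P j) = 0 := fun i j => by
      simp [P, H2.sympForm_single_inl, Pi.single_apply]
    have fQQ : ∀ i j, Cfsg.sympForm m (ZMod 2) (Q i) (Q j) = 0 := fun i j => by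
      simp [Q, H2.sympForm_single_inr, Pi.single_apply]
    have fPQ : ∀ i j, Cfsg.sympForm m (ZMod 2) (P i) (Q j) = if i = j then 1 else 0 := fun i j => by
      simp [P, Q, H2.sympForm_single_inl, Pi.single_apply, ZMod.neg_eq_self_mod_two]
    have fQP : ∀ i j, Cfsg.sympForm m (ZMod 2) (Q i) (P j) = if i = j then 1 else 0 := fun i j => by
      simp [P, Q, H2.sympForm_single_inr, Pi.single_apply]
    have addl : ∀ u v w, Cfsg.sympForm m (ZMod 2) (u + v) w =
        Cfsg.sympForm m (ZMod 2) u w + Cfsg.sympForm m (ZMod 2) v w := fun u v w => by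
      simp only [← H2.sympBilin_apply, map_add, LinearMap.add_apply]
    have addr : ∀ u v w, Cfsg.sympForm m (ZMod 2) u (v + w) =
        Cfsg.sympForm m (ZMod 2) u v + Cfsg.sympForm m (ZMod 2) u w := fun u v w => by
      simp only [← H2.sympBilin_apply, map_add, LinearMap.add_apply]
    have nz : ∀ {u v}, Cfsg.sympForm m (ZMod 2) u v ≠ 0 → u ≠ 0 := fun h h0 => h (by
      simp [h0, Cfsg.sympForm])
    obtain ⟨x, hx, ex⟩ := hsurj (P i0) (nz (v := Q i0) (by simp [fPQ]))
    have pt : ∀ w v, Cfsg.sympForm m (ZMod 2) w v ≠ 0 → Cfsg.sympForm m (ZMod 2) (P i0) v = 0 →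
        Cfsg.sympForm m (ZMod 2) (P i0) w = 0 →
        ∃ u ∈ Near D x, θ u = w := by
      intro w v h h' hw
      obtain ⟨u, hu, eu⟩ := hsurj w (nz h)
      refine ⟨u, ⟨hu, fun hux => h (by rw [← eu, hux, ex, h']), ?_⟩, eu⟩
      rw [hc x hx u hu, ex, eu, hw]
    obtain ⟨a, ha, ea⟩ := pt (P i1) (Q i1) (by simp [fPQ]) (by simp [fPQ, n01]) (fPP _ _)
    obtain ⟨b, hb, eb⟩ := pt (Q i1) (P i1) (by simp [fQP]) (fPP _ _) (by simp [fPQ, n01])
    obtain ⟨c, hcN, ec⟩ := pt (P i1 + P i2) (Q i2) (by simp [addl, fPQ, n12]) (by simp [fPQ, n02])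
      (by simp [addr, fPP])
    obtain ⟨d, hd, ed⟩ := pt (Q i2) (P i2) (by simp [fQP]) (fPP _ _) (by simp [fPQ, n02])
    have adj : ∀ {u v : G}, u ∈ Near D x → v ∈ Near D x →
        (Commute u v ↔ Cfsg.sympForm m (ZMod 2) (θ u) (θ v) = 0) := fun hu hv => hc _ hu.1 _ hv.1
    exact no_chain S.cls hz hx hs ha hb hcN hd (by rw [adj ha hb, ea, eb]; simp [fPQ])
      (by rw [adj hb hcN, eb, ec]; simp [addr, fQP, n12])
      (by rw [adj hcN hd, ec, ed]; simp [addl, fPQ, n12])
      (by rw [adj ha hcN, ea, ec]; simp [addr, fPP]) (by rw [adj ha hd, ea, ed]; simp [fPQ, n12])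
      (by rw [adj hb hd, eb, ed]; exact fQQ _ _)

end Cfsg.Agent.H9.Polar
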